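/-
Conjugates of blocks relative to the Baumann subgroup are blocks.
-/
import Cfsg.Agent.Lib.LocalEven.BaumannBlock

set_option autoImplicit false
set_option linter.unusedSectionVars false

namespace Cfsg.Agent.Lib.BPair.Conj

open Subgroup Cfsg
open Cfsg.Agent.Lib.PLocal.Thompson
open Cfsg.Agent.Lib.LocalEven.Util
open Cfsg.Agent.Lib.LocalEven.Baumann
open Cfsg.Agent.Lib.LocalEven.BaumannBlock
open Cfsg.Agent.Lib.LocalStruct.PCoreOf
open scoped commutatorElement

variable {G : Type*} [Group G]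

/-- The conjugate of a subgroup. -/
abbrev cj (g : G) (H : Subgroup G) : Subgroup G := H.map (MulAut.conj g).toMonoidHom

theorem mem_cj {g x : G} {H : Subgroup G} : x ∈ cj g H ↔ g⁻¹ * x * g ∈ H := by
  constructor
  · rintro ⟨u, hu, rfl⟩
    have e : g⁻¹ * (g * u * g⁻¹) * g = u := by group
    show g⁻¹ * (g * u * g⁻¹) * g ∈ H
    rw [e]
    exact hu
  · intro h
    refine ⟨_, h, ?_⟩
    show g * (g⁻¹ * x * g) * g⁻¹ = x
    group

theorem conj_mem_cj {g x : G} {H : Subgroup G} (hx : x ∈ H) : g * x * g⁻¹ ∈ cj g H :=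
  ⟨x, hx, rfl⟩

theorem cj_mono {g : G} {H K : Subgroup G} (h : H ≤ K) : cj g H ≤ cj g K :=
  Subgroup.map_mono h

theorem cj_inf (g : G) (H K : Subgroup G) : cj g (H ⊓ K) = cj g H ⊓ cj g K :=
  Subgroup.map_inf _ _ _ (MulAut.conj g).injective

theorem cj_commutator (g : G) (H K : Subgroup G) : cj g ⁅H, K⁆ = ⁅cj g H, cj g K⁆ :=
  Subgroup.map_commutator _ _ _

theorem cj_cj_inv (g : G) (H : Subgroup G) : cj g (cj g⁻¹ H) = H := by
  ext x
  rw [mem_cj, mem_cj]
  have e : g⁻¹⁻¹ * (g⁻¹ * x * g) * g⁻¹ = x := by group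
  rw [e]

theorem cj_inv_cj (g : G) (H : Subgroup G) : cj g⁻¹ (cj g H) = H := by
  have := cj_cj_inv g⁻¹ H
  rwa [inv_inv] at this

theorem cj_inj {g : G} {H K : Subgroup G} (h : cj g H = cj g K) : H = K := by
  have := congrArg (cj g⁻¹) h
  rwa [cj_inv_cj, cj_inv_cj] at this

theorem cj_centralizer (g : G) (H : Subgroup G) :
    cj g (centralizer (H : Set G)) = centralizer (cj g H : Set G) := by
  ext x
  rw [mem_cj, mem_centralizer_iff, mem_centralizer_iff]
  constructor
  · rintro h _ ⟨u, hu, rfl⟩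
    have := h u hu
    show (g * u * g⁻¹) * x = x * (g * u * g⁻¹)
    calc (g * u * g⁻¹) * x = g * (u * (g⁻¹ * x * g)) * g⁻¹ := by group
      _ = g * ((g⁻¹ * x * g) * u) * g⁻¹ := by rw [this]
      _ = x * (g * u * g⁻¹) := by group
  · intro h u hu
    have := h (g * u * g⁻¹) (conj_mem_cj hu)
    calc u * (g⁻¹ * x * g) = g⁻¹ * ((g * u * g⁻¹) * x) * g := by group
      _ = g⁻¹ * (x * (g * u * g⁻¹)) * g := by rw [this]
      _ = (g⁻¹ * x * g) * u := by group

theorem cj_omegaOne (p : ℕ) (g : G) (H : Subgroup G) :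
    cj g (omegaOne p H) = omegaOne p (cj g H) := by
  unfold cj
  rw [omegaOne, omegaOne, MonoidHom.map_closure]
  congr 1
  ext x
  constructor
  · rintro ⟨u, ⟨hu, hu'⟩, rfl⟩
    refine ⟨conj_mem_cj hu, ?_⟩
    show (g * u * g⁻¹) ^ p = 1
    rw [conj_pow, hu']
    simp
  · rintro ⟨hx, hx'⟩
    refine ⟨g⁻¹ * x * g, ⟨mem_cj.1 hx, ?_⟩, ?_⟩
    · have e : g⁻¹ * x * g = g⁻¹ * x * g⁻¹⁻¹ := by group
      rw [e, conj_pow, hx']
      simp
    · show g * (g⁻¹ * x * g) * g⁻¹ = x
      group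

theorem cj_omegaOneCenter (p : ℕ) (g : G) (H : Subgroup G) :
    cj g (omegaOneCenter p H) = omegaOneCenter p (cj g H) := by
  rw [omegaOneCenter, omegaOneCenter, cj_omegaOne, cj_inf, cj_centralizer]

theorem isAbExp_cj {e : ℕ} (g : G) {A : Subgroup G} (h : IsAbExp e A) : IsAbExp e (cj g A) := by
  obtain ⟨h1, h2⟩ := h
  refine ⟨?_, ?_⟩
  · rw [mulComm_iff] at h1 ⊢
    rintro _ ⟨a, ha, rfl⟩ _ ⟨b, hb, rfl⟩
    show (g * a * g⁻¹) * (g * b * g⁻¹) = (g * b * g⁻¹) * (g * a * g⁻¹)
    calc (g * a * g⁻¹) * (g * b * g⁻¹) = g * (a * b) * g⁻¹ := by group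
      _ = g * (b * a) * g⁻¹ := by rw [h1 a ha b hb]
      _ = (g * b * g⁻¹) * (g * a * g⁻¹) := by group
  · rintro _ ⟨a, ha, rfl⟩
    show (g * a * g⁻¹) ^ e = 1
    rw [conj_pow, h2 a ha]
    simp

theorem card_cj (g : G) (H : Subgroup G) : Nat.card (cj g H) = Nat.card H :=
  Subgroup.card_map_of_injective (MulAut.conj g).injective

theorem isMaxIn_cj {e : ℕ} (g : G) {P A : Subgroup G} (h : IsMaxIn e P A) :
    IsMaxIn e (cj g P) (cj g A) := by
  refine ⟨cj_mono h.1, isAbExp_cj g h.2.1, ?_⟩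
  intro B hB hB'
  have h1 := h.2.2 (cj g⁻¹ B) (by
    have := cj_mono (g := g⁻¹) hB
    rwa [cj_inv_cj] at this) (isAbExp_cj g⁻¹ hB')
  rwa [card_cj, ← card_cj g A] at h1

theorem cj_jOf (e : ℕ) (g : G) (P : Subgroup G) : cj g (jOf e P) = jOf e (cj g P) := by
  rw [jOf, jOf]
  apply le_antisymm
  · rw [Subgroup.map_le_iff_le_comap]
    apply sSup_le
    intro A hA
    rw [← Subgroup.map_le_iff_le_comap]
    exact le_sSup (isMaxIn_cj g hA)
  · apply sSup_le
    intro A hA
    have h1 : IsMaxIn e P (cj g⁻¹ A) := by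
      have := isMaxIn_cj g⁻¹ hA
      rwa [cj_inv_cj] at this
    have h2 : A = cj g (cj g⁻¹ A) := (cj_cj_inv g A).symm
    rw [h2]
    exact cj_mono (le_sSup h1)

theorem cj_zjOf (e : ℕ) (g : G) (P : Subgroup G) : cj g (zjOf e P) = zjOf e (cj g P) := by
  rw [zjOf, zjOf, cj_inf, cj_centralizer, cj_jOf]

variable [Finite G] {p : ℕ} [Fact p.Prime]

theorem cj_baumann (g : G) (T : Subgroup G) :
    cj g (baumannSubgroupOf p T) = baumannSubgroupOf p (cj g T) := by
  rw [baumann_eq, baumann_eq, cj_inf, cj_centralizer, cj_omegaOne, cj_zjOf]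

theorem cj_pResidualOf (g : G) (E : Subgroup G) :
    cj g (pResidualOf p E) = pResidualOf p (cj g E) := by
  have key : ∀ K : Subgroup G, pResidualOf p K = closure {x : G | x ∈ K ∧ (orderOf x).Coprime p} := by
    intro K
    rw [pResidualOf, pResidual, MonoidHom.map_closure]
    congr 1
    ext x
    constructor
    · rintro ⟨u, hu, rfl⟩
      refine ⟨u.2, ?_⟩
      have : orderOf (K.subtype u) = orderOf u := Subgroup.orderOf_coe u
      rw [this]
      exact hu
    · rintro ⟨hx, hc⟩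
      refine ⟨⟨x, hx⟩, ?_, rfl⟩
      show (orderOf (⟨x, hx⟩ : K)).Coprime p
      rw [Subgroup.orderOf_mk]
      exact hc
  rw [key, key]
  unfold cj
  rw [MonoidHom.map_closure]
  congr 1
  ext x
  constructor
  · rintro ⟨u, ⟨hu, hu'⟩, rfl⟩
    refine ⟨conj_mem_cj hu, ?_⟩
    have : orderOf ((MulAut.conj g).toMonoidHom u) = orderOf u :=
      MulEquiv.orderOf_eq (MulAut.conj g) u
    rw [this]
    exact hu'
  · rintro ⟨hx, hx'⟩
    refine ⟨g⁻¹ * x * g, ⟨mem_cj.1 hx, ?_⟩, ?_⟩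
    · have e : g⁻¹ * x * g = (MulAut.conj g⁻¹) x := by
        simp [MulAut.conj_apply]
      rw [e, MulEquiv.orderOf_eq]
      exact hx'
    · show g * (g⁻¹ * x * g) * g⁻¹ = x
      group

/-- Conjugation backwards. -/
def back (g : G) (H : Subgroup G) : ↥(cj g H) ≃* ↥H where
  toFun x := ⟨g⁻¹ * x * g, mem_cj.1 x.2⟩
  invFun y := ⟨g * y * g⁻¹, conj_mem_cj y.2⟩
  left_inv := by
    intro x
    apply Subtype.ext
    show g * (g⁻¹ * x * g) * g⁻¹ = x
    group
  right_inv := by
    intro y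
    apply Subtype.ext
    show g⁻¹ * (g * y * g⁻¹) * g = y
    group
  map_mul' := by
    intro x y
    apply Subtype.ext
    show g⁻¹ * (x * y) * g = (g⁻¹ * x * g) * (g⁻¹ * y * g)
    group

theorem back_coe (g : G) (H : Subgroup G) (x : ↥(cj g H)) : ((back g H x : H) : G) = g⁻¹ * x * g :=
  rfl

theorem iso_cj (g : G) (E : Subgroup G) {X : Type*} [Group X]
    (h : Nonempty (↥E ⧸ pCore p ↥E ≃* X)) : Nonempty (↥(cj g E) ⧸ pCore p ↥(cj g E) ≃* X) := by
  obtain ⟨φ⟩ := h
  have hm : (pCore p ↥(cj g E)).map (back g E).toMonoidHom = pCore p ↥E :=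
    Cfsg.Agent.Lib.Core.Basic.map_pCore_equiv (back g E)
  exact ⟨(QuotientGroup.congr _ _ (back g E) hm).trans φ⟩

theorem sl2_cj (g : G) {F : Type*} [Field F] {R : Subgroup (Matrix.SpecialLinearGroup (Fin 2) F)}
    {E U U₀ : Subgroup G} (h : ActsAsSL2OnSection F R E U U₀) :
    ActsAsSL2OnSection F R (cj g E) (cj g U) (cj g U₀) := by
  obtain ⟨hEU, hU₀, ρ, ψ, hρ, hψs, hker, hact⟩ := h
  refine ⟨?_, cj_mono hU₀, ρ.comp (back g E).toMonoidHom, ψ.comp (back g U).toMonoidHom, ?_, ?_, ?_, ?_⟩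
  · rintro _ ⟨e, he, rfl⟩
    have hh := hEU he
    apply mem_normalizer_of_conj_le
    intro y hy
    show (g * e * g⁻¹) * y * (g * e * g⁻¹)⁻¹ ∈ cj g U
    rw [mem_cj]
    have e1 : g⁻¹ * ((g * e * g⁻¹) * y * (g * e * g⁻¹)⁻¹) * g = e * (g⁻¹ * y * g) * e⁻¹ := by group
    rw [e1]
    exact conj_mem_of_mem_normalizer hh (mem_cj.1 hy)
  · rw [MonoidHom.range_comp]
    have : (back g E).toMonoidHom.range = ⊤ :=
      MonoidHom.range_eq_top.2 (back g E).surjective
    rw [this, ← MonoidHom.range_eq_map, hρ]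
  · intro a
    obtain ⟨u, hu⟩ := hψs a
    refine ⟨(back g U).symm u, ?_⟩
    show ψ (back g U ((back g U).symm u)) = a
    rw [MulEquiv.apply_symm_apply, hu]
  · intro u
    show ψ (back g U u) = 1 ↔ _
    rw [hker]
    exact mem_cj.symm
  · intro e u
    obtain ⟨w, hw, hw'⟩ := hact (back g E e) (back g U u)
    refine ⟨(back g U).symm w, ?_, ?_⟩
    · show g * (w : G) * g⁻¹ = _
      rw [hw]
      show g * ((g⁻¹ * e * g) * (g⁻¹ * u * g) * (g⁻¹ * e * g)⁻¹) * g⁻¹ = _
      group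
    · show Multiplicative.toAdd (ψ (back g U ((back g U).symm w))) = _
      rw [MulEquiv.apply_symm_apply]
      exact hw'

theorem perm_cj (g : G) {n : ℕ} {R : Subgroup (Equiv.Perm (Fin n))}
    {E U U₀ : Subgroup G} (h : ActsAsOddPermModuleOnSection n R E U U₀) :
    ActsAsOddPermModuleOnSection n R (cj g E) (cj g U) (cj g U₀) := by
  obtain ⟨hEU, hU₀, ρ, ψ, hρ, hsum, hsurj, hker, hact⟩ := h
  refine ⟨?_, cj_mono hU₀, ρ.comp (back g E).toMonoidHom, ψ.comp (back g U).toMonoidHom, ?_, ?_, ?_, ?_, ?_⟩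
  · rintro _ ⟨e, he, rfl⟩
    have hh := hEU he
    apply mem_normalizer_of_conj_le
    intro y hy
    show (g * e * g⁻¹) * y * (g * e * g⁻¹)⁻¹ ∈ cj g U
    rw [mem_cj]
    have e1 : g⁻¹ * ((g * e * g⁻¹) * y * (g * e * g⁻¹)⁻¹) * g = e * (g⁻¹ * y * g) * e⁻¹ := by group
    rw [e1]
    exact conj_mem_of_mem_normalizer hh (mem_cj.1 hy)
  · rw [MonoidHom.range_comp]
    have : (back g E).toMonoidHom.range = ⊤ :=
      MonoidHom.range_eq_top.2 (back g E).surjective
    rw [this, ← MonoidHom.range_eq_map, hρ]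
  · intro u
    exact hsum _
  · intro v hv
    obtain ⟨u, hu⟩ := hsurj v hv
    refine ⟨(back g U).symm u, ?_⟩
    show Multiplicative.toAdd (ψ (back g U ((back g U).symm u))) = v
    rw [MulEquiv.apply_symm_apply, hu]
  · intro u
    show ψ (back g U u) = 1 ↔ _
    rw [hker]
    exact mem_cj.symm
  · intro e u
    obtain ⟨w, hw, hw'⟩ := hact (back g E e) (back g U u)
    refine ⟨(back g U).symm w, ?_, ?_⟩
    · show g * (w : G) * g⁻¹ = _
      rw [hw]
      show g * ((g⁻¹ * e * g) * (g⁻¹ * u * g) * (g⁻¹ * e * g)⁻¹) * g⁻¹ = _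
      group
    · intro i
      show Multiplicative.toAdd (ψ (back g U ((back g U).symm w))) i = _
      rw [MulEquiv.apply_symm_apply]
      exact hw' i

theorem frattini_cj (g : G) (Q : Subgroup G) :
    cj g ((frattini ↥Q).map Q.subtype) = (frattini ↥(cj g Q)).map (cj g Q).subtype := by
  have h1 : ∀ (g : G) (Q : Subgroup G),
      cj g ((frattini ↥Q).map Q.subtype) ≤ (frattini ↥(cj g Q)).map (cj g Q).subtype := by
    intro g Q
    rintro _ ⟨_, ⟨x, hx, rfl⟩, rfl⟩
    have h2 : (back g Q).symm x ∈ frattini ↥(cj g Q) := by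
      have := frattini_le_comap_frattini_of_surjective (φ := (back g Q).symm.toMonoidHom)
        (back g Q).symm.surjective hx
      exact this
    exact ⟨_, h2, rfl⟩
  apply le_antisymm (h1 g Q)
  have h3 := h1 g⁻¹ (cj g Q)
  have h4 := cj_mono (g := g) h3
  rw [cj_cj_inv] at h4
  have e : cj g⁻¹ (cj g Q) = Q := cj_inv_cj g Q
  rw [e] at h4
  exact h4

theorem cj_block (g : G) {T E : Subgroup G} (h : IsBaumannBlock p T E) :
    IsBaumannBlock p (cj g T) (cj g E) := by
  have hco : pCoreOf p (cj g E) = cj g (pCoreOf p E) := (pCoreOf_conj g E).symm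
  have hom : omegaOneCenter p (pCoreOf p (cj g E)) = cj g (omegaOneCenter p (pCoreOf p E)) := by
    rw [hco, cj_omegaOneCenter]
  have hz : omegaOneCenter p (pCoreOf p (cj g E)) ⊓ centralizer (cj g E : Set G) =
      cj g (omegaOneCenter p (pCoreOf p E) ⊓ centralizer (E : Set G)) := by
    rw [hom, cj_inf, cj_centralizer]
  obtain ⟨h1, h2, h3, h4, h5⟩ := h
  refine ⟨?_, ?_, ?_, ?_, ?_⟩
  · rw [← cj_pResidualOf, h1]
  · rw [← cj_baumann, ← cj_commutator, h2]
  · rw [hco, ← cj_commutator, h3]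
  · rw [← cj_omegaOneCenter, ← cj_commutator]
    intro h0
    apply h4
    rwa [Subgroup.map_eq_bot_iff_of_injective _ (MulAut.conj g).injective] at h0
  · rcases h5 with ⟨F, i1, i2, n, hF, hiso, hs, hcase⟩ | ⟨hp, m, hiso, hs, hq⟩
    · left
      refine ⟨F, i1, i2, n, hF, iso_cj g E hiso, ?_, ?_⟩
      · rw [hz, hom]
        exact sl2_cj g hs
      · rcases hcase with hq | ⟨hp, hs2, hQQ, hfr, hZ, hcard, hnq⟩
        · left
          rw [hom, hco]
          exact congrArg _ hq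
        · right
          refine ⟨hp, ?_, ?_, ?_, ?_, ?_, ?_⟩
          · rw [hom, hco]
            exact sl2_cj g hs2
          · rw [hz, hco, ← cj_commutator, hQQ]
          · rw [hz, hco, ← frattini_cj, hfr]
          · rw [hz, ← cj_centralizer, ← cj_inf, hZ]
          · rw [← cj_centralizer, ← cj_inf, card_cj, hcard]
          · intro b hb hbn
            have hb' : g⁻¹ * b * g ∈ baumannSubgroupOf p T := by
              rw [← cj_baumann] at hb
              exact mem_cj.1 hb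
            have hbn' : g⁻¹ * b * g ∉ centralizer (omegaOneCenter p (pCoreOf p E) : Set G) := by
              intro hc
              apply hbn
              rw [hom, ← cj_centralizer]
              exact mem_cj.2 hc
            have := hnq _ hb' hbn'
            intro hle
            apply this
            have hzb : zpowers b = cj g (zpowers (g⁻¹ * b * g)) := by
              unfold cj
              rw [MonoidHom.map_zpowers]
              congr 1
              show b = g * (g⁻¹ * b * g) * g⁻¹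
              group
            rw [hco, hzb, ← cj_commutator, ← cj_commutator, ← cj_centralizer, ← cj_inf] at hle
            exact (Subgroup.map_le_map_iff_of_injective (MulAut.conj g).injective).1 hle
    · right
      refine ⟨hp, m, iso_cj g E hiso, ?_, ?_⟩
      · rw [hz, hom]
        exact perm_cj g hs
      · rw [hom, hco]
        exact congrArg _ hq

theorem cj_sylow_block (g : G) {T : Sylow p G} {E : Subgroup G}
    (h : IsBaumannBlock p (T : Subgroup G) E) :
    IsBaumannBlock p ((g • T : Sylow p G) : Subgroup G) (cj g E) :=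
  cj_block g h

theorem cj_isSubnormal (g : G) {H : Subgroup G} (h : H.IsSubnormal) : (cj g H).IsSubnormal :=
  h.map (MulAut.conj g).surjective

end Cfsg.Agent.Lib.BPair.Conj
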