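/-
Subnormal blocks relative to the Baumann subgroup: basic facts.
-/
import Cfsg.Agent.Lib.BPair.Conj
import Cfsg.Agent.Lib.FG85.BB13

set_option autoImplicit false
set_option linter.unusedSectionVars false
set_option linter.unusedVariables false

namespace Cfsg.Agent.Lib.BPair.Basic

open Subgroup Cfsg
open Cfsg.Agent.Lib.LocalEven.Util
open Cfsg.Agent.Lib.LocalEven.Baumann
open Cfsg.Agent.Lib.LocalEven.BaumannBlock
open Cfsg.Agent.Lib.LocalEven.SecIrr
open Cfsg.Agent.Lib.LocalStruct.PCoreOf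
open Cfsg.Agent.Lib.FG85.BB
open Cfsg.Agent.Lib.QuadAct.Replacement (iterCommutator_le exists_iterCommutator_eq_bot)
open Cfsg.Agent.Lib.PReduced.RelNorm (mem_normalizer_inf mem_normalizer_sup mem_normalizer_centralizer)
open scoped commutatorElement

universe u

variable {G : Type u} [Group G] [Finite G] {p : ℕ} [Fact p.Prime]

/-- `C_W(E)`. -/
abbrev ZE (p : ℕ) (E : Subgroup G) : Subgroup G := OmE p E ⊓ centralizer (E : Set G)

theorem normalizer_le_zE (E : Subgroup G) : normalizer (E : Set G) ≤ normalizer (ZE p E : Set G) :=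
  fun _ hg => mem_normalizer_inf (normalizer_le_omE E hg) (mem_normalizer_centralizer hg)

theorem le_normalizer_omE (E : Subgroup G) : E ≤ normalizer (OmE p E : Set G) :=
  le_normalizer.trans (normalizer_le_omE E)

theorem le_normalizer_zE (E : Subgroup G) : E ≤ normalizer (ZE p E : Set G) :=
  le_normalizer.trans (normalizer_le_zE E)

theorem le_normalizer_wE (E : Subgroup G) : E ≤ normalizer (WE p E : Set G) :=
  le_normalizer.trans (normalizer_le_wE E)

theorem omE_le_core (E : Subgroup G) : OmE p E ≤ pCoreOf p E := omegaOneCenter_le _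

theorem zE_le_omE (E : Subgroup G) : ZE p E ≤ OmE p E := inf_le_left

theorem omE_comm (E : Subgroup G) {w a : G} (hw : w ∈ OmE p E) (ha : a ∈ pCoreOf p E) :
    w * a = a * w :=
  (mem_centralizer_iff.1 (mem_omegaOneCenter.1 hw).2.1 a ha).symm

theorem zE_comm (E : Subgroup G) {z e : G} (hz : z ∈ ZE p E) (he : e ∈ E) : z * e = e * z :=
  (mem_centralizer_iff.1 (mem_inf.1 hz).2 e he).symm

theorem zE_conj (E : Subgroup G) {z e : G} (hz : z ∈ ZE p E) (he : e ∈ E) : e * z * e⁻¹ = z := by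
  rw [← zE_comm E hz he]
  group

/-! ### `p`-groups and commutators -/

/-- A `p`-group acting on a section cannot generate it by commutators. -/
theorem le_of_le_sup' {U N A : Subgroup G} (hU : IsPGroup p U) (hA : IsPGroup p A)
    (hAU : A ≤ normalizer (U : Set G)) (hAN : A ≤ normalizer (N : Set G))
    (hUN : U ≤ normalizer (N : Set G)) (hNU : N ≤ U) (h : U ≤ N ⊔ ⁅U, A⁆) : U ≤ N := by
  have hXU : ∀ i, iterCommutator U A i ≤ U := iterCommutator_le hAU
  have key : ∀ i, iterCommutator U A i ≤ N ⊔ iterCommutator U A (i + 1) := by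
    intro i
    induction i with
    | zero => exact h
    | succ i ih =>
      show ⁅iterCommutator U A i, A⁆ ≤ N ⊔ ⁅iterCommutator U A (i + 1), A⁆
      rw [Subgroup.commutator_le]
      intro x hx a ha
      have hx' := ih hx
      rw [sup_comm] at hx'
      obtain ⟨y, hy, n, hn, rfl⟩ :=
        Cfsg.Agent.Lib.Components.Basic.mem_sup_of_le_normalizer
          ((hXU (i + 1)).trans hUN) hx'
      have hy' : y ∈ iterCommutator U A (i + 1) := hy
      have e1 : ⁅y * n, a⁆ = (y * (n * (a * n⁻¹ * a⁻¹)) * y⁻¹) * ⁅y, a⁆ := by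
        simp only [commutatorElement_def]
        group
      rw [e1]
      refine mul_mem (mem_sup_left ?_) (mem_sup_right (commutator_mem_commutator hy' ha))
      exact conj_mem_of_mem_normalizer (hUN (hXU _ hy))
        (mul_mem hn (conj_mem_of_mem_normalizer (hAN ha) (inv_mem hn)))
  have all : ∀ i, U ≤ N ⊔ iterCommutator U A i := by
    intro i
    induction i with
    | zero => exact le_sup_right
    | succ i ih =>
      exact ih.trans (sup_le le_sup_left (key i))
  obtain ⟨n, hn⟩ := exists_iterCommutator_eq_bot hU hAU (fun a ha => by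
    obtain ⟨k, hk⟩ := hA ⟨a, ha⟩
    refine ⟨k, ?_⟩
    have : a ^ (p ^ k) = 1 := by
      have := congrArg Subtype.val hk
      simpa using this
    rw [this]
    exact one_mem _)
  have := all n
  rwa [hn, sup_bot_eq] at this

/-- A `p`-group normalizing an irreducible section, whose commutator with the section is normalized
by the irreducible group, acts trivially on the section. -/
theorem comm_le_of_secIrr {E U U₀ A : Subgroup G} (hirr : SecIrr E U U₀) (hU : IsPGroup p U)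
    (hA : IsPGroup p A) (hAU : A ≤ normalizer (U : Set G)) (hAU₀ : A ≤ normalizer (U₀ : Set G))
    (hUU₀ : U ≤ normalizer (U₀ : Set G)) (hU₀U : U₀ ≤ U)
    (hD : E ≤ normalizer ((⁅U, A⁆ ⊔ U₀ : Subgroup G) : Set G)) (hne : ¬ U ≤ U₀) :
    ⁅U, A⁆ ≤ U₀ := by
  by_contra hcon
  obtain ⟨u, hu, huU₀⟩ := SetLike.not_le_iff_exists.1 hcon
  have hUA : ⁅U, A⁆ ≤ U := Cfsg.Agent.Lib.QuadAct.Basic.commutator_le_of_le_normalizer hAU
  have h1 := hirr (⁅U, A⁆ ⊔ U₀) le_sup_right (sup_le hUA hU₀U) hD ⟨u, mem_sup_left hu, huU₀⟩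
  apply hne
  apply le_of_le_sup' hU hA hAU hAU₀ hUU₀ hU₀U
  rwa [sup_comm]

/-- Coprime action: `[U, E] = [U, E, E]` for `E` generated by `p'`-elements and `U` an abelian
`p`-group. -/
theorem comm_le_comm_comm {E U : Subgroup G} (hgen : closure {g : G | g ∈ E ∧ (orderOf g).Coprime p} = E)
    (hU : IsPGroup p U) (hUab : ∀ a ∈ U, ∀ b ∈ U, a * b = b * a)
    (hEU : E ≤ normalizer (U : Set G)) : ⁅U, E⁆ ≤ ⁅⁅U, E⁆, E⁆ := by
  set B : Subgroup G := ⁅⁅U, E⁆, E⁆ with hB
  have hUE : ⁅U, E⁆ ≤ U := Cfsg.Agent.Lib.QuadAct.Basic.commutator_le_of_le_normalizer hEU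
  have hEUE : E ≤ normalizer ((⁅U, E⁆ : Subgroup G) : Set G) := fun e he =>
    mem_normalizer_commutator (hEU he) (le_normalizer he)
  have hEB : E ≤ normalizer (B : Set G) := fun e he =>
    mem_normalizer_commutator (hEUE he) (le_normalizer he)
  have hBU : B ≤ U :=
    (Cfsg.Agent.Lib.QuadAct.Basic.commutator_le_of_le_normalizer hEUE).trans hUE
  have hUB : U ≤ normalizer (B : Set G) := by
    intro u hu
    apply mem_normalizer_of_conj_le
    intro y hy
    rw [hUab u hu y (hBU hy)]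
    simpa using hy
  have hsec : E ≤ secTriv U B := by
    conv_lhs => rw [← hgen]
    rw [closure_le]
    rintro g ⟨hg, hco⟩
    refine ⟨hEU hg, hEB hg, fun a ha => ?_⟩
    have hx1 : g * a * g⁻¹ * a⁻¹ ∈ ⁅U, E⁆ := by
      rw [commutator_comm]
      exact commutator_mem_commutator hg ha
    apply mem_of_coprime_comm hco (hEB hg) (hUB (hUE hx1))
    · obtain ⟨k, hk⟩ := hU ⟨_, hUE hx1⟩
      exact ⟨k, by simpa using congrArg Subtype.val hk⟩
    · show ⁅g, g * a * g⁻¹ * a⁻¹⁆ ∈ B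
      rw [hB, commutator_comm]
      exact commutator_mem_commutator hg hx1
  rw [commutator_le]
  intro a ha e he
  have h1 := (hsec he).2.2 a⁻¹ (inv_mem ha)
  have h2 : e * a⁻¹ * e⁻¹ ∈ U := conj_mem_of_mem_normalizer (hEU he) (inv_mem ha)
  have e1 : ⁅a, e⁆ = e * a⁻¹ * e⁻¹ * a⁻¹⁻¹ := by
    rw [commutatorElement_def, inv_inv, ← hUab (e * a⁻¹ * e⁻¹) h2 a ha |>.symm]
    group
  rw [e1]
  exact h1

section Block

variable {T : Subgroup G} {E F : Subgroup G}

theorem wE_idem (hE : IsBaumannBlock p T E) : ⁅WE p E, E⁆ = WE p E := by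
  apply le_antisymm
  · exact Cfsg.Agent.Lib.QuadAct.Basic.commutator_le_of_le_normalizer (le_normalizer_wE E)
  · exact comm_le_comm_comm (block_gen hE) (isPGroup_omE E)
      (fun a ha b hb => omE_comm E ha (omE_le_core E hb)) (le_normalizer_omE E)

theorem wE_ne_bot (hE : IsBaumannBlock p T E) : WE p E ≠ ⊥ := by
  intro h
  apply block_not_central hE
  have h1 : ⁅OmE p E, E⁆ = ⊥ := h
  rw [commutator_comm, commutator_eq_bot_iff_le_centralizer] at h1
  rwa [le_centralizer_iff]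

theorem wE_not_le_zE (hE : IsBaumannBlock p T E) : ¬ WE p E ≤ ZE p E := by
  intro h
  apply wE_ne_bot hE
  rw [← wE_idem hE, commutator_eq_bot_iff_le_centralizer]
  exact h.trans inf_le_right

theorem omE_le_sup (hE : IsBaumannBlock p T E) : OmE p E ≤ WE p E ⊔ ZE p E := by
  obtain ⟨u, hu, huZ⟩ := SetLike.not_le_iff_exists.1 (wE_not_le_zE hE)
  exact block_secIrr hE _ le_sup_right (sup_le (wE_le_omE E) inf_le_left)
    (fun x hx => mem_normalizer_sup (le_normalizer_wE E hx) (le_normalizer_zE E hx))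
    ⟨u, mem_sup_left hu, huZ⟩

theorem exists_decomp (hE : IsBaumannBlock p T E) {w : G} (hw : w ∈ OmE p E) :
    ∃ v ∈ WE p E, ∃ z ∈ ZE p E, w = v * z := by
  have hWZ : WE p E ≤ normalizer (ZE p E : Set G) := fun x hx => by
    have hxQ : x ∈ E := pCoreOf_le E (omE_le_core E (wE_le_omE E hx))
    exact le_normalizer_zE E hxQ
  obtain ⟨v, hv, z, hz, rfl⟩ :=
    Cfsg.Agent.Lib.Components.Basic.mem_sup_of_le_normalizer hWZ (omE_le_sup hE hw)
  exact ⟨v, hv, z, hz, rfl⟩

end Block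

section Subnormal

variable {T : Sylow p G} {E F : Subgroup G}

theorem core_le (hEs : E.IsSubnormal) : pCoreOf p E ≤ pCore p G :=
  Cfsg.Agent.Lib.Core.Basic.map_pCore_le_of_isSubnormal hEs

theorem mem_core_of {x : G} (hx : x ∈ E) (hxP : x ∈ pCore p G) : x ∈ pCoreOf p E := by
  have hle : E ⊓ pCore p G ≤ pCoreOf p E := by
    apply le_pCoreOf inf_le_left
    · intro y hy
      exact mem_normalizer_inf (le_normalizer hy) (mem_normalizer_pCore y)
    · exact Cfsg.Agent.Lib.Core.Basic.pCore_isPGroup.to_le inf_le_right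
  exact hle (mem_inf.2 ⟨hx, hxP⟩)

theorem core_conj_mem (a g : G) (ha : a ∈ pCore p G) : g * a * g⁻¹ ∈ pCore p G :=
  conj_mem_of_mem_normalizer (mem_normalizer_pCore g) ha

theorem comm_core (hE : IsBaumannBlock p (T : Subgroup G) E) {a e : G} (ha : a ∈ pCore p G)
    (he : e ∈ E) : e * a * e⁻¹ * a⁻¹ ∈ pCoreOf p E := by
  apply mem_core_of
  · have h1 : a * e⁻¹ * a⁻¹ ∈ E :=
      conj_mem_of_mem_normalizer (pCore_le_normalizer_block hE ha) (inv_mem he)
    have e1 : e * a * e⁻¹ * a⁻¹ = e * (a * e⁻¹ * a⁻¹) := by group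
    rw [e1]
    exact mul_mem he h1
  · exact mul_mem (core_conj_mem a e ha) (inv_mem ha)

theorem comm_core' (hE : IsBaumannBlock p (T : Subgroup G) E) {a e : G} (ha : a ∈ pCore p G)
    (he : e ∈ E) : a * e * a⁻¹ * e⁻¹ ∈ pCoreOf p E := by
  have h1 := inv_mem (comm_core hE ha he)
  have e1 : (e * a * e⁻¹ * a⁻¹)⁻¹ = a * e * a⁻¹ * e⁻¹ := by group
  rwa [e1] at h1

/-- `Ω₁(Z(O_p(G)))`. -/
abbrev VV₀ (p : ℕ) (G : Type u) [Group G] : Subgroup G := omegaOneCenter p (pCore p G)

theorem vV₀_normal (g : G) : g ∈ normalizer (VV₀ p G : Set G) :=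
  normalizer_le_omegaOneCenter _ (mem_normalizer_pCore g)

theorem vV₀_central {v a : G} (hv : v ∈ VV₀ p G) (ha : a ∈ pCore p G) : v * a = a * v :=
  (mem_centralizer_iff.1 (mem_omegaOneCenter.1 hv).2.1 a ha).symm

theorem wE_le_vV₀ (hG : centralizer (pCore p G : Set G) ≤ pCore p G)
    (hE : IsBaumannBlock p (T : Subgroup G) E) : WE p E ≤ VV₀ p G :=
  block_comm_le hG hE

/-- `[V, E] ≤ W_E` for `V = Ω₁(Z(O_p(G)))`. -/
theorem comm_vV₀_le (hE : IsBaumannBlock p (T : Subgroup G) E) (hEs : E.IsSubnormal) :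
    ⁅VV₀ p G, E⁆ ≤ WE p E := by
  have hVab : ∀ a ∈ VV₀ p G, ∀ b ∈ VV₀ p G, a * b = b * a := fun a ha b hb =>
    vV₀_central ha (omegaOneCenter_le _ hb)
  have h1 := comm_le_comm_comm (block_gen hE) (isPGroup_omegaOneCenter (pCore p G) (p := p))
    hVab (fun e _ => vV₀_normal e)
  refine h1.trans (commutator_mono ?_ le_rfl)
  rw [commutator_le]
  intro v hv e he
  have hvP : v ∈ pCore p G := omegaOneCenter_le _ hv
  have h2 : ⁅v, e⁆ = (e * v⁻¹ * e⁻¹ * v⁻¹⁻¹)  := by
    rw [commutatorElement_def, inv_inv]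
    have h3 : v * (e * v⁻¹ * e⁻¹) = (e * v⁻¹ * e⁻¹) * v := hVab _ hv _
      (conj_mem_of_mem_normalizer (vV₀_normal e) (inv_mem hv))
    calc v * e * v⁻¹ * e⁻¹ = v * (e * v⁻¹ * e⁻¹) := by group
      _ = _ := h3
  rw [h2]
  have h4 : e * v⁻¹ * e⁻¹ * v⁻¹⁻¹ ∈ VV₀ p G :=
    mul_mem (conj_mem_of_mem_normalizer (vV₀_normal e) (inv_mem hv)) (inv_mem (inv_mem hv))
  refine mem_omegaOneCenter.2 ⟨comm_core hE (inv_mem hvP) he, ?_, (mem_omegaOneCenter.1 h4).2.2⟩
  rw [mem_centralizer_iff]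
  intro a ha
  exact (vV₀_central h4 (core_le hEs ha)).symm

end Subnormal

end Cfsg.Agent.Lib.BPair.Basic
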