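/-
The derived group of `SL₂(F)` over small and large finite fields.
-/
import Cfsg.Agent.Lib.FG85.BB2
import Cfsg.Agent.Lib.Components.Basic
import Cfsg.Agent.Lib.Classical.NormalSL

set_option autoImplicit false
set_option linter.unusedSectionVars false
set_option linter.unusedVariables false
set_option maxRecDepth 100000

namespace Cfsg.Agent.Lib.BPair.Small

open Subgroup Cfsg Matrix
open Cfsg.Agent.Lib.LocalEven.SecIrr
open Cfsg.Agent.Lib.FG85.BB
open Cfsg.Agent.Lib.Components.Basic
open scoped commutatorElement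

/-- The quaternion shape in `SL₂(3)`. -/
def P3 (a b c d : ZMod 3) : Prop := (b = 0 ∧ c = 0 ∧ a = d) ∨ a + d = 0

instance (a b c d : ZMod 3) : Decidable (P3 a b c d) := by unfold P3; infer_instance

theorem P3_mul : ∀ a b c d a' b' c' d' : ZMod 3, a * d - b * c = 1 → a' * d' - b' * c' = 1 →
    P3 a b c d → P3 a' b' c' d' →
    P3 (a * a' + b * c') (a * b' + b * d') (c * a' + d * c') (c * b' + d * d') := by
  decide +kernel

theorem P3_inv : ∀ a b c d : ZMod 3, a * d - b * c = 1 → P3 a b c d → P3 d (-b) (-c) a := by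
  decide +kernel

theorem P3_comm : ∀ a b c d a' b' c' d' : ZMod 3, a * d - b * c = 1 → a' * d' - b' * c' = 1 →
    let x := a * a' + b * c'
    let y := a * b' + b * d'
    let z := c * a' + d * c'
    let w := c * b' + d * d'
    let x2 := x * d + y * (-c)
    let y2 := x * (-b) + y * a
    let z2 := z * d + w * (-c)
    let w2 := z * (-b) + w * a
    P3 (x2 * d' + y2 * (-c')) (x2 * (-b') + y2 * a') (z2 * d' + w2 * (-c')) (z2 * (-b') + w2 * a') := by
  decide +kernel

/-- The cyclic shape in `SL₂(2)`. -/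
def P2 (a b c d : ZMod 2) : Prop := (b = 0 ∧ c = 0) ∨ a + d = 1

instance (a b c d : ZMod 2) : Decidable (P2 a b c d) := by unfold P2; infer_instance

theorem P2_mul : ∀ a b c d a' b' c' d' : ZMod 2, a * d - b * c = 1 → a' * d' - b' * c' = 1 →
    P2 a b c d → P2 a' b' c' d' →
    P2 (a * a' + b * c') (a * b' + b * d') (c * a' + d * c') (c * b' + d * d') := by
  decide +kernel

theorem P2_inv : ∀ a b c d : ZMod 2, a * d - b * c = 1 → P2 a b c d → P2 d (-b) (-c) a := by
  decide +kernel

section Transport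

variable {F K : Type*} [Field F] [Field K]

/-- The entries of the product of two matrices of `SL₂`. -/
theorem mul_entries (g h : SpecialLinearGroup (Fin 2) F) :
    ((g * h : SpecialLinearGroup (Fin 2) F) : Matrix (Fin 2) (Fin 2) F) =
      !![(g : Matrix (Fin 2) (Fin 2) F) 0 0 * (h : Matrix (Fin 2) (Fin 2) F) 0 0 +
            (g : Matrix (Fin 2) (Fin 2) F) 0 1 * (h : Matrix (Fin 2) (Fin 2) F) 1 0,
         (g : Matrix (Fin 2) (Fin 2) F) 0 0 * (h : Matrix (Fin 2) (Fin 2) F) 0 1 +
            (g : Matrix (Fin 2) (Fin 2) F) 0 1 * (h : Matrix (Fin 2) (Fin 2) F) 1 1;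
         (g : Matrix (Fin 2) (Fin 2) F) 1 0 * (h : Matrix (Fin 2) (Fin 2) F) 0 0 +
            (g : Matrix (Fin 2) (Fin 2) F) 1 1 * (h : Matrix (Fin 2) (Fin 2) F) 1 0,
         (g : Matrix (Fin 2) (Fin 2) F) 1 0 * (h : Matrix (Fin 2) (Fin 2) F) 0 1 +
            (g : Matrix (Fin 2) (Fin 2) F) 1 1 * (h : Matrix (Fin 2) (Fin 2) F) 1 1] := by
  rw [coe_mul']
  ext u v
  fin_cases u <;> fin_cases v <;> simp [Matrix.mul_apply, Fin.sum_univ_two]

/-- A predicate on the entries closed under products and inverses. -/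
def subOf (φ : F ≃+* K) (P : K → K → K → K → Prop) (h1 : P 1 0 0 1)
    (hmul : ∀ a b c d a' b' c' d' : K, a * d - b * c = 1 → a' * d' - b' * c' = 1 →
      P a b c d → P a' b' c' d' →
      P (a * a' + b * c') (a * b' + b * d') (c * a' + d * c') (c * b' + d * d'))
    (hinv : ∀ a b c d : K, a * d - b * c = 1 → P a b c d → P d (-b) (-c) a) :
    Subgroup (SpecialLinearGroup (Fin 2) F) where
  carrier := {g | P (φ ((g : Matrix (Fin 2) (Fin 2) F) 0 0)) (φ ((g : Matrix (Fin 2) (Fin 2) F) 0 1))
    (φ ((g : Matrix (Fin 2) (Fin 2) F) 1 0)) (φ ((g : Matrix (Fin 2) (Fin 2) F) 1 1))}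
  mul_mem' := by
    intro g h hg hh
    have hd : ∀ g : SpecialLinearGroup (Fin 2) F,
        φ ((g : Matrix (Fin 2) (Fin 2) F) 0 0) * φ ((g : Matrix (Fin 2) (Fin 2) F) 1 1) -
          φ ((g : Matrix (Fin 2) (Fin 2) F) 0 1) * φ ((g : Matrix (Fin 2) (Fin 2) F) 1 0) = 1 := by
      intro g
      rw [← map_mul, ← map_mul, ← map_sub, det_entries, map_one]
    have := hmul _ _ _ _ _ _ _ _ (hd g) (hd h) hg hh
    show P _ _ _ _
    rw [mul_entries]
    simpa using this
  one_mem' := by
    show P _ _ _ _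
    simpa using h1
  inv_mem' := by
    intro g hg
    have hd : φ ((g : Matrix (Fin 2) (Fin 2) F) 0 0) * φ ((g : Matrix (Fin 2) (Fin 2) F) 1 1) -
          φ ((g : Matrix (Fin 2) (Fin 2) F) 0 1) * φ ((g : Matrix (Fin 2) (Fin 2) F) 1 0) = 1 := by
      rw [← map_mul, ← map_mul, ← map_sub, det_entries, map_one]
    have := hinv _ _ _ _ hd hg
    show P _ _ _ _
    rw [inv_entries]
    simpa using this

end Transport

section Commutators

variable {F K : Type*} [Field F] [Field K]

/-- Predicates closed under products, inverses, and containing commutators hold on the derived group. -/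
theorem of_mem_SS (φ : F ≃+* K) (P : K → K → K → K → Prop) (h1 : P 1 0 0 1)
    (hmul : ∀ a b c d a' b' c' d' : K, a * d - b * c = 1 → a' * d' - b' * c' = 1 →
      P a b c d → P a' b' c' d' →
      P (a * a' + b * c') (a * b' + b * d') (c * a' + d * c') (c * b' + d * d'))
    (hinv : ∀ a b c d : K, a * d - b * c = 1 → P a b c d → P d (-b) (-c) a)
    (hcomm : ∀ a b c d a' b' c' d' : K, a * d - b * c = 1 → a' * d' - b' * c' = 1 →
      let x := a * a' + b * c'
      let y := a * b' + b * d'
      let z := c * a' + d * c'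
      let w := c * b' + d * d'
      let x2 := x * d + y * (-c)
      let y2 := x * (-b) + y * a
      let z2 := z * d + w * (-c)
      let w2 := z * (-b) + w * a
      P (x2 * d' + y2 * (-c')) (x2 * (-b') + y2 * a') (z2 * d' + w2 * (-c')) (z2 * (-b') + w2 * a'))
    {r : SpecialLinearGroup (Fin 2) F} (hr : r ∈ SS F) :
    P (φ ((r : Matrix (Fin 2) (Fin 2) F) 0 0)) (φ ((r : Matrix (Fin 2) (Fin 2) F) 0 1))
      (φ ((r : Matrix (Fin 2) (Fin 2) F) 1 0)) (φ ((r : Matrix (Fin 2) (Fin 2) F) 1 1)) := by
  have hle : SS F ≤ subOf φ P h1 hmul hinv := by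
    show commutator _ ≤ _
    rw [commutator_def, commutator_le]
    intro g _ h _
    have hd : ∀ g : SpecialLinearGroup (Fin 2) F,
        φ ((g : Matrix (Fin 2) (Fin 2) F) 0 0) * φ ((g : Matrix (Fin 2) (Fin 2) F) 1 1) -
          φ ((g : Matrix (Fin 2) (Fin 2) F) 0 1) * φ ((g : Matrix (Fin 2) (Fin 2) F) 1 0) = 1 := by
      intro g
      rw [← map_mul, ← map_mul, ← map_sub, det_entries, map_one]
    have := hcomm _ _ _ _ _ _ _ _ (hd g) (hd h)
    simp only at this
    show P _ _ _ _
    rw [commutatorElement_def, mul_entries, mul_entries, mul_entries, inv_entries, inv_entries]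
    simpa using this
  exact hle hr

end Commutators

section Three

variable {F : Type} [Field F] [Fintype F]

theorem P3_one : P3 1 0 0 1 := by decide

/-- The shape of the elements of the derived group of `SL₂(F)` for `#F = 3`. -/
theorem shape_three (hF : Fintype.card F = 3) {r : SpecialLinearGroup (Fin 2) F} (hr : r ∈ SS F) :
    (r : Matrix (Fin 2) (Fin 2) F) = 1 ∨ (r : Matrix (Fin 2) (Fin 2) F) = -1 ∨
      (r : Matrix (Fin 2) (Fin 2) F) * r = -1 := by
  have hp : Nat.Prime 3 := Nat.prime_three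
  let φ : F ≃+* ZMod 3 := (ZMod.ringEquivOfPrime F hp hF).symm
  have h := of_mem_SS φ P3 P3_one P3_mul P3_inv P3_comm hr
  have hdet := det_entries r
  rcases h with ⟨hb, hc, had⟩ | htr
  · have hb' : (r : Matrix (Fin 2) (Fin 2) F) 0 1 = 0 := by
      simpa using hb
    have hc' : (r : Matrix (Fin 2) (Fin 2) F) 1 0 = 0 := by
      simpa using hc
    have had' : (r : Matrix (Fin 2) (Fin 2) F) 0 0 = (r : Matrix (Fin 2) (Fin 2) F) 1 1 :=
      φ.injective had
    rw [hb', hc', ← had'] at hdet
    have h2 : ((r : Matrix (Fin 2) (Fin 2) F) 0 0 - 1) * ((r : Matrix (Fin 2) (Fin 2) F) 0 0 + 1) = 0 := by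
      linear_combination hdet
    rcases mul_eq_zero.1 h2 with h3 | h3
    · left
      have ha : (r : Matrix (Fin 2) (Fin 2) F) 0 0 = 1 := sub_eq_zero.1 h3
      rw [Matrix.eta_fin_two (r : Matrix (Fin 2) (Fin 2) F), ← had', ha, hb', hc', Matrix.one_fin_two]
    · right; left
      have ha : (r : Matrix (Fin 2) (Fin 2) F) 0 0 = -1 := eq_neg_of_add_eq_zero_left h3
      rw [Matrix.eta_fin_two (r : Matrix (Fin 2) (Fin 2) F), ← had', ha, hb', hc', ← Matrix.ext_iff]
      intro x y
      fin_cases x <;> fin_cases y <;> simp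
  · right; right
    have h1 : (r : Matrix (Fin 2) (Fin 2) F) 0 0 + (r : Matrix (Fin 2) (Fin 2) F) 1 1 = 0 := by
      apply φ.injective
      rw [map_add, map_zero]
      exact htr
    have := sq_of_trace_zero r h1
    rwa [coe_mul'] at this

theorem char3 (hF : Fintype.card F = 3) : (3 : F) = 0 := by
  have h0 : ((Fintype.card F : ℕ) : F) = 0 := FiniteField.cast_card_eq_zero F
  rw [hF] at h0
  exact_mod_cast h0

theorem small3 (hF : Fintype.card F = 3) : ∀ a : F, a = 0 ∨ a = 1 ∨ a = -1 := by
  have hp : Nat.Prime 3 := Nat.prime_three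
  let φ : F ≃+* ZMod 3 := (ZMod.ringEquivOfPrime F hp hF).symm
  have key : ∀ x : ZMod 3, x = 0 ∨ x = 1 ∨ x = -1 := by decide
  intro a
  rcases key (φ a) with h | h | h
  · left; apply φ.injective; rw [h, map_zero]
  · right; left; apply φ.injective; rw [h, map_one]
  · right; right; apply φ.injective; rw [h, map_neg, map_one]

end Three

section Two

variable {F : Type} [Field F] [Fintype F]

theorem P2_one : P2 1 0 0 1 := by decide

theorem P2_comm : ∀ a b c d a' b' c' d' : ZMod 2, a * d - b * c = 1 → a' * d' - b' * c' = 1 →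
    let x := a * a' + b * c'
    let y := a * b' + b * d'
    let z := c * a' + d * c'
    let w := c * b' + d * d'
    let x2 := x * d + y * (-c)
    let y2 := x * (-b) + y * a
    let z2 := z * d + w * (-c)
    let w2 := z * (-b) + w * a
    P2 (x2 * d' + y2 * (-c')) (x2 * (-b') + y2 * a') (z2 * d' + w2 * (-c')) (z2 * (-b') + w2 * a') := by
  decide +kernel

theorem char2 (hF : Fintype.card F = 2) : (2 : F) = 0 := by
  have h0 : ((Fintype.card F : ℕ) : F) = 0 := FiniteField.cast_card_eq_zero F
  rw [hF] at h0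
  exact_mod_cast h0

theorem small2 (hF : Fintype.card F = 2) : ∀ a : F, a = 0 ∨ a = 1 := by
  have hp : Nat.Prime 2 := Nat.prime_two
  let φ : F ≃+* ZMod 2 := (ZMod.ringEquivOfPrime F hp hF).symm
  have key : ∀ x : ZMod 2, x = 0 ∨ x = 1 := by decide
  intro a
  rcases key (φ a) with h | h
  · left; apply φ.injective; rw [h, map_zero]
  · right; apply φ.injective; rw [h, map_one]

/-- The element of order three of `SL₂(2)`. -/
def x₀ (hF : (2 : F) = 0) : SpecialLinearGroup (Fin 2) F :=
  ⟨!![0, 1; 1, 1], by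
    rw [Matrix.det_fin_two_of]
    linear_combination -hF⟩

theorem card_SS_two (hF : Fintype.card F = 2) : Nat.card (SS F) = 3 := by
  have h2 := char2 hF
  have hsm := small2 hF
  have h11 : (1 : F) + 1 = 0 := by linear_combination h2
  set x := x₀ h2 with hx
  have hxc : (x : Matrix (Fin 2) (Fin 2) F) = !![0, 1; 1, 1] := rfl
  have hx2 : ((x * x : SpecialLinearGroup (Fin 2) F) : Matrix (Fin 2) (Fin 2) F) = !![1, 1; 1, 0] := by
    rw [coe_mul', hxc, Matrix.mul_fin_two]
    ext a b
    fin_cases a <;> fin_cases b <;> simp [h11]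
  have hx3 : x * x * x = 1 := by
    apply Subtype.ext
    rw [coe_mul', hx2, hxc, Matrix.mul_fin_two]
    ext a b
    fin_cases a <;> fin_cases b <;> simp [h11]
  have hx1 : x ≠ 1 := by
    intro h
    have h3 := congrFun (congrFun (congrArg (fun g : SpecialLinearGroup (Fin 2) F =>
      (g : Matrix (Fin 2) (Fin 2) F)) h) 0) 0
    simp [hxc] at h3
  haveI : Fact (Nat.Prime 3) := ⟨Nat.prime_three⟩
  have hord : orderOf x = 3 := by
    apply orderOf_eq_prime _ hx1
    rw [pow_succ, pow_two, hx3]
  have hp : Nat.Prime 2 := Nat.prime_two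
  let φ : F ≃+* ZMod 2 := (ZMod.ringEquivOfPrime F hp hF).symm
  have hle : SS F ≤ zpowers x := by
    intro r hr
    have h := of_mem_SS φ P2 P2_one P2_mul P2_inv P2_comm hr
    have hdet := det_entries r
    have hmatrix : ∀ (M : SpecialLinearGroup (Fin 2) F) (a b c d : F),
        (r : Matrix (Fin 2) (Fin 2) F) 0 0 = a → (r : Matrix (Fin 2) (Fin 2) F) 0 1 = b →
        (r : Matrix (Fin 2) (Fin 2) F) 1 0 = c → (r : Matrix (Fin 2) (Fin 2) F) 1 1 = d →
        (M : Matrix (Fin 2) (Fin 2) F) = !![a, b; c, d] → r = M := by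
      intro M a b c d ha hb hc hd hM
      apply Subtype.ext
      rw [hM, Matrix.eta_fin_two (r : Matrix (Fin 2) (Fin 2) F), ha, hb, hc, hd]
    have h01 : (0 : F) ≠ 1 := zero_ne_one
    rcases h with ⟨hb, hc⟩ | htr
    · have hb' : (r : Matrix (Fin 2) (Fin 2) F) 0 1 = 0 := by simpa using hb
      have hc' : (r : Matrix (Fin 2) (Fin 2) F) 1 0 = 0 := by simpa using hc
      rw [hb', hc'] at hdet
      have hr1 : r = 1 := by
        refine hmatrix 1 1 0 0 1 ?_ hb' hc' ?_ ?_
        · rcases hsm ((r : Matrix (Fin 2) (Fin 2) F) 0 0) with h | h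
          · rw [h] at hdet
            simp at hdet
          · exact h
        · rcases hsm ((r : Matrix (Fin 2) (Fin 2) F) 1 1) with h | h
          · rw [h] at hdet
            simp at hdet
          · exact h
        · simp [Matrix.one_fin_two]
      rw [hr1]
      exact one_mem _
    · have htr' : (r : Matrix (Fin 2) (Fin 2) F) 0 0 + (r : Matrix (Fin 2) (Fin 2) F) 1 1 = 1 := by
        apply φ.injective
        rw [map_add, map_one]
        exact htr
      have hbc : ∀ {a d : F}, a * d = 0 → a * d - (r : Matrix (Fin 2) (Fin 2) F) 0 1 * (r : Matrix (Fin 2) (Fin 2) F) 1 0 = 1 →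
          (r : Matrix (Fin 2) (Fin 2) F) 0 1 = 1 ∧ (r : Matrix (Fin 2) (Fin 2) F) 1 0 = 1 := by
        intro a d had hh
        rw [had] at hh
        constructor
        · rcases hsm ((r : Matrix (Fin 2) (Fin 2) F) 0 1) with h | h
          · rw [h] at hh
            simp at hh
          · exact h
        · rcases hsm ((r : Matrix (Fin 2) (Fin 2) F) 1 0) with h | h
          · rw [h] at hh
            simp at hh
          · exact h
      rcases hsm ((r : Matrix (Fin 2) (Fin 2) F) 0 0) with h | h
      · have hd : (r : Matrix (Fin 2) (Fin 2) F) 1 1 = 1 := by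
          rw [h, zero_add] at htr'
          exact htr'
        obtain ⟨hb, hc⟩ := hbc (a := (r : Matrix (Fin 2) (Fin 2) F) 0 0)
          (d := (r : Matrix (Fin 2) (Fin 2) F) 1 1) (by rw [h, zero_mul]) hdet
        have : r = x := hmatrix x 0 1 1 1 h hb hc hd hxc
        rw [this]
        exact mem_zpowers x
      · have hd : (r : Matrix (Fin 2) (Fin 2) F) 1 1 = 0 := by
          rw [h] at htr'
          exact left_eq_add.1 htr'.symm
        obtain ⟨hb, hc⟩ := hbc (a := (r : Matrix (Fin 2) (Fin 2) F) 0 0)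
          (d := (r : Matrix (Fin 2) (Fin 2) F) 1 1) (by rw [hd, mul_zero]) hdet
        have : r = x * x := hmatrix (x * x) 1 1 1 0 h hb hc hd hx2
        rw [this]
        exact mul_mem (mem_zpowers x) (mem_zpowers x)
  have hge : zpowers x ≤ SS F := by
    rw [zpowers_le]
    -- `x * x = [u, l]`
    have hc : x * x = ⁅(uu 1 : SpecialLinearGroup (Fin 2) F), (ll 1 : SpecialLinearGroup (Fin 2) F)⁆ := by
      apply Subtype.ext
      rw [hx2, commutatorElement_def, coe_mul', coe_mul', coe_mul', inv_entries, inv_entries]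
      show _ = !![1, 1; 0, 1] * !![1, 0; 1, 1] * _ * _
      simp only [uu, ll, Matrix.mul_fin_two]
      ext a b
      fin_cases a <;> fin_cases b <;> simp [h11, uu, ll, mul_comm] <;> first | linear_combination h2 | skip
    have hxx : x * x ∈ SS F := by
      rw [hc]
      exact commutator_mem_commutator (mem_top _) (mem_top _)
    have e : x = (x * x) * (x * x) := by
      calc x = (x * x * x) * x := by rw [hx3, one_mul]
        _ = (x * x) * (x * x) := by group
    rw [e]
    exact mul_mem hxx hxx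
  have heq : SS F = zpowers x := le_antisymm hle hge
  rw [heq, Nat.card_zpowers, hord]

end Two

section Large

variable {F : Type} [Field F] [Finite F]

theorem SS_eq_top (hF : 4 ≤ Nat.card F) : SS F = ⊤ := by
  obtain ⟨t, ht0, ht1⟩ := Cfsg.Agent.Lib.Classical.NormalSL.exists_ne_zero_sq_ne_one hF
  rw [eq_top_iff]
  intro g _
  obtain ⟨r, hr, c, rfl⟩ := exists_comm_mul g
  exact mul_mem hr (uu_mem_of t ht0 ht1 c)

theorem quasi_SS (hF : 4 ≤ Nat.card F) : IsQuasisimple ↥(SS F) := by
  have h1 : IsQuasisimple (SpecialLinearGroup (Fin 2) F) :=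
    ⟨⟨SS_eq_top hF⟩, Matrix.ProjectiveSpecialLinearGroup.rank_two_simple hF⟩
  exact quasisimple_of_mulEquiv
    (Subgroup.topEquiv.symm.trans (MulEquiv.subgroupCongr (SS_eq_top hF).symm)) h1

theorem uu_pow_eq (c : F) (n : ℕ) : (uu c : SpecialLinearGroup (Fin 2) F) ^ n = uu ((n : F) * c) := by
  induction n with
  | zero =>
    simp only [pow_zero, Nat.cast_zero, zero_mul]
    apply Subtype.ext
    show (1 : Matrix (Fin 2) (Fin 2) F) = !![1, 0; 0, 1]
    rw [Matrix.one_fin_two]
  | succ n ih =>
    rw [pow_succ, ih, uu_mul]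
    congr 1
    push_cast
    ring

theorem exists_pelt_SS (hF : 4 ≤ Nat.card F) {p : ℕ} (hp : (p : F) = 0) :
    ∃ r : ↥(SS F), r ≠ 1 ∧ r ^ p = 1 := by
  refine ⟨⟨uu 1, by rw [SS_eq_top hF]; trivial⟩, ?_, ?_⟩
  · intro h
    have h1 := congrArg (fun g : ↥(SS F) => ((g : SpecialLinearGroup (Fin 2) F) : Matrix (Fin 2) (Fin 2) F)) h
    have h2 := congrFun (congrFun h1 0) 1
    simp [uu] at h2
  · apply Subtype.ext
    show (uu 1 : SpecialLinearGroup (Fin 2) F) ^ p = 1
    rw [uu_pow_eq, hp, zero_mul]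
    apply Subtype.ext
    show !![1, 0; 0, 1] = (1 : Matrix (Fin 2) (Fin 2) F)
    rw [Matrix.one_fin_two]

end Large

section Iso

/-- Isomorphic fields have isomorphic derived groups of `SL₂`. -/
theorem card_SS_congr {F K : Type} [Field F] [Field K] [Finite F] [Finite K] (φ : F ≃+* K) :
    Nat.card (SS F) = Nat.card (SS K) := by
  let f : SpecialLinearGroup (Fin 2) F →* SpecialLinearGroup (Fin 2) K :=
    SpecialLinearGroup.map φ.toRingHom
  let g : SpecialLinearGroup (Fin 2) K →* SpecialLinearGroup (Fin 2) F :=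
    SpecialLinearGroup.map φ.symm.toRingHom
  have hgf : ∀ x, g (f x) = x := by
    intro x
    apply Subtype.ext
    ext u v
    change φ.symm (φ _) = _
    exact φ.symm_apply_apply _
  have hfg : ∀ x, f (g x) = x := by
    intro x
    apply Subtype.ext
    ext u v
    change φ (φ.symm _) = _
    exact φ.apply_symm_apply _
  let e : SpecialLinearGroup (Fin 2) F ≃* SpecialLinearGroup (Fin 2) K :=
    { f with
      invFun := g
      left_inv := hgf
      right_inv := hfg }
  have hmap : (SS F).map e.toMonoidHom = SS K := by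
    show (commutator _).map _ = commutator _
    rw [_root_.commutator_def, _root_.commutator_def, Subgroup.map_commutator]
    have : (⊤ : Subgroup (SpecialLinearGroup (Fin 2) F)).map e.toMonoidHom = ⊤ :=
      Subgroup.map_top_of_surjective _ e.surjective
    rw [this]
  have hinj : Function.Injective e.toMonoidHom := e.injective
  rw [← hmap, Subgroup.card_map_of_injective hinj]

theorem card_SS_three {F K : Type} [Field F] [Field K] [Fintype F] [Fintype K]
    (hF : Fintype.card F = 3) (hK : Fintype.card K = 3) : Nat.card (SS F) = Nat.card (SS K) :=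
  card_SS_congr ((ZMod.ringEquivOfPrime F Nat.prime_three hF).symm.trans
    (ZMod.ringEquivOfPrime K Nat.prime_three hK))

end Iso

section Alt

/-- A nonabelian simple group is quasisimple. -/
theorem quasi_of_simple {H : Type*} [Group H] [IsSimpleGroup H] (hnc : ∃ a b : H, a * b ≠ b * a) :
    IsQuasisimple H := by
  have hP : commutator H = ⊤ := by
    rcases IsSimpleGroup.eq_bot_or_eq_top_of_normal (commutator H) inferInstance with h | h
    · exfalso
      obtain ⟨a, b, hab⟩ := hnc
      apply hab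
      have h1 : ⁅a, b⁆ ∈ commutator H := commutator_mem_commutator (mem_top _) (mem_top _)
      rw [h, mem_bot, commutatorElement_eq_one_iff_commute] at h1
      exact h1
    · exact h
  apply quasisimple_of_normal_criterion hP
  intro N hN
  rcases IsSimpleGroup.eq_bot_or_eq_top_of_normal N hN with h | h
  · right
    rw [h]
    exact bot_le
  · left
    exact h

theorem quasi_alt {m : ℕ} (hm : 2 ≤ m) : IsQuasisimple ↥(alternatingGroup (Fin (2 * m + 1))) := by
  have h5 : 5 ≤ Nat.card (Fin (2 * m + 1)) := by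
    rw [Nat.card_eq_fintype_card, Fintype.card_fin]
    omega
  haveI := alternatingGroup.isSimpleGroup (α := Fin (2 * m + 1)) h5
  apply quasi_of_simple
  by_contra hcon
  push Not at hcon
  have hc := alternatingGroup.center_eq_bot (α := Fin (2 * m + 1)) (by omega)
  have h1 : ∀ x : ↥(alternatingGroup (Fin (2 * m + 1))), x = 1 := by
    intro x
    have : x ∈ center ↥(alternatingGroup (Fin (2 * m + 1))) := by
      rw [mem_center_iff]
      intro y
      exact hcon y x
    rw [hc] at this
    exact this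
  obtain ⟨a, b, hab⟩ := exists_pair_ne ↥(alternatingGroup (Fin (2 * m + 1)))
  exact hab ((h1 a).trans (h1 b).symm)

theorem card_alt_three : Nat.card ↥(alternatingGroup (Fin (2 * 1 + 1))) = 3 := by
  have h := two_mul_nat_card_alternatingGroup (α := Fin (2 * 1 + 1))
  rw [Nat.card_eq_fintype_card (α := Equiv.Perm _), Fintype.card_perm, Fintype.card_fin] at h
  have e : (2 * 1 + 1).factorial = 6 := by decide
  omega

theorem exists_pelt_alt {m : ℕ} (hm : 2 ≤ m) :
    ∃ r : ↥(alternatingGroup (Fin (2 * m + 1))), r ≠ 1 ∧ r ^ 2 = 1 := by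
  let a : Fin (2 * m + 1) := ⟨0, by omega⟩
  let b : Fin (2 * m + 1) := ⟨1, by omega⟩
  let c : Fin (2 * m + 1) := ⟨2, by omega⟩
  let d : Fin (2 * m + 1) := ⟨3, by omega⟩
  have hab : a ≠ b := by simp [a, b, Fin.ext_iff]
  have hac : a ≠ c := by simp [a, c, Fin.ext_iff]
  have had : a ≠ d := by simp [a, d, Fin.ext_iff]
  have hbc : b ≠ c := by simp [b, c, Fin.ext_iff]
  have hbd : b ≠ d := by simp [b, d, Fin.ext_iff]
  have hcd : c ≠ d := by simp [c, d, Fin.ext_iff]
  let σ : Equiv.Perm (Fin (2 * m + 1)) := Equiv.swap a b * Equiv.swap c d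
  have hσ : σ ∈ alternatingGroup (Fin (2 * m + 1)) := by
    rw [Equiv.Perm.mem_alternatingGroup, Equiv.Perm.sign_mul, Equiv.Perm.sign_swap hab,
      Equiv.Perm.sign_swap hcd]
    decide
  refine ⟨⟨σ, hσ⟩, ?_, ?_⟩
  · intro h
    have h1 : σ = 1 := congrArg Subtype.val h
    have h2 : σ a = a := by rw [h1]; rfl
    have h3 : σ a = b := by
      show Equiv.swap a b (Equiv.swap c d a) = b
      rw [Equiv.swap_apply_of_ne_of_ne hac had, Equiv.swap_apply_left]
    rw [h3] at h2
    exact hab h2.symm
  · apply Subtype.ext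
    show σ ^ 2 = 1
    have hdis : Equiv.Perm.Disjoint (Equiv.swap a b) (Equiv.swap c d) :=
      Equiv.Perm.disjoint_swap_swap (by simp [hab, hac, had, hbc, hbd, hcd])
    rw [show σ = Equiv.swap a b * Equiv.swap c d from rfl, hdis.commute.mul_pow, pow_two, pow_two,
      Equiv.swap_mul_self, Equiv.swap_mul_self, one_mul]

end Alt

end Cfsg.Agent.Lib.BPair.Small
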