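/-
The types of blocks relative to the Baumann subgroup.
-/
import Cfsg.Agent.Lib.BPair.Basic
import Cfsg.Agent.Lib.BPair.Small

set_option autoImplicit false
set_option linter.unusedSectionVars false
set_option linter.unusedVariables false

namespace Cfsg.Agent.Lib.BPair.Types

open Subgroup Cfsg
open Cfsg.Agent.Lib.LocalEven.Util
open Cfsg.Agent.Lib.LocalEven.Baumann
open Cfsg.Agent.Lib.LocalEven.BaumannBlock
open Cfsg.Agent.Lib.LocalEven.SecIrr
open Cfsg.Agent.Lib.LocalStruct.PCoreOf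
open Cfsg.Agent.Lib.FG85.BB
open Cfsg.Agent.Lib.BPair.Basic
open Cfsg.Agent.Lib.BPair.Small
open Cfsg.Agent.Lib.Components.Basic
open scoped commutatorElement

universe u

variable {G : Type u} [Group G] [Finite G] {p : ℕ} [Fact p.Prime]

/-- The quotient `E / O_p(E)` is quasisimple, of order divisible by `p`. -/
def Quasi (p : ℕ) (E : Subgroup G) : Prop :=
  IsQuasisimple (↥E ⧸ pCore p ↥E) ∧ ∃ r : ↥E ⧸ pCore p ↥E, r ≠ 1 ∧ r ^ p = 1

/-- `p = 2`, `E / O_2(E)` has order three. -/
def Three (p : ℕ) (E : Subgroup G) : Prop :=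
  p = 2 ∧ Nat.card (↥E ⧸ pCore p ↥E) = 3 ∧ pCoreOf p E = OmE p E ∧
    Nat.card (OmE p E) = 4 * Nat.card (ZE p E)

/-- Exceptional blocks. -/
structure ExD (p : ℕ) (F : Type) [Field F] [Fintype F] (T E : Subgroup G) where
  hp : p = 3
  n₁ : NatSec F E (OmE p E) (ZE p E)
  n₂ : NatSec F E (pCoreOf p E) (OmE p E)
  hirr₂ : SecIrr E (pCoreOf p E) (OmE p E)
  hQQ : ⁅pCoreOf p E, pCoreOf p E⁆ = ZE p E
  hfr : (frattini ↥(pCoreOf p E)).map (pCoreOf p E).subtype = ZE p E
  hcardZ : Nat.card (ZE p E) = Fintype.card F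
  hnq : ∀ b ∈ baumannSubgroupOf p T, b ∉ centralizer (OmE p E : Set G) →
    ¬ ⁅⁅pCoreOf p E, zpowers b⁆, zpowers b⁆ ≤ ZE p E
  hiso : Nonempty (↥E ⧸ pCore p ↥E ≃* ↥(SS F))

/-- Blocks with quaternion quotient. -/
structure QB (p : ℕ) (F : Type) [Field F] [Fintype F] (T E : Subgroup G) where
  hp : p = 3
  hF : Fintype.card F = 3
  n₁ : NatSec F E (OmE p E) (ZE p E)
  hiso : Nonempty (↥E ⧸ pCore p ↥E ≃* ↥(SS F))
  hex : pCoreOf p E = OmE p E ∨ Nonempty (ExD p F T E)

/-- The kind of the derived group of `SL₂` and of the block. -/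
theorem gen_or_ex {T E : Subgroup G} (hE : IsBaumannBlock p T E) :
    pCoreOf p E = OmE p E ∨ ∃ (F : Type) (_ : Field F) (_ : Fintype F), Nonempty (ExD p F T E) := by
  rcases hE.2.2.2.2 with ⟨F, i1, i2, n, hF, hiso, hs, hq | ⟨hp, hs2, hQQ, hfr, hZ, hcard, hnq⟩⟩ |
    ⟨hp, m, hiso, hs, hq⟩
  · exact Or.inl hq
  · right
    obtain ⟨n₁⟩ := exists_natSec hs
    obtain ⟨n₂⟩ := exists_natSec hs2
    refine ⟨F, i1, i2, ⟨⟨hp, n₁, n₂, secIrr_of_sl2 hs2, hQQ, hfr, ?_, ?_, hiso⟩⟩⟩
    · show Nat.card ↥(omegaOneCenter p (pCoreOf p E) ⊓ centralizer (E : Set G)) = _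
      rw [← hZ, hcard, hF, hp]
    · intro b hb hbn
      have := hnq b hb hbn
      rwa [hZ] at this
  · exact Or.inl hq

/-- Sizes of natural sections. -/
theorem card_of_sl2 {F : Type} [Field F] [Fintype F] {R : Subgroup (Matrix.SpecialLinearGroup (Fin 2) F)}
    {E U U₀ : Subgroup G} (h : ActsAsSL2OnSection F R E U U₀) :
    Nat.card U = (Fintype.card F) ^ 2 * Nat.card U₀ := by
  obtain ⟨-, hU₀, ρ, ψ, -, hψs, hker, -⟩ := h
  have h1 : Nat.card ψ.ker * Nat.card ψ.range = Nat.card U := by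
    rw [← Subgroup.index_ker, Subgroup.card_mul_index]
  have h2 : ψ.ker = U₀.subgroupOf U := by
    ext u
    rw [MonoidHom.mem_ker, mem_subgroupOf]
    exact hker u
  have h3 : Nat.card (U₀.subgroupOf U) = Nat.card U₀ :=
    Nat.card_congr (subgroupOfEquivOfLe hU₀).toEquiv
  have h4 : Nat.card ψ.range = (Fintype.card F) ^ 2 := by
    rw [MonoidHom.range_eq_top.2 hψs, Nat.card_congr (Subgroup.topEquiv).toEquiv,
      Nat.card_eq_fintype_card]
    show Fintype.card (Multiplicative (Fin 2 → F)) = _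
    rw [Fintype.card_multiplicative, Fintype.card_fun, Fintype.card_fin]
  rw [← h1, h2, h3, h4, mul_comm]

theorem card_even_three : Nat.card {v : Fin 3 → ZMod 2 // ∑ i, v i = 0} = 4 := by
  rw [Nat.card_eq_fintype_card]
  decide +kernel

theorem card_of_perm {E U U₀ : Subgroup G}
    (h : ActsAsOddPermModuleOnSection (2 * 1 + 1) (alternatingGroup (Fin (2 * 1 + 1))) E U U₀) :
    Nat.card U = 4 * Nat.card U₀ := by
  obtain ⟨-, hU₀, ρ, ψ, -, hsum, hsurj, hker, -⟩ := h
  have h1 : Nat.card ψ.ker * Nat.card ψ.range = Nat.card U := by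
    rw [← Subgroup.index_ker, Subgroup.card_mul_index]
  have h2 : ψ.ker = U₀.subgroupOf U := by
    ext u
    rw [MonoidHom.mem_ker, mem_subgroupOf]
    exact hker u
  have h3 : Nat.card (U₀.subgroupOf U) = Nat.card U₀ :=
    Nat.card_congr (subgroupOfEquivOfLe hU₀).toEquiv
  have h4 : Nat.card ψ.range = 4 := by
    rw [← card_even_three]
    apply Nat.card_congr
    refine ⟨fun x => ⟨Multiplicative.toAdd x.1, ?_⟩, fun y => ⟨Multiplicative.ofAdd y.1, ?_⟩, ?_, ?_⟩
    · obtain ⟨u, hu⟩ := x.2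
      rw [← hu]
      exact hsum u
    · obtain ⟨u, hu⟩ := hsurj y.1 y.2
      exact ⟨u, by rw [← hu]; rfl⟩
    · intro x
      rfl
    · intro y
      rfl
  rw [← h1, h2, h3, h4, mul_comm]

theorem alt_ne_zero {T E : Subgroup G} (hE : IsBaumannBlock p T E)
    (hiso : Nonempty (↥E ⧸ pCore p ↥E ≃* ↥(alternatingGroup (Fin (2 * 0 + 1))))) : False := by
  obtain ⟨e⟩ := hiso
  have hsub : Subsingleton (↥E ⧸ pCore p ↥E) := by
    have : Subsingleton (alternatingGroup (Fin (2 * 0 + 1))) := by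
      have : Subsingleton (Equiv.Perm (Fin (2 * 0 + 1))) := by
        simp only [Nat.mul_zero, Nat.zero_add]
        infer_instance
      infer_instance
    exact e.toEquiv.subsingleton
  have hpE : pCore p ↥E = ⊤ := by
    rw [eq_top_iff]
    intro x _
    have : (x : ↥E ⧸ pCore p ↥E) = 1 := Subsingleton.elim _ _
    exact (QuotientGroup.eq_one_iff x).1 this
  have hEp : IsPGroup p ↥E := by
    intro x
    have hx : x ∈ pCore p ↥E := by rw [hpE]; trivial
    obtain ⟨k, hk⟩ := (Cfsg.Agent.Lib.Core.Basic.pCore_isPGroup (p := p) (G := ↥E)) ⟨x, hx⟩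
    refine ⟨k, ?_⟩
    have := congrArg Subtype.val hk
    simpa using this
  have hbot : E = ⊥ := by
    have hgen := block_gen hE
    rw [← hgen, closure_eq_bot_iff]
    rintro g ⟨hg, hco⟩
    obtain ⟨k, hk⟩ := hEp ⟨g, hg⟩
    have hgk : g ^ (p ^ k) = 1 := by
      have := congrArg Subtype.val hk
      simpa using this
    have hcop : Nat.Coprime (p ^ k) (orderOf g) := Nat.Coprime.pow_left _ hco.symm
    have : orderOf g ∣ p ^ k := orderOf_dvd_of_pow_eq_one hgk
    have h1 : orderOf g = 1 := Nat.Coprime.eq_one_of_dvd hcop.symm this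
    rw [Set.mem_singleton_iff]
    exact orderOf_eq_one_iff.1 h1
  apply hE.2.2.2.1
  rw [hbot, commutator_bot_left]

/-- The three kinds of blocks. -/
theorem block_types {T E : Subgroup G} (hE : IsBaumannBlock p T E) :
    Quasi p E ∨ Three p E ∨ ∃ (F : Type) (_ : Field F) (_ : Fintype F), Nonempty (QB p F T E) := by
  have hpp : p.Prime := Fact.out
  rcases hE.2.2.2.2 with ⟨F, i1, i2, n, hF, hiso, hs, hcase⟩ | ⟨hp, m, hiso, hs, hq⟩
  · have hiso' := hiso
    obtain ⟨φ⟩ := hiso
    by_cases h4 : 4 ≤ Nat.card F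
    · left
      refine ⟨quasisimple_of_mulEquiv φ.symm (quasi_SS h4), ?_⟩
      have hpF : (p : F) = 0 := by
        have h0 : ((Fintype.card F : ℕ) : F) = 0 := FiniteField.cast_card_eq_zero F
        rw [hF] at h0
        push_cast at h0
        by_contra hne
        exact (pow_ne_zero n hne) h0
      obtain ⟨r, hr1, hrp⟩ := exists_pelt_SS h4 hpF
      refine ⟨φ.symm r, ?_, ?_⟩
      · intro h
        exact hr1 (φ.symm.injective (by rw [h, map_one]))
      · rw [← map_pow, hrp, map_one]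
    · have hlt : Fintype.card F < 4 := by
        rw [← Nat.card_eq_fintype_card]
        omega
      have h1 := Fintype.one_lt_card (α := F)
      have hn : n ≠ 0 := by
        rintro rfl
        rw [pow_zero] at hF
        omega
      have hdvd : p ∣ Fintype.card F := by
        rw [hF]
        exact dvd_pow_self p hn
      have hc : Fintype.card F = 2 ∨ Fintype.card F = 3 := by omega
      rcases hc with hc | hc
      · right; left
        have hp2 : p = 2 := by
          rw [hc] at hdvd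
          exact (Nat.prime_dvd_prime_iff_eq hpp Nat.prime_two).1 hdvd
        refine ⟨hp2, ?_, ?_, ?_⟩
        · rw [Nat.card_congr φ.toEquiv]
          exact card_SS_two hc
        · rcases hcase with hq | ⟨hp3, -⟩
          · exact hq
          · omega
        · rw [card_of_sl2 hs, hc]
          norm_num
      · right; right
        have hp3 : p = 3 := by
          rw [hc] at hdvd
          exact (Nat.prime_dvd_prime_iff_eq hpp Nat.prime_three).1 hdvd
        refine ⟨F, i1, i2, ?_⟩
        obtain ⟨n₁⟩ := exists_natSec hs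
        refine ⟨⟨hp3, hc, n₁, hiso', ?_⟩⟩
        rcases hcase with hq | ⟨hp, hs2, hQQ, hfr, hZ, hcard, hnq⟩
        · exact Or.inl hq
        · right
          obtain ⟨n₂⟩ := exists_natSec hs2
          refine ⟨⟨hp, n₁, n₂, secIrr_of_sl2 hs2, hQQ, hfr, ?_, ?_, hiso'⟩⟩
          · show Nat.card ↥(omegaOneCenter p (pCoreOf p E) ⊓ centralizer (E : Set G)) = _
            rw [← hZ, hcard, hF, hp]
          · intro b hb hbn
            have := hnq b hb hbn
            rwa [hZ] at this
  · have hiso' := hiso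
    rcases Nat.lt_or_ge m 2 with hm | hm
    · have hm' : m = 0 ∨ m = 1 := by omega
      rcases hm' with rfl | rfl
      · exact (alt_ne_zero hE hiso').elim
      · right; left
        obtain ⟨φ⟩ := hiso'
        refine ⟨hp, ?_, hq, ?_⟩
        · rw [Nat.card_congr φ.toEquiv]
          exact card_alt_three
        · exact card_of_perm hs
    · left
      subst hp
      obtain ⟨φ⟩ := hiso'
      refine ⟨quasisimple_of_mulEquiv φ.symm (quasi_alt hm), ?_⟩
      obtain ⟨r, hr1, hrp⟩ := exists_pelt_alt hm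
      refine ⟨φ.symm r, ?_, ?_⟩
      · intro h
        exact hr1 (φ.symm.injective (by rw [h, map_one]))
      · rw [← map_pow, hrp, map_one]

end Cfsg.Agent.Lib.BPair.Types
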