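/-
Blocks relative to the Baumann subgroup: sections on which a second group acts.
-/
import Cfsg.Agent.Lib.BPair.Types
import Cfsg.Agent.Lib.Zassen.Unique

set_option autoImplicit false
set_option linter.unusedSectionVars false
set_option linter.unusedVariables false

namespace Cfsg.Agent.Lib.BPair.Sec

open Subgroup Cfsg
open Cfsg.Agent.Lib.LocalEven.Util
open Cfsg.Agent.Lib.LocalEven.Baumann
open Cfsg.Agent.Lib.LocalEven.BaumannBlock
open Cfsg.Agent.Lib.LocalEven.SecIrr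
open Cfsg.Agent.Lib.LocalStruct.PCoreOf
open Cfsg.Agent.Lib.FG85.BB
open Cfsg.Agent.Lib.BPair.Basic
open Cfsg.Agent.Lib.BPair.Small
open Cfsg.Agent.Lib.BPair.Types
open Cfsg.Agent.Lib.Components.Basic
open Cfsg.Agent.Lib.PReduced.RelNorm (mem_normalizer_inf mem_normalizer_sup mem_normalizer_centralizer)
open scoped commutatorElement

universe u

variable {G : Type u} [Group G] [Finite G] {p : ℕ} [Fact p.Prime]

/-- A subgroup normalizing a section and commuting with `A` modulo the kernel of its action normalizes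
the commutator of the section with `A`. -/
theorem le_normalizer_comm_sup {E A U U₀ Q' : Subgroup G}
    (hEU : E ≤ normalizer (U : Set G)) (hEU₀ : E ≤ normalizer (U₀ : Set G))
    (hAU : A ≤ normalizer (U : Set G))
    (hEA : ∀ e ∈ E, ∀ a ∈ A, e * a * e⁻¹ * a⁻¹ ∈ Q')
    (hQ' : ∀ q ∈ Q', ∀ u ∈ U, q * u * q⁻¹ * u⁻¹ ∈ U₀) :
    E ≤ normalizer ((⁅U, A⁆ ⊔ U₀ : Subgroup G) : Set G) := by
  intro e he
  apply mem_normalizer_of_conj_le
  intro y hy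
  have hle : ⁅U, A⁆ ⊔ U₀ ≤ (⁅U, A⁆ ⊔ U₀ : Subgroup G).comap (MulAut.conj e).toMonoidHom := by
    refine sup_le ?_ ?_
    · rw [commutator_le]
      intro u hu a ha
      rw [mem_comap]
      show e * ⁅u, a⁆ * e⁻¹ ∈ _
      have hu' : e * u * e⁻¹ ∈ U := conj_mem_of_mem_normalizer (hEU he) hu
      set q := e * a * e⁻¹ * a⁻¹ with hq
      have hqQ : q ∈ Q' := hEA e he a ha
      have e1 : e * ⁅u, a⁆ * e⁻¹ =
          (q * (e * u * e⁻¹) * q⁻¹ * (e * u * e⁻¹)⁻¹)⁻¹ * (q * ⁅e * u * e⁻¹, a⁆ * q⁻¹) := by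
        rw [hq]
        simp only [commutatorElement_def]
        group
      rw [e1]
      have hx : ⁅e * u * e⁻¹, a⁆ ∈ ⁅U, A⁆ := commutator_mem_commutator hu' ha
      have hxU : ⁅e * u * e⁻¹, a⁆ ∈ U :=
        (Cfsg.Agent.Lib.QuadAct.Basic.commutator_le_of_le_normalizer hAU) hx
      refine mul_mem (inv_mem (mem_sup_right (hQ' q hqQ _ hu'))) ?_
      have e2 : q * ⁅e * u * e⁻¹, a⁆ * q⁻¹ =
          (q * ⁅e * u * e⁻¹, a⁆ * q⁻¹ * ⁅e * u * e⁻¹, a⁆⁻¹) * ⁅e * u * e⁻¹, a⁆ := by group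
      rw [e2]
      exact mul_mem (mem_sup_right (hQ' q hqQ _ hxU)) (mem_sup_left hx)
    · intro y hy
      rw [mem_comap]
      exact mem_sup_right (conj_mem_of_mem_normalizer (hEU₀ he) hy)
  exact hle hy

/-- A `p`-element of a group normalizing an irreducible section and commuting with the irreducible
group modulo the kernel of the action acts trivially on the section. -/
theorem sec_p_trivial {E F U U₀ Q' : Subgroup G} (hirr : SecIrr E U U₀) (hU : IsPGroup p U)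
    (hU₀U : U₀ ≤ U) (hUU₀ : U ≤ normalizer (U₀ : Set G))
    (hEU : E ≤ normalizer (U : Set G)) (hEU₀ : E ≤ normalizer (U₀ : Set G))
    (hFU : F ≤ normalizer (U : Set G)) (hFU₀ : F ≤ normalizer (U₀ : Set G))
    (hEF : ∀ e ∈ E, ∀ a ∈ F, e * a * e⁻¹ * a⁻¹ ∈ Q')
    (hQ' : ∀ q ∈ Q', ∀ u ∈ U, q * u * q⁻¹ * u⁻¹ ∈ U₀)
    (hne : ¬ U ≤ U₀) {f : G} (hf : f ∈ F) (hfp : ∃ k : ℕ, f ^ (p ^ k) = 1) :
    ∀ u ∈ U, f * u * f⁻¹ * u⁻¹ ∈ U₀ := by
  have hAF : zpowers f ≤ F := by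
    rw [zpowers_le]
    exact hf
  have hAp : IsPGroup p (zpowers f) := by
    obtain ⟨k, hk⟩ := hfp
    rintro ⟨_, m, rfl⟩
    refine ⟨k, ?_⟩
    apply Subtype.ext
    show (f ^ m) ^ (p ^ k) = 1
    rw [← zpow_natCast, ← zpow_mul, mul_comm, zpow_mul, zpow_natCast, hk, one_zpow]
  have hD : E ≤ normalizer ((⁅U, zpowers f⁆ ⊔ U₀ : Subgroup G) : Set G) :=
    le_normalizer_comm_sup hEU hEU₀ (hAF.trans hFU) (fun e he a ha => hEF e he a (hAF ha)) hQ'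
  have h1 := comm_le_of_secIrr hirr hU hAp (hAF.trans hFU) (hAF.trans hFU₀) hUU₀ hU₀U hD hne
  intro u hu
  have h2 : ⁅u, f⁆ ∈ U₀ := h1 (commutator_mem_commutator hu (mem_zpowers f))
  have e : f * u * f⁻¹ * u⁻¹ = ⁅u, f⁆⁻¹ := by
    simp only [commutatorElement_def]
    group
  rw [e]
  exact inv_mem h2

/-- Elements of `p`-power order in a quotient lift. -/
theorem exists_lift_pelt {H : Type*} [Group H] [Finite H] (N : Subgroup H) [N.Normal] (x : H ⧸ N)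
    (hx : ∃ k : ℕ, x ^ (p ^ k) = 1) : ∃ h : H, (h : H ⧸ N) = x ∧ ∃ k : ℕ, h ^ (p ^ k) = 1 := by
  have hpp : p.Prime := Fact.out
  obtain ⟨h, rfl⟩ := QuotientGroup.mk_surjective x
  obtain ⟨b, hb⟩ := hx
  have hn : orderOf h ≠ 0 := (orderOf_pos h).ne'
  obtain ⟨a, m, hm, he⟩ := Nat.exists_eq_pow_mul_and_not_dvd hn p hpp.ne_one
  have hcm : m.Coprime p := ((Nat.Prime.coprime_iff_not_dvd hpp).2 hm).symm
  have hdvd1 : orderOf (h : H ⧸ N) ∣ p ^ b := orderOf_dvd_of_pow_eq_one hb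
  have hcop : m.Coprime (orderOf (h : H ⧸ N)) :=
    Nat.Coprime.coprime_dvd_right hdvd1 (Nat.Coprime.pow_right _ hcm)
  obtain ⟨u, hu⟩ := exists_pow_eq_self_of_coprime hcop
  refine ⟨(h ^ m) ^ u, ?_, a, ?_⟩
  · have e : (((h ^ m) ^ u : H) : H ⧸ N) = ((h : H ⧸ N) ^ m) ^ u := rfl
    rw [e, hu]
  · have e : ((h ^ m) ^ u) ^ (p ^ a) = (h ^ (p ^ a * m)) ^ u := by
      simp only [← pow_mul]
      congr 1
      ring
    rw [e, ← he, pow_orderOf_eq_one, one_pow]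

/-- A normal subgroup containing the `p`-elements of `H`, with `H / O_p(H)` quasisimple of order
divisible by `p`, is everything. -/
theorem top_of_quasi {H : Type*} [Group H] [Finite H] (hq : IsQuasisimple (H ⧸ pCore p H))
    (hr : ∃ r : H ⧸ pCore p H, r ≠ 1 ∧ r ^ p = 1) (K : Subgroup H) [hK : K.Normal]
    (hpel : ∀ h : H, (∃ k : ℕ, h ^ (p ^ k) = 1) → h ∈ K) : K = ⊤ := by
  set N := pCore p H with hN
  haveI hKm : (K.map (QuotientGroup.mk' N)).Normal := hK.map _ (QuotientGroup.mk'_surjective _)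
  have hNK : N ≤ K := by
    intro x hx
    obtain ⟨k, hk⟩ := (Cfsg.Agent.Lib.Core.Basic.pCore_isPGroup (p := p) (G := H)) ⟨x, hx⟩
    exact hpel x ⟨k, by simpa using congrArg Subtype.val hk⟩
  rcases normal_eq_top_or_le_center hq (K.map (QuotientGroup.mk' N)) with h | h
  · have h2 : (K.map (QuotientGroup.mk' N)).comap (QuotientGroup.mk' N) = ⊤ := by
      rw [h]
      simp
    rw [comap_map_eq, QuotientGroup.ker_mk', sup_eq_left.2 hNK] at h2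
    exact h2
  · exfalso
    have hcen : ∀ x : H ⧸ N, (∃ k : ℕ, x ^ (p ^ k) = 1) → x ∈ center (H ⧸ N) := by
      intro x hx
      obtain ⟨h', rfl, hh⟩ := exists_lift_pelt N x hx
      exact h ⟨h', hpel h' hh, rfl⟩
    obtain ⟨r, hr1, hrp⟩ := hr
    have hrp' : r ^ (p ^ 1) = 1 := by rwa [pow_one]
    have hrz : IsPGroup p (zpowers r) := by
      rintro ⟨_, m, rfl⟩
      refine ⟨1, ?_⟩
      apply Subtype.ext
      show (r ^ m) ^ (p ^ 1) = 1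
      rw [← zpow_natCast, ← zpow_mul, mul_comm, zpow_mul, zpow_natCast, hrp', one_zpow]
    obtain ⟨P, hP⟩ := hrz.exists_le_sylow
    have hPel : ∀ x ∈ (P : Subgroup (H ⧸ N)), x ∈ center (H ⧸ N) := by
      intro x hx
      apply hcen
      obtain ⟨k, hk⟩ := P.isPGroup' ⟨x, hx⟩
      exact ⟨k, by simpa using congrArg Subtype.val hk⟩
    refine Cfsg.Agent.Lib.Zassen.Unique.false_of_central (quasisimple_perfect hq) P ?_
      (hP (mem_zpowers r)) ?_ hr1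
    · intro x hx y _
      exact (mem_center_iff.1 (hPel x hx) y).symm
    · intro g
      exact mem_center_iff.1 (hPel r (hP (mem_zpowers r))) g

/-- The same in the ambient group. -/
theorem le_of_quasi {F K : Subgroup G} (hq : Quasi p F) (hFK : F ≤ normalizer (K : Set G))
    (hpel : ∀ f ∈ F, (∃ k : ℕ, f ^ (p ^ k) = 1) → f ∈ K) : F ≤ K := by
  have hn : (K.subgroupOf F).Normal := by
    refine ⟨fun x hx g => ?_⟩
    rw [mem_subgroupOf] at hx ⊢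
    exact conj_mem_of_mem_normalizer (hFK g.2) hx
  have := top_of_quasi hq.1 hq.2 (K.subgroupOf F) (fun h ⟨k, hk⟩ => by
    rw [mem_subgroupOf]
    exact hpel h h.2 ⟨k, by simpa using congrArg Subtype.val hk⟩)
  intro f hf
  have h2 : (⟨f, hf⟩ : F) ∈ K.subgroupOf F := by
    rw [this]
    trivial
  exact mem_subgroupOf.1 h2

/-! ### Scalars on natural sections over the field with three elements -/

section Scalar

variable {F₀ : Type} [Field F₀]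

theorem scalar_of_commute (h3 : (3 : F₀) = 0) (M : Matrix (Fin 2) (Fin 2) F₀)
    {i j : Matrix.SpecialLinearGroup (Fin 2) F₀}
    (hi : (i : Matrix (Fin 2) (Fin 2) F₀) = !![0, 1; -1, 0])
    (hj : (j : Matrix (Fin 2) (Fin 2) F₀) = !![1, 1; 1, -1])
    (h1 : M * (i : Matrix (Fin 2) (Fin 2) F₀) = (i : Matrix (Fin 2) (Fin 2) F₀) * M)
    (h2 : M * (j : Matrix (Fin 2) (Fin 2) F₀) = (j : Matrix (Fin 2) (Fin 2) F₀) * M) :
    M = (M 0 0) • (1 : Matrix (Fin 2) (Fin 2) F₀) := by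
  rw [hi] at h1
  rw [hj] at h2
  rw [Matrix.eta_fin_two M] at h1 h2
  rw [Matrix.mul_fin_two, Matrix.mul_fin_two] at h1 h2
  have e1 := congrFun (congrFun h1 0) 0
  have e2 := congrFun (congrFun h1 0) 1
  have e3 := congrFun (congrFun h2 0) 0
  simp at e1 e2 e3
  have hc : M 1 0 = - M 0 1 := by linear_combination -e1
  have hda : M 1 1 = M 0 0 := by linear_combination -e2
  have hbc : M 0 1 = M 1 0 := by linear_combination e3
  have hb : M 0 1 = 0 := by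
    have h2b : (2 : F₀) * M 0 1 = 0 := by
      rw [hc] at hbc
      linear_combination hbc
    exact (mul_eq_zero.1 h2b).resolve_left (two_ne_zero' h3)
  have hc0 : M 1 0 = 0 := by rw [hc, hb, neg_zero]
  ext u v
  fin_cases u <;> fin_cases v <;> simp [hb, hc0, hda]

/-- On a natural section over the field with three elements, a group whose action commutes with the
block acts by scalars. -/
theorem scalar_comm {E F U U₀ : Subgroup G} (h3 : (3 : F₀) = 0)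
    (hsm : ∀ a : F₀, a = 0 ∨ a = 1 ∨ a = -1) (n : NatSec F₀ E U U₀)
    (hFU : F ≤ normalizer (U : Set G)) (hFU₀ : F ≤ normalizer (U₀ : Set G))
    (hEU : E ≤ normalizer (U : Set G)) (hEU₀ : E ≤ normalizer (U₀ : Set G))
    (hc : ∀ e ∈ E, ∀ f ∈ F, ∀ u ∈ U, (e * f) * u * (e * f)⁻¹ * ((f * e) * u * (f * e)⁻¹)⁻¹ ∈ U₀)
    {f₁ f₂ : G} (h₁ : f₁ ∈ F) (h₂ : f₂ ∈ F) :
    ∀ u ∈ U, (f₁ * f₂) * u * (f₁ * f₂)⁻¹ * ((f₂ * f₁) * u * (f₂ * f₁)⁻¹)⁻¹ ∈ U₀ := by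
  classical
  set d := n.sec hFU hFU₀ with hd
  have hUU : ∀ x y, x ∈ U → y ∈ U → n.ψ x = n.ψ y → x * y⁻¹ ∈ U₀ := by
    intro x y hx hy hxy
    have hz : n.ψ (x * y⁻¹) = 0 := by
      have := (show SecData F U U₀ _ from d).pr_div hx hy
      rw [NatSec.sec_pr] at this
      rw [this, hxy, sub_self]
    exact (n.ψ_ker _ (mul_mem hx (inv_mem hy))).1 hz
  -- the matrix of `f ∈ F`
  have hmat : ∀ f ∈ F, ∃ M : Matrix (Fin 2) (Fin 2) F₀, (∀ x, d.hat f x = M.mulVec x) ∧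
      M 0 0 • (1 : Matrix (Fin 2) (Fin 2) F₀) = M := by
    intro f hf
    obtain ⟨M, hM⟩ := exists_matrix_of_small hsm (d.hat f)
    refine ⟨M, hM, ?_⟩
    obtain ⟨i, j, hi, hj, hi', hj'⟩ := exists_ij (F := F₀) h3
    have hcomm : ∀ s ∈ SS F₀, M * (s : Matrix (Fin 2) (Fin 2) F₀) = (s : Matrix (Fin 2) (Fin 2) F₀) * M := by
      intro s hs
      obtain ⟨e, he, rfl⟩ := n.ρ_surj s hs
      apply Matrix.ext_of_mulVec_single
      intro v
      rw [← Matrix.mulVec_mulVec, ← Matrix.mulVec_mulVec]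
      generalize hw : (Pi.single v 1 : Fin 2 → F₀) = w
      obtain ⟨u, hu, rfl⟩ := n.ψ_surj w
      have hu1 : e * u * e⁻¹ ∈ U := conj_mem_of_mem_normalizer (hEU he) hu
      have hu2 : f * u * f⁻¹ ∈ U := conj_mem_of_mem_normalizer (hFU hf) hu
      have hψ : ∀ x, x ∈ U → d.hat f (n.ψ x) = n.ψ (f * x * f⁻¹) := by
        intro x hx
        have := d.hat_spec f hf x hx
        rw [NatSec.sec_pr] at this
        exact this.symm
      rw [← n.ψ_eq e he u hu, ← hM, ← hM, hψ _ hu1, hψ _ hu, ← n.ψ_eq e he _ hu2]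
      have h4 := hc e he f hf u hu
      have hx1 : (e * f) * u * (e * f)⁻¹ ∈ U :=
        conj_mem_of_mem_normalizer (mul_mem (hEU he) (hFU hf)) hu
      have hx2 : (f * e) * u * (f * e)⁻¹ ∈ U :=
        conj_mem_of_mem_normalizer (mul_mem (hFU hf) (hEU he)) hu
      have h5 : n.ψ ((e * f) * u * (e * f)⁻¹) = n.ψ ((f * e) * u * (f * e)⁻¹) := by
        have h6 := (n.ψ_ker _ (mul_mem hx1 (inv_mem hx2))).2 h4
        have h7 := (show SecData F U U₀ _ from d).pr_div hx1 hx2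
        rw [NatSec.sec_pr, h6] at h7
        exact (sub_eq_zero.1 h7.symm)
      have e1 : f * (e * u * e⁻¹) * f⁻¹ = (f * e) * u * (f * e)⁻¹ := by group
      have e2 : e * (f * u * f⁻¹) * e⁻¹ = (e * f) * u * (e * f)⁻¹ := by group
      rw [e1, e2, h5]
    have := scalar_of_commute h3 M hi' hj' (hcomm i hi) (hcomm j hj)
    exact this.symm
  intro u hu
  obtain ⟨M₁, hM₁, hs₁⟩ := hmat f₁ h₁
  obtain ⟨M₂, hM₂, hs₂⟩ := hmat f₂ h₂
  have hx1 : (f₁ * f₂) * u * (f₁ * f₂)⁻¹ ∈ U :=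
    conj_mem_of_mem_normalizer (mul_mem (hFU h₁) (hFU h₂)) hu
  have hx2 : (f₂ * f₁) * u * (f₂ * f₁)⁻¹ ∈ U :=
    conj_mem_of_mem_normalizer (mul_mem (hFU h₂) (hFU h₁)) hu
  apply hUU _ _ hx1 hx2
  have hψ : ∀ f ∈ F, ∀ x, x ∈ U → n.ψ (f * x * f⁻¹) = d.hat f (n.ψ x) := by
    intro f hf x hx
    have := d.hat_spec f hf x hx
    rwa [NatSec.sec_pr] at this
  have e1 : (f₁ * f₂) * u * (f₁ * f₂)⁻¹ = f₁ * (f₂ * u * f₂⁻¹) * f₁⁻¹ := by group
  have e2 : (f₂ * f₁) * u * (f₂ * f₁)⁻¹ = f₂ * (f₁ * u * f₁⁻¹) * f₂⁻¹ := by group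
  rw [e1, e2, hψ _ h₁ _ (conj_mem_of_mem_normalizer (hFU h₂) hu), hψ _ h₂ _ hu,
    hψ _ h₂ _ (conj_mem_of_mem_normalizer (hFU h₁) hu), hψ _ h₁ _ hu, hM₁, hM₂, hM₂, hM₁,
    ← hs₁, ← hs₂]
  simp [Matrix.smul_mulVec, Matrix.one_mulVec, smul_smul, mul_comm]

/-- The form used below: commutators of `F` act trivially. -/
theorem scalar_comm' {E F U U₀ Q' : Subgroup G} (h3 : (3 : F₀) = 0)
    (hsm : ∀ a : F₀, a = 0 ∨ a = 1 ∨ a = -1) (n : NatSec F₀ E U U₀)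
    (hFU : F ≤ normalizer (U : Set G)) (hFU₀ : F ≤ normalizer (U₀ : Set G))
    (hEU : E ≤ normalizer (U : Set G)) (hEU₀ : E ≤ normalizer (U₀ : Set G))
    (hEF : ∀ e ∈ E, ∀ f ∈ F, e * f * e⁻¹ * f⁻¹ ∈ Q')
    (hQ' : ∀ q ∈ Q', ∀ u ∈ U, q * u * q⁻¹ * u⁻¹ ∈ U₀)
    {f₁ f₂ : G} (h₁ : f₁ ∈ F) (h₂ : f₂ ∈ F) :
    ∀ v ∈ U, (f₁ * f₂ * f₁⁻¹ * f₂⁻¹) * v * (f₁ * f₂ * f₁⁻¹ * f₂⁻¹)⁻¹ * v⁻¹ ∈ U₀ := by
  have hc : ∀ e ∈ E, ∀ f ∈ F, ∀ u ∈ U,
      (e * f) * u * (e * f)⁻¹ * ((f * e) * u * (f * e)⁻¹)⁻¹ ∈ U₀ := by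
    intro e he f hf u hu
    have hv : (f * e) * u * (f * e)⁻¹ ∈ U :=
      conj_mem_of_mem_normalizer (mul_mem (hFU hf) (hEU he)) hu
    have h1 := hQ' _ (hEF e he f hf) _ hv
    have e1 : (e * f) * u * (e * f)⁻¹ * ((f * e) * u * (f * e)⁻¹)⁻¹ =
        (e * f * e⁻¹ * f⁻¹) * ((f * e) * u * (f * e)⁻¹) * (e * f * e⁻¹ * f⁻¹)⁻¹ *
          ((f * e) * u * (f * e)⁻¹)⁻¹ := by group
    rw [e1]
    exact h1
  intro v hv
  have hu : (f₂ * f₁)⁻¹ * v * ((f₂ * f₁)⁻¹)⁻¹ ∈ U :=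
    conj_mem_of_mem_normalizer (inv_mem (mul_mem (hFU h₂) (hFU h₁))) hv
  have := scalar_comm h3 hsm n hFU hFU₀ hEU hEU₀ hc h₁ h₂ _ hu
  have e1 : (f₁ * f₂ * f₁⁻¹ * f₂⁻¹) * v * (f₁ * f₂ * f₁⁻¹ * f₂⁻¹)⁻¹ * v⁻¹ =
      (f₁ * f₂) * ((f₂ * f₁)⁻¹ * v * ((f₂ * f₁)⁻¹)⁻¹) * (f₁ * f₂)⁻¹ *
        ((f₂ * f₁) * ((f₂ * f₁)⁻¹ * v * ((f₂ * f₁)⁻¹)⁻¹) * (f₂ * f₁)⁻¹)⁻¹ := by group
  rw [e1]
  exact this

end Scalar

end Cfsg.Agent.Lib.BPair.Sec
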