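/-
Blocks relative to the Baumann subgroup: the chain lemma, inversion of `W_E`, blocks with
`E / O_2(E)` of order three.
-/
import Cfsg.Agent.Lib.BPair.Sec

set_option autoImplicit false
set_option linter.unusedSectionVars false
set_option linter.unusedVariables false

namespace Cfsg.Agent.Lib.BPair.Inv

open Subgroup Cfsg Matrix
open Cfsg.Agent.Lib.LocalEven.Util
open Cfsg.Agent.Lib.LocalEven.Baumann
open Cfsg.Agent.Lib.LocalEven.BaumannBlock
open Cfsg.Agent.Lib.LocalEven.SecIrr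
open Cfsg.Agent.Lib.LocalStruct.PCoreOf
open Cfsg.Agent.Lib.FG85.BB
open Cfsg.Agent.Lib.BPair.Basic
open Cfsg.Agent.Lib.BPair.Small
open Cfsg.Agent.Lib.BPair.Types
open Cfsg.Agent.Lib.BPair.Sec
open Cfsg.Agent.Lib.Components.Basic
open Cfsg.Agent.Lib.PReduced.RelNorm (mem_normalizer_inf mem_normalizer_sup mem_normalizer_centralizer)
open scoped commutatorElement

universe u

variable {G : Type u} [Group G] [Finite G] {p : ℕ} [Fact p.Prime]

/-- The chain lemma: if the `p'`-elements of `K` centralize `O_p(G)`, the elements of `K` which are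
`r`-elements modulo `O_p(G)` lie in `O_p(G)`. -/
theorem mem_core_of_chain (hG : centralizer (pCore p G : Set G) ≤ pCore p G) {K : Subgroup G}
    (hK : ∀ y ∈ K, (orderOf y).Coprime p → ∀ u ∈ pCore p G, y * u * y⁻¹ = u)
    {c : G} (hc : c ∈ K) {r : ℕ} (hr : r.Coprime p) {k : ℕ} (hck : c ^ (r ^ k) ∈ pCore p G) :
    c ∈ pCore p G := by
  have h1 : ∀ y ∈ K, (orderOf y).Coprime p → y ∈ pCore p G := by
    intro y hy hco
    apply hG
    rw [mem_centralizer_iff]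
    intro u hu
    have := hK y hy hco u hu
    calc u * y = (y * u * y⁻¹) * y := by rw [this]
      _ = y * u := by group
  obtain ⟨a, ha⟩ := pelt_of_coprime_mem Cfsg.Agent.Lib.Core.Basic.pCore_isPGroup h1 c hc
  have hcop : Nat.Coprime (r ^ k) (orderOf c) := by
    have h3 : orderOf c ∣ p ^ a := orderOf_dvd_of_pow_eq_one ha
    exact Nat.Coprime.coprime_dvd_right h3 (Nat.Coprime.pow _ _ hr)
  obtain ⟨m, hm⟩ := exists_pow_eq_self_of_coprime hcop
  rw [← hm]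
  exact pow_mem hck m

/-- The group of elements fixing a subgroup pointwise modulo a chain: a convenient form. -/
theorem chain_two {A B : Subgroup G} (hB : IsPGroup p B) {y : G} (hco : (orderOf y).Coprime p)
    (h1 : y ∈ secTriv (pCore p G) A) (h2 : y ∈ secTriv A B) (h3 : ∀ b ∈ B, y * b * y⁻¹ = b)
    (hA : IsPGroup p A) : ∀ u ∈ pCore p G, y * u * y⁻¹ = u :=
  fixes_of_secTriv hA hco h1 (fixes_of_secTriv hB hco h2 h3)

/-! ### Kernels of natural sections -/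

section Nat

variable {F₀ : Type} [Field F₀] {E U U₀ Q : Subgroup G}

theorem neg_one_ne' (h3 : (3 : F₀) = 0) : (-1 : Matrix (Fin 2) (Fin 2) F₀) ≠ 1 := by
  intro h
  have h1 := congrFun (congrFun h 0) 0
  simp at h1
  have h2 : (2 : F₀) = 0 := by
    have : (-1 : F₀) - 1 = 0 := sub_eq_zero.2 h1
    linear_combination -this
  exact two_ne_zero' h3 h2

/-- Quaternion elements. -/
theorem exists_neg (h3 : (3 : F₀) = 0) (n : NatSec F₀ E U U₀) :
    ∃ i₁ ∈ E, ∃ j₁ ∈ E, (n.ρ (i₁ * j₁ * i₁⁻¹ * j₁⁻¹) : Matrix (Fin 2) (Fin 2) F₀) = -1 := by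
  obtain ⟨i, j, hi, hj, -, -, hij, -⟩ := exists_ij' (F := F₀) h3
  obtain ⟨i₁, hi₁, hi'⟩ := n.ρ_surj i hi
  obtain ⟨j₁, hj₁, hj'⟩ := n.ρ_surj j hj
  refine ⟨i₁, hi₁, j₁, hj₁, ?_⟩
  rw [n.ρ_comm hi₁ hj₁, hi', hj']
  exact comm_eq_neg i j hij

theorem central_mod (n : NatSec F₀ E U U₀) (hker : ∀ e ∈ E, n.ρ e = 1 ↔ e ∈ Q) {z e : G}
    (hz : z ∈ E) (he : e ∈ E) (hρ : (n.ρ z : Matrix (Fin 2) (Fin 2) F₀) = -1) :
    e * z * e⁻¹ * z⁻¹ ∈ Q :=
  (hker _ (mul_mem (mul_mem (mul_mem he hz) (inv_mem he)) (inv_mem hz))).1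
    (n.rho_comm_of_neg hz he hρ)

/-- An element of `E` with matrix `-1` inverts the section. -/
theorem sec_neg (n : NatSec F₀ E U U₀) (hEU : E ≤ normalizer (U : Set G)) {z u : G}
    (hz : z ∈ E) (hu : u ∈ U) (hρ : (n.ρ z : Matrix (Fin 2) (Fin 2) F₀) = -1) :
    z * u * z⁻¹ * u ∈ U₀ := by
  have h1 : z * u * z⁻¹ ∈ U := conj_mem_of_mem_normalizer (hEU hz) hu
  refine (n.ψ_ker _ (mul_mem h1 hu)).1 ?_
  rw [n.ψ_mul _ h1 _ hu, n.ψ_eq z hz u hu, hρ, Matrix.neg_mulVec, Matrix.one_mulVec,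
    neg_add_cancel]

end Nat

/-! ### Inversion of `W_E` -/

section Inversion

variable {F₀ : Type} [Field F₀] {E : Subgroup G}

theorem omE_comm' (E : Subgroup G) {a b : G} (ha : a ∈ OmE p E) (hb : b ∈ OmE p E) : a * b = b * a :=
  omE_comm E ha (omE_le_core E hb)

theorem wE_pow {E : Subgroup G} {w : G} (hw : w ∈ WE p E) : w ^ p = 1 :=
  (mem_omegaOneCenter.1 (wE_le_omE E hw)).2.2

theorem omE_conj (E : Subgroup G) {e w : G} (he : e ∈ E) (hw : w ∈ OmE p E) : e * w * e⁻¹ ∈ OmE p E :=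
  conj_mem_of_mem_normalizer (le_normalizer_omE E he) hw

/-- `z` inverts `W_E`. -/
theorem inv_wE (n : NatSec F₀ E (OmE p E) (ZE p E))
    (hker : ∀ e ∈ E, n.ρ e = 1 ↔ e ∈ pCoreOf p E) {z y : G} (hz : z ∈ E) (hy : y ∈ WE p E)
    (hρ : (n.ρ z : Matrix (Fin 2) (Fin 2) F₀) = -1) : z * y * z⁻¹ = y⁻¹ := by
  let D : Subgroup G :=
    { carrier := {y | y ∈ OmE p E ∧ z * y * z⁻¹ * y = 1}
      mul_mem' := by
        rintro a b ⟨ha, ha'⟩ ⟨hb, hb'⟩
        refine ⟨mul_mem ha hb, ?_⟩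
        have hza : z * a * z⁻¹ ∈ OmE p E := omE_conj E hz ha
        have hzb : z * b * z⁻¹ ∈ OmE p E := omE_conj E hz hb
        calc z * (a * b) * z⁻¹ * (a * b) = (z * a * z⁻¹) * ((z * b * z⁻¹) * a) * b := by group
          _ = (z * a * z⁻¹) * (a * (z * b * z⁻¹)) * b := by rw [omE_comm' E hzb ha]
          _ = (z * a * z⁻¹ * a) * (z * b * z⁻¹ * b) := by group
          _ = 1 := by rw [ha', hb', one_mul]
      one_mem' := ⟨one_mem _, by group⟩
      inv_mem' := by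
        rintro a ⟨ha, ha'⟩
        refine ⟨inv_mem ha, ?_⟩
        have hza : z * a * z⁻¹ ∈ OmE p E := omE_conj E hz ha
        have h1 : z * a⁻¹ * z⁻¹ * a⁻¹ = ((z * a * z⁻¹) * a)⁻¹ := by
          have := omE_comm' E hza ha
          calc z * a⁻¹ * z⁻¹ * a⁻¹ = (z * a * z⁻¹)⁻¹ * a⁻¹ := by group
            _ = (a * (z * a * z⁻¹))⁻¹ := by group
            _ = ((z * a * z⁻¹) * a)⁻¹ := by rw [← this]
        rw [h1, ha', inv_one] }
  have hle : WE p E ≤ D := by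
    rw [commutator_le]
    intro w hw e he
    have hew : e * w * e⁻¹ ∈ OmE p E := omE_conj E he hw
    refine ⟨?_, ?_⟩
    · show w * e * w⁻¹ * e⁻¹ ∈ OmE p E
      have e1 : w * e * w⁻¹ * e⁻¹ = w * (e * w * e⁻¹)⁻¹ := by group
      rw [e1]
      exact mul_mem hw (inv_mem hew)
    · show z * (w * e * w⁻¹ * e⁻¹) * z⁻¹ * (w * e * w⁻¹ * e⁻¹) = 1
      have hζ : z * w * z⁻¹ * w ∈ ZE p E := sec_neg n (le_normalizer_omE E) hz hw hρ
      have hq : e * z * e⁻¹ * z⁻¹ ∈ pCoreOf p E := central_mod n hker hz he hρ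
      set v := e * w * e⁻¹ with hv
      have hvW : v ∈ OmE p E := hew
      set ζ := z * w * z⁻¹ * w with hζd
      have hζW : ζ ∈ OmE p E := zE_le_omE E hζ
      have h1 : z * v * z⁻¹ = e * (z * w * z⁻¹) * e⁻¹ := by
        have hu : z * v * z⁻¹ ∈ OmE p E := omE_conj E hz hvW
        have hc := omE_comm E hu hq
        have e1 : e * (z * w * z⁻¹) * e⁻¹ =
            (e * z * e⁻¹ * z⁻¹) * (z * v * z⁻¹) * (e * z * e⁻¹ * z⁻¹)⁻¹ := by
          rw [hv]; group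
        rw [e1, ← hc]
        group
      have h2 : z * w * z⁻¹ = ζ * w⁻¹ := by rw [hζd]; group
      have h3 : z * v * z⁻¹ = ζ * v⁻¹ := by
        rw [h1, h2]
        have e1 : e * (ζ * w⁻¹) * e⁻¹ = (e * ζ * e⁻¹) * v⁻¹ := by rw [hv]; group
        rw [e1, zE_conj E hζ he]
      have e2 : w * e * w⁻¹ * e⁻¹ = w * v⁻¹ := by rw [hv]; group
      rw [e2]
      have e3 : z * (w * v⁻¹) * z⁻¹ = (z * w * z⁻¹) * (z * v * z⁻¹)⁻¹ := by group
      rw [e3, h2, h3]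
      have hy' : w⁻¹ * v ∈ OmE p E := mul_mem (inv_mem hw) hvW
      have hc1 := omE_comm' E hζW hy'
      have hc2 := omE_comm' E hvW hw
      calc ζ * w⁻¹ * (ζ * v⁻¹)⁻¹ * (w * v⁻¹) = (ζ * (w⁻¹ * v)) * ζ⁻¹ * (w * v⁻¹) := by group
        _ = (w⁻¹ * v) * ζ * ζ⁻¹ * (w * v⁻¹) := by rw [hc1]
        _ = w⁻¹ * (v * w) * v⁻¹ := by group
        _ = 1 := by rw [hc2]; group
  exact eq_inv_of_mul_eq_one_left (hle hy).2

/-- Two ways of being the identity for an element of exponent three. -/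
theorem eq_one_of_sq {w : G} (h3 : w ^ 3 = 1) (h2 : w * w = 1) : w = 1 := by
  have : w ^ 3 = w * (w * w) := by
    simp only [pow_succ, pow_zero, one_mul, mul_assoc]
  rw [this, h2, mul_one] at h3
  exact h3

theorem wE_cen_of_neg (hp : p = 3) (n : NatSec F₀ E (OmE p E) (ZE p E))
    (hker : ∀ e ∈ E, n.ρ e = 1 ↔ e ∈ pCoreOf p E) {z y : G} (hz : z ∈ E)
    (hρ : (n.ρ z : Matrix (Fin 2) (Fin 2) F₀) = -1) (hy : y ∈ WE p E)
    (hc : y ∈ centralizer (E : Set G)) : y = 1 := by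
  have h1 := inv_wE n hker hz hy hρ
  have h2 : z * y = y * z := mem_centralizer_iff.1 hc z hz
  rw [h2] at h1
  have h3 : y = y⁻¹ := by
    rw [← h1]
    group
  have h4 : y * y = 1 := by
    nth_rw 1 [h3]
    group
  have h5 : y ^ 3 = 1 := by
    have := wE_pow hy
    rwa [hp] at this
  exact eq_one_of_sq h5 h4

/-- Order of `W_E` for a natural section over the field with three elements. -/
theorem card_wE_of_nat {T : Subgroup G} (hE : IsBaumannBlock p T E) (hF₀ : Finite F₀)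
    (n : NatSec F₀ E (OmE p E) (ZE p E))
    (hcen : ∀ y ∈ WE p E, y ∈ centralizer (E : Set G) → y = 1) :
    Nat.card (WE p E) = Nat.card (Fin 2 → F₀) := by
  apply Nat.card_eq_of_bijective (fun y : WE p E => n.ψ (y : G))
  constructor
  · rintro ⟨x, hx⟩ ⟨y, hy⟩ hxy
    have hx' := wE_le_omE E hx
    have hy' := wE_le_omE E hy
    have h0 : n.ψ (x * y⁻¹) = 0 := by
      have h1 := n.ψ_mul x hx' y⁻¹ (inv_mem hy')
      have h2 := n.ψ_mul y hy' y⁻¹ (inv_mem hy')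
      have h3 : n.ψ (y * y⁻¹) = 0 := (n.ψ_ker _ (mul_mem hy' (inv_mem hy'))).2
        (by rw [mul_inv_cancel]; exact one_mem _)
      have hxy' : n.ψ x = n.ψ y := hxy
      rw [h1, hxy', ← h2, h3]
    have h1 := (n.ψ_ker _ (mul_mem hx' (inv_mem hy'))).1 h0
    have h2 := hcen _ (mul_mem hx (inv_mem hy)) (mem_inf.1 h1).2
    exact Subtype.ext (mul_inv_eq_one.1 h2)
  · intro a
    obtain ⟨u, hu, rfl⟩ := n.ψ_surj a
    obtain ⟨v, hv, z, hz, rfl⟩ := exists_decomp hE hu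
    refine ⟨⟨v, hv⟩, ?_⟩
    show n.ψ v = n.ψ (v * z)
    rw [n.ψ_mul _ (wE_le_omE E hv) _ (zE_le_omE E hz), (n.ψ_ker _ (zE_le_omE E hz)).2 hz, add_zero]

end Inversion

/-! ### Blocks with `E / O_2(E)` of order three -/

section Three

variable {E : Subgroup G} {T : Subgroup G}

/-- Elements of `E` modulo `O_p(E)`. -/
theorem mem_core_iff {x : G} (hx : x ∈ E) :
    x ∈ pCoreOf p E ↔ ((⟨x, hx⟩ : E) : ↥E ⧸ pCore p ↥E) = 1 := by
  rw [QuotientGroup.eq_one_iff, mem_pCoreOf]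
  constructor
  · rintro ⟨_, h⟩
    exact h
  · intro h
    exact ⟨hx, h⟩

theorem pow_three_core (h : Three p E) {t : G} (ht : t ∈ E) : t ^ 3 ∈ pCoreOf p E := by
  rw [mem_core_iff (pow_mem ht 3)]
  have h1 : (((⟨t, ht⟩ : E) : ↥E ⧸ pCore p ↥E)) ^ (Nat.card (↥E ⧸ pCore p ↥E)) = 1 :=
    pow_card_eq_one'
  rw [h.2.1] at h1
  exact h1

theorem three_le_sup (h : Three p E) {x : G} (hx : x ∈ E) (hxQ : x ∉ pCoreOf p E) :
    E ≤ zpowers x ⊔ pCoreOf p E := by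
  intro e he
  haveI : Fact (Nat.Prime 3) := ⟨Nat.prime_three⟩
  have hne : ((⟨x, hx⟩ : E) : ↥E ⧸ pCore p ↥E) ≠ 1 := by
    intro h1
    exact hxQ ((mem_core_iff hx).2 h1)
  have hm : ((⟨e, he⟩ : E) : ↥E ⧸ pCore p ↥E) ∈ zpowers ((⟨x, hx⟩ : E) : ↥E ⧸ pCore p ↥E) :=
    mem_zpowers_of_prime_card h.2.1 hne
  obtain ⟨k, hk⟩ := hm
  have e1 : (((⟨x, hx⟩ : E) ^ k : E) : ↥E ⧸ pCore p ↥E) = ((⟨e, he⟩ : E) : ↥E ⧸ pCore p ↥E) := by
    rw [← hk]
    rfl
  rw [QuotientGroup.eq] at e1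
  obtain ⟨q, hq1, hq2⟩ : ∃ q ∈ pCoreOf p E, e = x ^ k * q := by
    refine ⟨((((⟨x, hx⟩ : E) ^ k)⁻¹ * ⟨e, he⟩ : E) : G), ⟨_, e1, rfl⟩, ?_⟩
    simp
  rw [hq2]
  exact mul_mem (mem_sup_left (zpow_mem (mem_zpowers x) k)) (mem_sup_right hq1)

theorem three_exists (hE : IsBaumannBlock p T E) (h : Three p E) : ∃ x ∈ E, x ∉ pCoreOf p E := by
  by_contra hcon
  push_neg at hcon
  have h1 : ∀ x : ↥E ⧸ pCore p ↥E, x = 1 := by
    intro x
    obtain ⟨y, rfl⟩ := QuotientGroup.mk_surjective x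
    exact (mem_core_iff y.2).1 (hcon (y : G) y.2)
  have h2 : Nat.card (↥E ⧸ pCore p ↥E) = 1 := by
    rw [Nat.card_eq_one_iff_unique]
    exact ⟨⟨fun a b => by rw [h1 a, h1 b]⟩, ⟨1⟩⟩
  rw [h.2.1] at h2
  omega

theorem three_wE (hE : IsBaumannBlock p T E) (h : Three p E) : WE p E = pCoreOf p E := by
  show ⁅OmE p E, E⁆ = pCoreOf p E
  rw [← h.2.2.1]
  exact hE.2.2.1

/-- The norm map vanishes. -/
theorem three_zE (hE : IsBaumannBlock p T E) (h : Three p E) : ZE p E = ⊥ := by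
  obtain ⟨x, hx, hxQ⟩ := three_exists hE h
  have hQO := h.2.2.1
  have hp2 : p = 2 := h.1
  have hab : ∀ a ∈ pCoreOf p E, ∀ b ∈ pCoreOf p E, a * b = b * a := by
    intro a ha b hb
    rw [hQO] at ha
    exact omE_comm E ha hb
  have hcon : ∀ q ∈ pCoreOf p E, ∀ g ∈ E, g * q * g⁻¹ ∈ pCoreOf p E := fun q hq g hg =>
    conj_mem_of_mem_normalizer (le_normalizer_pCoreOf E hg) hq
  let N : G → G := fun w => w * (x * w * x⁻¹) * (x ^ 2 * w * (x ^ 2)⁻¹)
  have hx2 := pow_mem hx 2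
  have hNmul : ∀ a ∈ pCoreOf p E, ∀ b ∈ pCoreOf p E, N (a * b) = N a * N b := by
    intro a ha b hb
    have h1 := hcon a ha x hx
    have h2 := hcon a ha _ hx2
    have h3 := hcon b hb x hx
    have c1 := hab _ h1 b hb
    have c2 := hab _ h2 b hb
    have c3 := hab _ h2 _ h3
    show (a * b) * (x * (a * b) * x⁻¹) * (x ^ 2 * (a * b) * (x ^ 2)⁻¹) =
      (a * (x * a * x⁻¹) * (x ^ 2 * a * (x ^ 2)⁻¹)) * (b * (x * b * x⁻¹) * (x ^ 2 * b * (x ^ 2)⁻¹))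
    calc (a * b) * (x * (a * b) * x⁻¹) * (x ^ 2 * (a * b) * (x ^ 2)⁻¹)
        = a * (b * (x * a * x⁻¹)) * (x * b * x⁻¹) * (x ^ 2 * a * (x ^ 2)⁻¹) * (x ^ 2 * b * (x ^ 2)⁻¹) := by
          group
      _ = a * (x * a * x⁻¹) * b * ((x * b * x⁻¹) * (x ^ 2 * a * (x ^ 2)⁻¹)) * (x ^ 2 * b * (x ^ 2)⁻¹) := by
          rw [← c1]; group
      _ = a * (x * a * x⁻¹) * (b * (x ^ 2 * a * (x ^ 2)⁻¹)) * (x * b * x⁻¹) * (x ^ 2 * b * (x ^ 2)⁻¹) := by
          rw [← c3]; group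
      _ = _ := by
          rw [← c2]; group
  have hNinv : ∀ a ∈ pCoreOf p E, N a⁻¹ = (N a)⁻¹ := by
    intro a ha
    have h1 := hNmul a ha a⁻¹ (inv_mem ha)
    have h0 : N 1 = 1 := by
      show 1 * (x * 1 * x⁻¹) * (x ^ 2 * 1 * (x ^ 2)⁻¹) = 1
      group
    rw [mul_inv_cancel, h0] at h1
    exact eq_inv_of_mul_eq_one_right h1.symm
  have hNx : ∀ a ∈ pCoreOf p E, N (x * a * x⁻¹) = N a := by
    intro a ha
    have hx3 : x ^ 3 ∈ pCoreOf p E := pow_three_core h hx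
    have h1 := hcon a ha x hx
    have h2 := hcon a ha _ hx2
    have h3 : x ^ 2 * (x * a * x⁻¹) * (x ^ 2)⁻¹ = a := by
      have e1 : x ^ 2 * (x * a * x⁻¹) * (x ^ 2)⁻¹ = x ^ 3 * a * (x ^ 3)⁻¹ := by
        simp only [pow_succ, pow_zero, one_mul]
        group
      rw [e1, hab _ hx3 a ha]
      group
    have h4 : x * (x * a * x⁻¹) * x⁻¹ = x ^ 2 * a * (x ^ 2)⁻¹ := by
      simp only [pow_succ, pow_zero, one_mul]
      group
    show (x * a * x⁻¹) * (x * (x * a * x⁻¹) * x⁻¹) * (x ^ 2 * (x * a * x⁻¹) * (x ^ 2)⁻¹) =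
      a * (x * a * x⁻¹) * (x ^ 2 * a * (x ^ 2)⁻¹)
    rw [h3, h4]
    calc (x * a * x⁻¹) * (x ^ 2 * a * (x ^ 2)⁻¹) * a
        = (x * a * x⁻¹) * ((x ^ 2 * a * (x ^ 2)⁻¹) * a) := by group
      _ = (x * a * x⁻¹) * (a * (x ^ 2 * a * (x ^ 2)⁻¹)) := by rw [hab _ h2 a ha]
      _ = ((x * a * x⁻¹) * a) * (x ^ 2 * a * (x ^ 2)⁻¹) := by group
      _ = (a * (x * a * x⁻¹)) * (x ^ 2 * a * (x ^ 2)⁻¹) := by rw [hab _ h1 a ha]
  have hNpow : ∀ (k : ℕ), ∀ a ∈ pCoreOf p E, N (x ^ k * a * (x ^ k)⁻¹) = N a := by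
    intro k
    induction k with
    | zero => intro a _; simp
    | succ k ih =>
      intro a ha
      have e1 : x ^ (k + 1) * a * (x ^ (k + 1))⁻¹ = x * (x ^ k * a * (x ^ k)⁻¹) * x⁻¹ := by
        rw [pow_succ']
        group
      rw [e1, hNx _ (hcon a ha _ (pow_mem hx k)), ih a ha]
  have hNe : ∀ a ∈ pCoreOf p E, ∀ e ∈ E, N (e * a * e⁻¹) = N a := by
    intro a ha e he
    have hsup := three_le_sup h hx hxQ he
    obtain ⟨y, hy, q, hq, rfl⟩ := mem_sup_of_le_normalizer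
      (fun g hg => by
        have hgE : g ∈ E := by
          obtain ⟨k, rfl⟩ := hg
          exact zpow_mem hx k
        exact le_normalizer_pCoreOf E hgE) hsup
    have hfin : IsOfFinOrder x := isOfFinOrder_of_finite x
    obtain ⟨k, rfl⟩ := hfin.mem_powers_iff_mem_zpowers.2 hy
    have e1 : (fun n => x ^ n) k * q * a * ((fun n => x ^ n) k * q)⁻¹ =
        x ^ k * (q * a * q⁻¹) * (x ^ k)⁻¹ := by
      simp only
      group
    rw [e1, hNpow k _ (hcon a ha q (pCoreOf_le E hq))]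
    rw [hab q hq a ha]
    congr 1
    group
  -- `N` is trivial on `Q`
  let K : Subgroup G :=
    { carrier := {a | a ∈ pCoreOf p E ∧ N a = 1}
      mul_mem' := by
        rintro a b ⟨ha, ha'⟩ ⟨hb, hb'⟩
        exact ⟨mul_mem ha hb, by rw [hNmul a ha b hb, ha', hb', one_mul]⟩
      one_mem' := ⟨one_mem _, by
        show 1 * (x * 1 * x⁻¹) * (x ^ 2 * 1 * (x ^ 2)⁻¹) = 1
        group⟩
      inv_mem' := by
        rintro a ⟨ha, ha'⟩
        exact ⟨inv_mem ha, by rw [hNinv a ha, ha', inv_one]⟩ }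
  have hQK : pCoreOf p E ≤ K := by
    conv_lhs => rw [← hE.2.2.1]
    rw [commutator_le]
    intro a ha e he
    have hc := hcon a⁻¹ (inv_mem ha) e he
    have e1 : ⁅a, e⁆ = a * (e * a⁻¹ * e⁻¹) := by
      rw [commutatorElement_def]
      group
    rw [e1]
    refine ⟨mul_mem ha hc, ?_⟩
    rw [hNmul a ha _ hc, hNe _ (inv_mem ha) e he, hNinv a ha, mul_inv_cancel]
  rw [eq_bot_iff]
  intro z hz
  have hzQ : z ∈ pCoreOf p E := omE_le_core E (zE_le_omE E hz)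
  have h1 := (hQK hzQ).2
  have hzx : x * z * x⁻¹ = z := zE_conj E hz hx
  have hzx2 : x ^ 2 * z * (x ^ 2)⁻¹ = z := zE_conj E hz hx2
  have h2 : N z = z * z * z := by
    show z * (x * z * x⁻¹) * (x ^ 2 * z * (x ^ 2)⁻¹) = _
    rw [hzx, hzx2]
  have h3 : z ^ 2 = 1 := by
    have := (mem_omegaOneCenter.1 (zE_le_omE E hz)).2.2
    rwa [hp2] at this
  rw [h2] at h1
  have h4 : z * z = 1 := by
    rw [← h3, pow_two]
  rw [h4, one_mul] at h1
  exact h1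

theorem three_card (hE : IsBaumannBlock p T E) (h : Three p E) : Nat.card (pCoreOf p E) = 4 := by
  have h1 := h.2.2.2
  rw [three_zE hE h, Subgroup.card_bot, mul_one] at h1
  rw [h.2.2.1]
  exact h1

theorem three_cen (hE : IsBaumannBlock p T E) (h : Three p E) {a : G} (ha : a ∈ WE p E)
    (hc : a ∈ centralizer (E : Set G)) : a = 1 := by
  have h1 : a ∈ ZE p E := mem_inf.2 ⟨wE_le_omE E ha, hc⟩
  rw [three_zE hE h] at h1
  exact h1

end Three

end Cfsg.Agent.Lib.BPair.Inv
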