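/-
Subnormal blocks commuting modulo `O_p(G)`.
-/
import Cfsg.Agent.Lib.BPair.Inv

set_option autoImplicit false
set_option linter.unusedSectionVars false
set_option linter.unusedVariables false

namespace Cfsg.Agent.Lib.BPair.Comm

open Subgroup Cfsg Matrix
open Cfsg.Agent.Lib.LocalEven.Util
open Cfsg.Agent.Lib.LocalEven.Baumann
open Cfsg.Agent.Lib.LocalEven.BaumannBlock
open Cfsg.Agent.Lib.LocalEven.SecIrr
open Cfsg.Agent.Lib.LocalStruct.PCoreOf
open Cfsg.Agent.Lib.FG85.BB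
open Cfsg.Agent.Lib.BPair.Basic
open Cfsg.Agent.Lib.BPair.Small
open Cfsg.Agent.Lib.BPair.Types
open Cfsg.Agent.Lib.BPair.Sec
open Cfsg.Agent.Lib.BPair.Inv
open Cfsg.Agent.Lib.Components.Basic
open Cfsg.Agent.Lib.PReduced.RelNorm (mem_normalizer_inf mem_normalizer_sup mem_normalizer_centralizer)
open scoped commutatorElement

universe u

variable {G : Type u} [Group G] [Finite G] {p : ℕ} [Fact p.Prime]

theorem conj_order (f e : G) : orderOf (f * e * f⁻¹) = orderOf e := by
  have := orderOf_injective (MulAut.conj f).toMonoidHom (MulAut.conj f).injective e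
  simpa using this

/-- A subgroup commuting with a block modulo `O_p(G)` normalizes it. -/
theorem le_normalizer_of_commP {T : Sylow p G} {E F : Subgroup G}
    (hE : IsBaumannBlock p (T : Subgroup G) E)
    (h : ∀ f ∈ F, ∀ e ∈ E, f * e * f⁻¹ * e⁻¹ ∈ pCore p G) : F ≤ normalizer (E : Set G) := by
  intro f hf
  apply mem_normalizer_of_conj_le
  intro e he
  have he' : e ∈ closure {g : G | g ∈ E ∧ (orderOf g).Coprime p} := by
    rw [block_gen hE]; exact he
  clear he
  induction he' using closure_induction with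
  | mem e he =>
    apply mem_of_coprime_of_mem_sup (p := p) (K := E) (B := pCore p G)
      Cfsg.Agent.Lib.Core.Basic.pCore_isPGroup (pCore_le_normalizer_block hE)
    · have e1 : f * e * f⁻¹ = (f * e * f⁻¹ * e⁻¹) * e := by group
      rw [e1]
      exact mul_mem (mem_sup_right (h f hf e he.1)) (mem_sup_left he.1)
    · rw [conj_order]
      exact he.2
  | one => simp
  | mul x y _ _ hx hy =>
    have : f * (x * y) * f⁻¹ = (f * x * f⁻¹) * (f * y * f⁻¹) := by group
    rw [this]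
    exact mul_mem hx hy
  | inv x _ hx =>
    have : f * x⁻¹ * f⁻¹ = (f * x * f⁻¹)⁻¹ := by group
    rw [this]
    exact inv_mem hx

/-- The situation of two subnormal blocks commuting modulo `O_p(G)`. -/
structure Pr (p : ℕ) [Fact p.Prime] (T T' : Sylow p G) (E F : Subgroup G) : Prop where
  hG : centralizer (pCore p G : Set G) ≤ pCore p G
  hE : IsBaumannBlock p (T : Subgroup G) E
  hF : IsBaumannBlock p (T' : Subgroup G) F
  hEs : E.IsSubnormal
  hFs : F.IsSubnormal
  hc : ∀ e ∈ E, ∀ f ∈ F, e * f * e⁻¹ * f⁻¹ ∈ pCore p G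

namespace Pr

variable {T T' : Sylow p G} {E F : Subgroup G} (X : Pr p T T' E F)

include X

theorem symm : Pr p T' T F E :=
  ⟨X.hG, X.hF, X.hE, X.hFs, X.hEs, fun f hf e he => by
    have := inv_mem (X.hc e he f hf)
    have e1 : (e * f * e⁻¹ * f⁻¹)⁻¹ = f * e * f⁻¹ * e⁻¹ := by group
    rwa [e1] at this⟩

theorem FE : F ≤ normalizer (E : Set G) :=
  le_normalizer_of_commP X.hE X.symm.hc

theorem EF : E ≤ normalizer (F : Set G) := X.symm.FE

/-- `[e, f] ∈ O_p(E)`. -/
theorem comm {e f : G} (he : e ∈ E) (hf : f ∈ F) : e * f * e⁻¹ * f⁻¹ ∈ pCoreOf p E := by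
  apply mem_core_of
  · have h1 : f * e⁻¹ * f⁻¹ ∈ E := conj_mem_of_mem_normalizer (X.FE hf) (inv_mem he)
    have e1 : e * f * e⁻¹ * f⁻¹ = e * (f * e⁻¹ * f⁻¹) := by group
    rw [e1]
    exact mul_mem he h1
  · exact X.hc e he f hf

theorem comm' {e f : G} (he : e ∈ E) (hf : f ∈ F) : f * e * f⁻¹ * e⁻¹ ∈ pCoreOf p E := by
  have := inv_mem (X.comm he hf)
  have e1 : (e * f * e⁻¹ * f⁻¹)⁻¹ = f * e * f⁻¹ * e⁻¹ := by group
  rwa [e1] at this

theorem coreE_le : pCoreOf p E ≤ pCore p G := core_le X.hEs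

theorem FQ : F ≤ normalizer (pCoreOf p E : Set G) := X.FE.trans (normalizer_le_normalizer_pCoreOf E)
theorem FO : F ≤ normalizer (OmE p E : Set G) := X.FE.trans (normalizer_le_omE E)
theorem FZ : F ≤ normalizer (ZE p E : Set G) := X.FE.trans (normalizer_le_zE E)
theorem FW : F ≤ normalizer (WE p E : Set G) := X.FE.trans (normalizer_le_wE E)

theorem not_om : ¬ OmE p E ≤ ZE p E := fun h =>
  block_not_central X.hE (h.trans inf_le_right)

theorem OZ : OmE p E ≤ normalizer (ZE p E : Set G) := fun x hx =>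
  le_normalizer_zE E (pCoreOf_le E (omE_le_core E hx))

/-- `[W_E, F] ≤ W_F`. -/
theorem comm_le_wF : ⁅WE p E, F⁆ ≤ WE p F :=
  (commutator_mono (wE_le_vV₀ X.hG X.hE) le_rfl).trans (comm_vV₀_le X.hF X.hFs)

theorem core_comm {q u : G} (hq : q ∈ pCoreOf p E) (hu : u ∈ OmE p E) : q * u * q⁻¹ * u⁻¹ = 1 := by
  rw [← omE_comm E hu hq]
  group

end Pr

/-- An invariant subgroup of `Ω₁ Z(O_p(E))`, not central in `E`, contains `W_E`. -/
theorem wE_le_of_inv {T : Subgroup G} {E A : Subgroup G} (hE : IsBaumannBlock p T E)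
    (hA : A ≤ OmE p E) (hEA : E ≤ normalizer (A : Set G)) (hne : ¬ A ≤ ZE p E) : WE p E ≤ A := by
  obtain ⟨u, hu, huZ⟩ := SetLike.not_le_iff_exists.1 hne
  have h1 : OmE p E ≤ A ⊔ ZE p E :=
    block_secIrr hE _ le_sup_right (sup_le hA inf_le_left)
      (fun x hx => mem_normalizer_sup (hEA hx) (le_normalizer_zE E hx))
      ⟨u, mem_sup_left hu, huZ⟩
  have hAZ : A ≤ normalizer (ZE p E : Set G) := fun x hx =>
    le_normalizer_zE E (pCoreOf_le E (omE_le_core E (hA hx)))
  rw [commutator_le]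
  intro w hw e he
  obtain ⟨a, ha, z, hz, rfl⟩ := mem_sup_of_le_normalizer hAZ (h1 hw)
  have hc : z * e = e * z := zE_comm E hz he
  have e1 : ⁅a * z, e⁆ = a * (e * a⁻¹ * e⁻¹) := by
    rw [commutatorElement_def]
    calc a * z * e * (a * z)⁻¹ * e⁻¹ = a * (z * e) * z⁻¹ * a⁻¹ * e⁻¹ := by group
      _ = a * (e * z) * z⁻¹ * a⁻¹ * e⁻¹ := by rw [hc]
      _ = _ := by group
  rw [e1]
  exact mul_mem ha (conj_mem_of_mem_normalizer (hEA he) (inv_mem ha))

namespace Pr

variable {T T' : Sylow p G} {E F : Subgroup G} (X : Pr p T T' E F)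

include X

/-- If `[W_E, F]` is not central in `E` then `W_E = W_F`. -/
theorem wE_eq (h : ¬ ⁅WE p E, F⁆ ≤ ZE p E) : WE p E = WE p F := by
  have hYW : ⁅WE p E, F⁆ ≤ WE p E :=
    Cfsg.Agent.Lib.QuadAct.Basic.commutator_le_of_le_normalizer X.FW
  have hbot : ∀ g : G, g ∈ normalizer ((⊥ : Subgroup G) : Set G) := fun g => by
    rw [normalizer_eq_top_iff.2 (inferInstance : (⊥ : Subgroup G).Normal)]
    trivial
  have hEY : E ≤ normalizer ((⁅WE p E, F⁆ : Subgroup G) : Set G) := by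
    have := le_normalizer_comm_sup (E := E) (A := F) (U := WE p E) (U₀ := ⊥) (Q' := pCoreOf p E)
      (le_normalizer_wE E) (fun x _ => hbot x) X.FW (fun e he f hf => X.comm he hf)
      (fun q hq u hu => by
        rw [X.core_comm hq (wE_le_omE E hu)]
        exact one_mem _)
    rwa [sup_bot_eq] at this
  have h1 : WE p E ≤ ⁅WE p E, F⁆ :=
    wE_le_of_inv X.hE (hYW.trans (wE_le_omE E)) hEY h
  have h2 : WE p E ≤ WE p F := h1.trans X.comm_le_wF
  apply le_antisymm h2
  refine wE_le_of_inv X.hF (h2.trans (wE_le_omE F)) X.FW ?_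
  intro h3
  apply wE_ne_bot X.hE
  rw [eq_bot_iff]
  refine h1.trans ?_
  have : ⁅WE p E, F⁆ = ⊥ := by
    rw [commutator_eq_bot_iff_le_centralizer]
    exact h3.trans inf_le_right
  rw [this]

/-- If `[W_E, F]` is central in `E` it is trivial. -/
theorem comm_bot (h : ⁅WE p E, F⁆ ≤ ZE p E) : ⁅WE p E, F⁆ = ⊥ := by
  have h1 : ⁅⁅E, F⁆, WE p E⁆ = ⊥ := by
    rw [commutator_eq_bot_iff_le_centralizer, commutator_le]
    intro e he f hf
    rw [mem_centralizer_iff]
    intro w hw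
    exact omE_comm E (wE_le_omE E hw) (X.comm he hf)
  have h2 : ⁅⁅F, WE p E⁆, E⁆ = ⊥ := by
    rw [commutator_eq_bot_iff_le_centralizer, commutator_comm]
    exact h.trans inf_le_right
  have h3 := commutator_commutator_eq_bot_of_rotate h1 h2
  rwa [wE_idem X.hE] at h3

/-- The basic dichotomy. -/
theorem dich : WE p E = WE p F ∨ (⁅WE p E, F⁆ = ⊥ ∧ ⁅WE p F, E⁆ = ⊥) := by
  by_cases h1 : ⁅WE p E, F⁆ ≤ ZE p E
  · by_cases h2 : ⁅WE p F, E⁆ ≤ ZE p F
    · exact Or.inr ⟨X.comm_bot h1, X.symm.comm_bot h2⟩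
    · exact Or.inl (X.symm.wE_eq h2).symm
  · exact Or.inl (X.wE_eq h1)

/-- If the `p'`-elements of `F` fix `O_p(E)` pointwise, `F` commutes with `E`. -/
theorem comm_bot_of_fix (hfix : ∀ f ∈ F, (orderOf f).Coprime p → ∀ q ∈ pCoreOf p E, f * q * f⁻¹ = q) :
    ⁅E, F⁆ = ⊥ := by
  rw [commutator_comm, commutator_eq_bot_iff_le_centralizer]
  conv_lhs => rw [← block_gen X.hF]
  rw [closure_le]
  rintro f ⟨hf, hco⟩
  rw [SetLike.mem_coe, mem_centralizer_iff]
  intro e he
  have hbot : ∀ g : G, g ∈ normalizer ((⊥ : Subgroup G) : Set G) := fun g => by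
    rw [normalizer_eq_top_iff.2 (inferInstance : (⊥ : Subgroup G).Normal)]
    trivial
  have hx := X.comm' he hf
  have h0 : f * e * f⁻¹ * e⁻¹ ∈ (⊥ : Subgroup G) := by
    apply mem_of_coprime_comm hco (hbot _) (hbot _)
    · obtain ⟨k, hk⟩ := (isPGroup_pCoreOf (p := p) E) ⟨_, hx⟩
      exact ⟨k, by simpa using congrArg Subtype.val hk⟩
    · rw [hfix f hf hco _ hx]
      simp
  rw [mem_bot] at h0
  have h1 : f * e * f⁻¹ = e := mul_inv_eq_one.1 h0
  calc e * f = (f * e * f⁻¹) * f := by rw [h1]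
    _ = f * e := by group

/-- `E` with `O_p(E)` abelian. -/
theorem of_gen (hq : pCoreOf p E = OmE p E) (hb : ⁅WE p E, F⁆ = ⊥) : ⁅E, F⁆ = ⊥ := by
  apply X.comm_bot_of_fix
  intro f hf _ q hq'
  have hW : WE p E = pCoreOf p E := by
    show ⁅OmE p E, E⁆ = pCoreOf p E
    rw [← hq]
    exact X.hE.2.2.1
  rw [← hW] at hq'
  have h1 : ⁅q, f⁆ ∈ (⁅WE p E, F⁆ : Subgroup G) := commutator_mem_commutator hq' hf
  rw [hb, mem_bot, commutatorElement_eq_one_iff_commute] at h1
  rw [← h1.eq]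
  group

/-- Central-by-abelian action: `F` fixes `Z_E = [Q, Q]` when `[Q, F] ≤ Ω`. -/
theorem of_ex_fix {F₁ : Type} [Field F₁] [Fintype F₁] (n : ExD p F₁ (T : Subgroup G) E)
    (hb : ⁅WE p E, F⁆ = ⊥) (hY : ⁅pCoreOf p E, F⁆ ≤ OmE p E) : ⁅E, F⁆ = ⊥ := by
  apply X.comm_bot_of_fix
  intro f hf hco
  have hfa : ∀ a ∈ pCoreOf p E, f * a * f⁻¹ * a⁻¹ ∈ OmE p E := by
    intro a ha
    have h1 : ⁅a, f⁆ ∈ OmE p E := hY (commutator_mem_commutator ha hf)
    have e1 : f * a * f⁻¹ * a⁻¹ = ⁅a, f⁆⁻¹ := by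
      rw [commutatorElement_def]
      group
    rw [e1]
    exact inv_mem h1
  have hfW : ∀ w ∈ WE p E, f * w * f⁻¹ = w := by
    intro w hw
    have h1 : ⁅w, f⁆ ∈ (⁅WE p E, F⁆ : Subgroup G) := commutator_mem_commutator hw hf
    rw [hb, mem_bot, commutatorElement_eq_one_iff_commute] at h1
    rw [← h1.eq]
    group
  have hfZ : ∀ z ∈ ZE p E, f * z * f⁻¹ = z := by
    intro z hz
    have hz' : z ∈ (⁅pCoreOf p E, pCoreOf p E⁆ : Subgroup G) := by
      rw [n.hQQ]
      exact hz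
    have hle : ⁅pCoreOf p E, pCoreOf p E⁆ ≤ centralizer ({f} : Set G) := by
      rw [commutator_le]
      intro a ha b hb'
      rw [mem_centralizer_singleton_iff]
      set v := f * a * f⁻¹ * a⁻¹ with hv
      set v' := f * b * f⁻¹ * b⁻¹ with hv'
      have hvO : v ∈ OmE p E := hfa a ha
      have hv'O : v' ∈ OmE p E := hfa b hb'
      have e1 : f * a * f⁻¹ = v * a := by rw [hv]; group
      have e2 : f * b * f⁻¹ = v' * b := by rw [hv']; group
      have e3 : f * ⁅a, b⁆ * f⁻¹ = (v * a) * (v' * b) * (v * a)⁻¹ * (v' * b)⁻¹ := by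
        rw [← e1, ← e2, commutatorElement_def]
        group
      have e4 := comm_mul_central (omE_comm E hvO ha) (omE_comm E hvO hb')
        (omE_comm E hvO (omE_le_core E hv'O)) (omE_comm E hv'O ha) (omE_comm E hv'O hb')
      rw [e4] at e3
      have e5 : ⁅a, b⁆ * f = f * ⁅a, b⁆ := by
        have e6 : ⁅a, b⁆ = a * b * a⁻¹ * b⁻¹ := rfl
        rw [← e6] at e3
        calc ⁅a, b⁆ * f = (f * ⁅a, b⁆ * f⁻¹) * f := by rw [e3]
          _ = f * ⁅a, b⁆ := by group
      exact e5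
    have := mem_centralizer_singleton_iff.1 (hle hz')
    rw [← this]
    group
  have hfO : ∀ w ∈ OmE p E, f * w * f⁻¹ = w := by
    intro w hw
    obtain ⟨v, hv, z, hz, rfl⟩ := exists_decomp X.hE hw
    have e1 : f * (v * z) * f⁻¹ = (f * v * f⁻¹) * (f * z * f⁻¹) := by group
    rw [e1, hfW v hv, hfZ z hz]
  exact fixes_of_secTriv (isPGroup_omE E) hco ⟨X.FQ hf, X.FO hf, hfa⟩ hfO


/-- A group acting trivially on `Ω/Z` when `F` is quasisimple modulo its core. -/
theorem quasi_triv (hq : Quasi p F) : ∀ f ∈ F, ∀ u ∈ OmE p E, f * u * f⁻¹ * u⁻¹ ∈ ZE p E := by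
  have hle : F ≤ secTriv (OmE p E) (ZE p E) := by
    apply le_of_quasi hq
    · intro f hf
      apply mem_normalizer_of_conj_le
      intro y hy
      exact conj_mem_secTriv (X.FO hf) (X.FZ hf) hy
    · intro f hf hfp
      exact ⟨X.FO hf, X.FZ hf, sec_p_trivial (block_secIrr X.hE) (isPGroup_omE E) (zE_le_omE E)
        X.OZ (le_normalizer_omE E) (le_normalizer_zE E) X.FO X.FZ
        (fun e he a ha => X.comm he ha)
        (fun q hq u hu => by rw [X.core_comm hq hu]; exact one_mem _) X.not_om hf hfp⟩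
  exact fun f hf => (hle hf).2.2

theorem not_quasi (hW : WE p E = WE p F) (hq : Quasi p F) : False := by
  have h1 : ⁅WE p E, F⁆ ≤ ZE p E := by
    rw [commutator_le]
    intro w hw f hf
    have h2 := X.quasi_triv hq f hf w (wE_le_omE E hw)
    have e : ⁅w, f⁆ = (f * w * f⁻¹ * w⁻¹)⁻¹ := by
      rw [commutatorElement_def]
      group
    rw [e]
    exact inv_mem h2
  have h2 := X.comm_bot h1
  rw [hW, wE_idem X.hF] at h2
  exact wE_ne_bot X.hF h2

end Pr

theorem ker_om {F₁ : Type} [Field F₁] [Finite F₁] {E : Subgroup G}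
    (n : NatSec F₁ E (OmE p E) (ZE p E)) (hiso : Nonempty (↥E ⧸ pCore p ↥E ≃* ↥(SS F₁))) :
    ∀ e ∈ E, n.ρ e = 1 ↔ e ∈ pCoreOf p E :=
  n.ker_iff (pCoreOf_le E) (card_block hiso) (fun a ha u hu => by
    rw [← omE_comm E hu ha]
    have : u * a * a⁻¹ * u⁻¹ = 1 := by group
    rw [this]
    exact one_mem _) (zE_le_omE E)

theorem pow_mem_of_comm {P : Subgroup G} [hP : P.Normal] {u v : G} (hc : u * v * u⁻¹ * v⁻¹ ∈ P) {n : ℕ}
    (hu : u ^ n ∈ P) (hv : v ^ n ∈ P) : (u * v) ^ n ∈ P := by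
  have h1 : Commute ((u : G ⧸ P)) (v : G ⧸ P) := by
    show ((u * v : G) : G ⧸ P) = ((v * u : G) : G ⧸ P)
    rw [QuotientGroup.eq]
    have e : (u * v)⁻¹ * (v * u) = v⁻¹ * u⁻¹ * v * u := by group
    rw [e]
    have h3 : (u * v * u⁻¹ * v⁻¹)⁻¹ ∈ P := inv_mem hc
    have h4 := hP.conj_mem _ h3 (v⁻¹ * u⁻¹)
    have e3 : v⁻¹ * u⁻¹ * (u * v * u⁻¹ * v⁻¹)⁻¹ * (v⁻¹ * u⁻¹)⁻¹ = v⁻¹ * u⁻¹ * v * u := by
      group
    rwa [e3] at h4
  have h2 : (((u * v) ^ n : G) : G ⧸ P) = 1 := by
    show ((u : G ⧸ P) * (v : G ⧸ P)) ^ n = 1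
    rw [h1.mul_pow]
    have h3 : ((u : G ⧸ P)) ^ n = 1 := (QuotientGroup.eq_one_iff (u ^ n)).2 hu
    have h4 : ((v : G ⧸ P)) ^ n = 1 := (QuotientGroup.eq_one_iff (v ^ n)).2 hv
    rw [h3, h4, one_mul]
  exact (QuotientGroup.eq_one_iff _).1 h2

/-- Distinct elements of a set with four elements. -/
theorem four_elts {A : Type*} [Finite A] (h : Nat.card A = 4) {e a b c d : A}
    (h1 : e ≠ a) (h2 : e ≠ b) (h3 : e ≠ c) (h4 : a ≠ b) (h5 : a ≠ c) (h6 : b ≠ c) :
    d = e ∨ d = a ∨ d = b ∨ d = c := by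
  classical
  haveI := Fintype.ofFinite A
  by_contra hcon
  push Not at hcon
  obtain ⟨h7, h8, h9, h10⟩ := hcon
  have hc : ({e, a, b, c, d} : Finset A).card = 5 := by
    rw [Finset.card_insert_of_notMem, Finset.card_insert_of_notMem, Finset.card_insert_of_notMem,
      Finset.card_insert_of_notMem, Finset.card_singleton]
    · simp [h10.symm]
    · simp [h6, h9.symm]
    · simp [h4, h5, h8.symm]
    · simp [h1, h2, h3, h7.symm]
  have := Finset.card_le_univ ({e, a, b, c, d} : Finset A)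
  rw [hc, ← Nat.card_eq_fintype_card, h] at this
  omega

theorem two_zero {F₀ : Type} [Field F₀] (h3 : (3 : F₀) = 0) {v : Fin 2 → F₀} (h : v + v = 0) : v = 0 := by
  funext i
  have h1 := congrFun h i
  simp only [Pi.add_apply, Pi.zero_apply] at h1
  have h2 : (2 : F₀) * v i = 0 := by
    rw [two_mul]
    exact h1
  exact (mul_eq_zero.1 h2).resolve_left (two_ne_zero' h3)

/-- In a block of order-three type, elements fixing a nontrivial element of the core lie in the core. -/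
theorem three_fpf {T : Subgroup G} {E : Subgroup G} (hE : IsBaumannBlock p T E) (h : Three p E)
    {x a : G} (hx : x ∈ E) (hxQ : x ∉ pCoreOf p E) (ha : a ∈ pCoreOf p E) (hfix : x * a * x⁻¹ = a) :
    a = 1 := by
  have hQO := h.2.2.1
  have hle : E ≤ centralizer ({a} : Set G) := by
    refine (three_le_sup h hx hxQ).trans (sup_le ?_ ?_)
    · rw [zpowers_le, mem_centralizer_singleton_iff]
      calc x * a = (x * a * x⁻¹) * x := by group
        _ = a * x := by rw [hfix]
    · intro q hq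
      rw [mem_centralizer_singleton_iff]
      have ha' := ha
      rw [hQO] at ha'
      exact (omE_comm E ha' hq).symm
  have hz : a ∈ ZE p E := by
    refine mem_inf.2 ⟨hQO ▸ ha, ?_⟩
    rw [mem_centralizer_iff]
    intro e he
    exact mem_centralizer_singleton_iff.1 (hle he)
  rw [three_zE hE h] at hz
  exact hz

namespace Pr

variable {T T' : Sylow p G} {E F : Subgroup G} (X : Pr p T T' E F)

include X

/-- Two quaternion blocks with the same `W`. -/
theorem qb_false {F₁ F₂ : Type} [Field F₁] [Fintype F₁] [Field F₂] [Fintype F₂]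
    (qE : QB p F₁ (T : Subgroup G) E) (qF : QB p F₂ (T' : Subgroup G) F) (hW : WE p E = WE p F) :
    False := by
  have hp := qE.hp
  have h3₁ := char3 qE.hF
  have h3₂ := char3 qF.hF
  have hker₁ := ker_om qE.n₁ qE.hiso
  have hker₂ := ker_om qF.n₁ qF.hiso
  obtain ⟨i₁, hi₁, j₁, hj₁, hz⟩ := exists_neg h3₁ qE.n₁
  obtain ⟨i₂, hi₂, j₂, hj₂, hf⟩ := exists_neg h3₂ qF.n₁
  have hzE : i₁ * j₁ * i₁⁻¹ * j₁⁻¹ ∈ E :=
    mul_mem (mul_mem (mul_mem hi₁ hj₁) (inv_mem hi₁)) (inv_mem hj₁)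
  have hfF : i₂ * j₂ * i₂⁻¹ * j₂⁻¹ ∈ F :=
    mul_mem (mul_mem (mul_mem hi₂ hj₂) (inv_mem hi₂)) (inv_mem hj₂)
  have hs := scalar_comm' h3₁ (small3 qE.hF) qE.n₁ X.FO X.FZ (le_normalizer_omE E)
    (le_normalizer_zE E) (fun e he f hf => X.comm he hf)
    (fun q hq u hu => by rw [X.core_comm hq hu]; exact one_mem _) hi₂ hj₂
  apply wE_ne_bot X.hE
  rw [eq_bot_iff]
  intro w hw
  have hwF : w ∈ WE p F := hW ▸ hw
  have h1 := inv_wE qF.n₁ hker₂ hfF hwF hf
  have h2 := hs w (wE_le_omE E hw)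
  rw [h1] at h2
  have h3 : w⁻¹ * w⁻¹ = 1 := wE_cen_of_neg hp qE.n₁ hker₁ hzE hz
    (mul_mem (inv_mem hw) (inv_mem hw)) (mem_inf.1 h2).2
  have h4 : w * w = 1 := by
    have : (w⁻¹ * w⁻¹)⁻¹ = w * w := by rw [_root_.mul_inv_rev, inv_inv]
    rw [← this, h3, inv_one]
  have h5 : w ^ 3 = 1 := by
    have := wE_pow hw
    rwa [hp] at this
  exact mem_bot.2 (eq_one_of_sq h5 h4)

/-- Two blocks of order-three type with the same `W` coincide. -/
theorem three_eq (tE : Three p E) (tF : Three p F) (hW : WE p E = WE p F) : E = F := by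
  have hp2 : p = 2 := tE.1
  have hAE := three_wE X.hE tE
  have hAF := three_wE X.hF tF
  have hQQ : pCoreOf p E = pCoreOf p F := by rw [← hAE, ← hAF, hW]
  have hcard := three_card X.hE tE
  have hQP : pCoreOf p E ≤ pCore p G := core_le X.hEs
  -- a nontrivial element
  obtain ⟨a, haA, ha1⟩ : ∃ a ∈ pCoreOf p E, a ≠ 1 := by
    by_contra hcon
    push Not at hcon
    have : pCoreOf p E = ⊥ := eq_bot_iff.2 (fun x hx => mem_bot.2 (hcon x hx))
    rw [this, Subgroup.card_bot] at hcard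
    omega
  obtain ⟨x, hx, hxA⟩ := three_exists X.hE tE
  obtain ⟨y, hy, hyA⟩ := three_exists X.hF tF
  have hyA' : y ∉ pCoreOf p E := by rwa [hQQ]
  have hx3 := pow_three_core tE hx
  have hy3 := pow_three_core tF hy
  have hx2E : x ^ 2 ∈ E := pow_mem hx 2
  have hx2A : x ^ 2 ∉ pCoreOf p E := by
    intro h
    apply hxA
    have e : x = x ^ 3 * (x ^ 2)⁻¹ := by
      simp only [pow_succ, pow_zero, one_mul]
      group
    rw [e]
    exact mul_mem hx3 (inv_mem h)
  have hcon : ∀ q ∈ pCoreOf p E, ∀ g ∈ E, g * q * g⁻¹ ∈ pCoreOf p E := fun q hq g hg =>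
    conj_mem_of_mem_normalizer (le_normalizer_pCoreOf E hg) hq
  have hconF : ∀ q ∈ pCoreOf p E, ∀ g ∈ F, g * q * g⁻¹ ∈ pCoreOf p E := fun q hq g hg => by
    rw [hQQ] at hq ⊢
    exact conj_mem_of_mem_normalizer (le_normalizer_pCoreOf F hg) hq
  -- the orbit of `a`
  have hb : ∃ x' ∈ E, x' ∉ pCoreOf p E ∧ y * a * y⁻¹ = x' * a * x'⁻¹ := by
    have hb1 : y * a * y⁻¹ ≠ 1 := by
      intro h
      apply ha1
      have e : a = y⁻¹ * (y * a * y⁻¹) * y := by group
      rw [e, h]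
      group
    have hb2 : y * a * y⁻¹ ≠ a := by
      intro h
      exact ha1 (three_fpf X.hF tF hy hyA (hQQ ▸ haA) h)
    set a₂ := x * a * x⁻¹ with ha₂
    set a₃ := x ^ 2 * a * (x ^ 2)⁻¹ with ha₃
    have ha₂A := hcon a haA x hx
    have ha₃A := hcon a haA _ hx2E
    have ne1 : (1 : G) ≠ a := ha1.symm
    have ne2 : (1 : G) ≠ a₂ := by
      intro h
      apply ha1
      have e : a = x⁻¹ * a₂ * x := by rw [ha₂]; group
      rw [e, ← h]
      group
    have ne3 : (1 : G) ≠ a₃ := by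
      intro h
      apply ha1
      have e : a = (x ^ 2)⁻¹ * a₃ * x ^ 2 := by rw [ha₃]; group
      rw [e, ← h]
      group
    have ne4 : a ≠ a₂ := fun h => ha1 (three_fpf X.hE tE hx hxA haA h.symm)
    have ne5 : a ≠ a₃ := fun h => ha1 (three_fpf X.hE tE hx2E hx2A haA h.symm)
    have ne6 : a₂ ≠ a₃ := by
      intro h
      have h7 : x * a₂ * x⁻¹ = a₂ := by
        have e : x * a₂ * x⁻¹ = a₃ := by
          rw [ha₂, ha₃]
          simp only [pow_succ, pow_zero, one_mul]
          group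
        rw [e, ← h]
      have h8 := three_fpf X.hE tE hx hxA ha₂A h7
      exact ne2 h8.symm
    have hfour := four_elts (A := ↥(pCoreOf p E)) hcard
      (e := 1) (a := ⟨a, haA⟩) (b := ⟨a₂, ha₂A⟩) (c := ⟨a₃, ha₃A⟩)
      (d := ⟨y * a * y⁻¹, hconF a haA y hy⟩)
      (fun h => ne1 (congrArg Subtype.val h)) (fun h => ne2 (congrArg Subtype.val h))
      (fun h => ne3 (congrArg Subtype.val h)) (fun h => ne4 (congrArg Subtype.val h))
      (fun h => ne5 (congrArg Subtype.val h)) (fun h => ne6 (congrArg Subtype.val h))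
    rcases hfour with h | h | h | h
    · exact (hb1 (congrArg Subtype.val h)).elim
    · exact (hb2 (congrArg Subtype.val h)).elim
    · exact ⟨x, hx, hxA, congrArg Subtype.val h⟩
    · exact ⟨x ^ 2, hx2E, hx2A, congrArg Subtype.val h⟩
  obtain ⟨x', hx', hx'A, hxy⟩ := hb
  set c := y⁻¹ * x' with hc
  have hca : c * a * c⁻¹ = a := by
    rw [hc]
    calc (y⁻¹ * x') * a * (y⁻¹ * x')⁻¹ = y⁻¹ * (x' * a * x'⁻¹) * y := by group
      _ = y⁻¹ * (y * a * y⁻¹) * y := by rw [hxy]
      _ = a := by group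
  -- `c³ ∈ O_p(G)`
  have hc3 : c ^ (3 ^ 1) ∈ pCore p G := by
    rw [pow_one]
    haveI : (pCore p G).Normal := pCore_normal p G
    apply pow_mem_of_comm
    · have h1 := X.hc x' hx' y⁻¹ (inv_mem hy)
      have h2 := inv_mem h1
      have e : (x' * y⁻¹ * x'⁻¹ * y⁻¹⁻¹)⁻¹ = y⁻¹ * x' * y⁻¹⁻¹ * x'⁻¹ := by group
      rwa [e] at h2
    · rw [inv_pow]
      exact inv_mem (core_le X.hFs hy3)
    · exact hQP (pow_three_core tE hx')
  -- the chain
  have hEsec : E ≤ secTriv (pCore p G) (pCoreOf p E) := fun e he =>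
    ⟨mem_normalizer_pCore e, le_normalizer_pCoreOf E he, fun u hu => comm_core X.hE hu he⟩
  have hFsec : F ≤ secTriv (pCore p G) (pCoreOf p E) := fun f hf => by
    rw [hQQ]
    exact ⟨mem_normalizer_pCore f, le_normalizer_pCoreOf F hf, fun u hu => comm_core X.hF hu hf⟩
  have hcen : ∀ u ∈ secTriv (pCore p G) (pCoreOf p E) ⊓ centralizer ({a} : Set G),
      (orderOf u).Coprime p → ∀ v ∈ pCore p G, u * v * u⁻¹ = v := by
    intro u hu hco
    obtain ⟨hu1, hu2⟩ := mem_inf.1 hu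
    have hfixa : u * a * u⁻¹ = a := by
      have := mem_centralizer_singleton_iff.1 hu2
      rw [this]
      group
    have hDA : zpowers a ≤ pCoreOf p E := by
      rw [zpowers_le]
      exact haA
    have hAab : ∀ r ∈ pCoreOf p E, ∀ s ∈ pCoreOf p E, r * s = s * r := by
      intro r hr s hs
      rw [tE.2.2.1] at hr
      exact omE_comm E hr hs
    have hfixD : ∀ b ∈ zpowers a, u * b * u⁻¹ = b := by
      rintro _ ⟨k, rfl⟩
      have hu3 : Commute u a := mem_centralizer_singleton_iff.1 hu2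
      have := (hu3.zpow_right k).eq
      show u * a ^ k * u⁻¹ = a ^ k
      rw [this]
      group
    have hnD : u ∈ normalizer (zpowers a : Set G) := by
      apply mem_normalizer_of_conj_le
      intro b hb
      rw [hfixD b hb]
      exact hb
    have hora : orderOf a = 2 := by
      have h2 : a ^ 2 = 1 := by
        have h3 := (mem_omegaOneCenter.1 (tE.2.2.1 ▸ haA)).2.2
        rwa [hp2] at h3
      exact orderOf_eq_prime h2 ha1
    have hindex : ((zpowers a).subgroupOf (pCoreOf p E)).index = 2 := by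
      have h1 := Subgroup.card_mul_index ((zpowers a).subgroupOf (pCoreOf p E))
      have h2 : Nat.card ((zpowers a).subgroupOf (pCoreOf p E)) = Nat.card (zpowers a) :=
        Nat.card_congr (subgroupOfEquivOfLe hDA).toEquiv
      rw [h2, Nat.card_zpowers, hora, hcard] at h1
      omega
    have hsec2 : u ∈ secTriv (pCoreOf p E) (zpowers a) := by
      refine ⟨hu1.2.1, hnD, fun w hw => ?_⟩
      have hw' := conj_mem_of_mem_normalizer hu1.2.1 hw
      have h1 := (Subgroup.mul_mem_iff_of_index_two hindex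
        (a := ⟨u * w * u⁻¹, hw'⟩) (b := (⟨w, hw⟩ : ↥(pCoreOf p E))⁻¹)).2 ?_
      · exact mem_subgroupOf.1 h1
      · rw [inv_mem_iff, mem_subgroupOf, mem_subgroupOf]
        exact (mem_normalizer_iff.1 hnD w).symm
    have hAp : IsPGroup p (zpowers a) := (isPGroup_pCoreOf (p := p) E).to_le hDA
    have h3 := fixes_of_secTriv hAp hco hsec2 hfixD
    exact fixes_of_secTriv (isPGroup_pCoreOf E) hco hu1 h3
  have hcK : c ∈ secTriv (pCore p G) (pCoreOf p E) ⊓ centralizer ({a} : Set G) := by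
    refine mem_inf.2 ⟨mul_mem (inv_mem (hFsec hy)) (hEsec hx'), ?_⟩
    rw [mem_centralizer_singleton_iff]
    calc c * a = (c * a * c⁻¹) * c := by group
      _ = a * c := by rw [hca]
  have hr : Nat.Coprime 3 p := by
    rw [hp2]
    decide
  have hcP : c ∈ pCore p G := mem_core_of_chain X.hG hcen hcK hr hc3
  have hx'F : x' ∈ F ⊔ pCore p G := by
    have e : x' = y * c := by rw [hc]; group
    rw [e]
    exact mul_mem (mem_sup_left hy) (mem_sup_right hcP)
  have hyE : y ∈ E ⊔ pCore p G := by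
    have e : y = x' * c⁻¹ := by rw [hc]; group
    rw [e]
    exact mul_mem (mem_sup_left hx') (mem_sup_right (inv_mem hcP))
  have hle1 : E ≤ F ⊔ pCore p G := by
    refine (three_le_sup tE hx' hx'A).trans (sup_le ?_ (hQP.trans le_sup_right))
    rw [zpowers_le]
    exact hx'F
  have hle2 : F ≤ E ⊔ pCore p G := by
    refine (three_le_sup tF hy hyA).trans (sup_le ?_ (core_le X.hFs |>.trans le_sup_right))
    rw [zpowers_le]
    exact hyE
  have heq : E ⊔ pCore p G = F ⊔ pCore p G :=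
    le_antisymm (sup_le hle1 le_sup_right) (sup_le hle2 le_sup_right)
  rw [← block_residual X.hE, ← block_residual X.hF, heq]

/-- `[O_p(E), F] ≤ Ω` for exceptional `E`. -/
theorem false_of_g3 {F₁ : Type} [Field F₁] [Fintype F₁] (n : ExD p F₁ (T : Subgroup G) E)
    (hY : ¬ ⁅pCoreOf p E, F⁆ ≤ OmE p E) : False := by
  have hp3 := n.hp
  obtain ⟨u, hu, huO⟩ := SetLike.not_le_iff_exists.1 hY
  set Y : Subgroup G := ⁅pCoreOf p E, F⁆ with hYd
  have hYQ : Y ≤ pCoreOf p E := Cfsg.Agent.Lib.QuadAct.Basic.commutator_le_of_le_normalizer X.FQ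
  have hYF : Y ≤ pCoreOf p F := by
    rw [hYd, commutator_le]
    intro a ha f hf
    exact comm_core' X.hF (X.coreE_le ha) hf
  have hFY : F ≤ normalizer (Y : Set G) := fun f hf =>
    mem_normalizer_commutator (X.FQ hf) (le_normalizer hf)
  have hQQ' : ∀ q ∈ pCoreOf p E, ∀ v ∈ pCoreOf p E, q * v * q⁻¹ * v⁻¹ ∈ OmE p E := by
    intro q hq v hv
    have h1 : q * v * q⁻¹ * v⁻¹ ∈ (⁅pCoreOf p E, pCoreOf p E⁆ : Subgroup G) :=
      commutator_mem_commutator hq hv
    rw [n.hQQ] at h1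
    exact zE_le_omE E h1
  have hEY : E ≤ normalizer ((Y ⊔ OmE p E : Subgroup G) : Set G) :=
    le_normalizer_comm_sup (le_normalizer_pCoreOf E) (le_normalizer_omE E) X.FQ
      (fun e he f hf => X.comm he hf) hQQ'
  have hD : pCoreOf p E ≤ Y ⊔ OmE p E :=
    n.hirr₂ _ le_sup_right (sup_le hYQ (omE_le_core E)) hEY ⟨u, mem_sup_left hu, huO⟩
  have hOY : OmE p E ≤ normalizer (Y : Set G) := by
    intro w hw
    apply mem_normalizer_of_conj_le
    intro y hy
    rw [omE_comm E hw (hYQ hy)]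
    simpa using hy
  have hdec : ∀ a ∈ pCoreOf p E, ∃ v ∈ OmE p E, ∃ y ∈ Y, v * y = a := by
    intro a ha
    have := hD ha
    rw [sup_comm] at this
    exact mem_sup_of_le_normalizer hOY this
  have hZY : ZE p E ≤ ⁅Y, Y⁆ := by
    rw [← n.hQQ, commutator_le]
    intro a ha b hb
    obtain ⟨v, hv, y, hy, rfl⟩ := hdec a ha
    obtain ⟨v', hv', y', hy', rfl⟩ := hdec b hb
    rw [commutatorElement_def, comm_mul_central (omE_comm E hv (hYQ hy)) (omE_comm E hv (hYQ hy'))
      (omE_comm E hv (omE_le_core E hv')) (omE_comm E hv' (hYQ hy)) (omE_comm E hv' (hYQ hy'))]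
    exact commutator_mem_commutator hy hy'
  have hZne : ZE p E ≠ ⊥ := by
    intro h
    have h1 := n.hcardZ
    rw [h, Subgroup.card_bot] at h1
    have := Fintype.one_lt_card (α := F₁)
    omega
  have hYO : ¬ Y ≤ OmE p F := by
    intro h
    apply hZne
    rw [eq_bot_iff]
    refine hZY.trans ?_
    rw [commutator_le]
    intro a ha b hb
    rw [commutatorElement_def, omE_comm F (h ha) (omE_le_core F (h hb))]
    have : b * a * a⁻¹ * b⁻¹ = 1 := by group
    rw [this]
    exact one_mem _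
  have hQFO : pCoreOf p F ≠ OmE p F := fun h => hYO (hYF.trans h.le)
  rcases block_types X.hF with hq | tF | ⟨F₂, i1, i2, ⟨q⟩⟩
  · -- `F` quasisimple
    apply hY
    have hle : F ≤ secTriv (pCoreOf p E) (OmE p E) := by
      apply le_of_quasi hq
      · intro f hf
        apply mem_normalizer_of_conj_le
        intro y hy
        exact conj_mem_secTriv (X.FQ hf) (X.FO hf) hy
      · intro f hf hfp
        refine ⟨X.FQ hf, X.FO hf, sec_p_trivial n.hirr₂ (isPGroup_pCoreOf E) (omE_le_core E)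
          (fun a ha => le_normalizer_omE E (pCoreOf_le E ha)) (le_normalizer_pCoreOf E)
          (le_normalizer_omE E) X.FQ X.FO (fun e he a ha => X.comm he ha) hQQ' ?_ hf hfp⟩
        intro h
        apply hZne
        rw [eq_bot_iff, ← n.hQQ, commutator_le]
        intro a ha b hb
        rw [commutatorElement_def, omE_comm E (h ha) hb]
        have : b * a * a⁻¹ * b⁻¹ = 1 := by group
        rw [this]
        exact one_mem _
    rw [hYd, commutator_le]
    intro a ha f hf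
    have h1 := (hle hf).2.2 a ha
    have e : ⁅a, f⁆ = (f * a * f⁻¹ * a⁻¹)⁻¹ := by
      rw [commutatorElement_def]
      group
    rw [e]
    exact inv_mem h1
  · exact hQFO tF.2.2.1
  · rcases q.hex with hq | ⟨⟨m⟩⟩
    · exact hQFO hq
    · have hcard₁ : Fintype.card F₁ = 3 := by
        have h1 : ZE p E ≤ ZE p F := by
          rw [← m.hQQ]
          exact hZY.trans (commutator_mono hYF hYF)
        have h2 := Subgroup.card_dvd_of_le h1
        rw [n.hcardZ, m.hcardZ, q.hF] at h2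
        rcases (Nat.dvd_prime Nat.prime_three).1 h2 with h3 | h3
        · have := Fintype.one_lt_card (α := F₁)
          omega
        · exact h3
      have h3₁ := char3 hcard₁
      have hsm₁ := small3 hcard₁
      have h3₂ := char3 q.hF
      obtain ⟨i₂, hi₂, j₂, hj₂, hf⟩ := exists_neg h3₂ m.n₂
      have hfF : i₂ * j₂ * i₂⁻¹ * j₂⁻¹ ∈ F :=
        mul_mem (mul_mem (mul_mem hi₂ hj₂) (inv_mem hi₂)) (inv_mem hj₂)
      have hs := scalar_comm' h3₁ hsm₁ n.n₂ X.FQ X.FO (le_normalizer_pCoreOf E)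
        (le_normalizer_omE E) (fun e he f hf => X.comm he hf) hQQ' hi₂ hj₂
      set f₀ := i₂ * j₂ * i₂⁻¹ * j₂⁻¹ with hf₀
      have hFD : F ≤ normalizer ((Y ⊔ OmE p F : Subgroup G) : Set G) := fun f hf =>
        mem_normalizer_sup (hFY hf) (le_normalizer_omE F hf)
      obtain ⟨u', hu', hu'O⟩ := SetLike.not_le_iff_exists.1 hYO
      have hD' : pCoreOf p F ≤ Y ⊔ OmE p F :=
        m.hirr₂ _ le_sup_right (sup_le hYF (omE_le_core F)) hFD ⟨u', mem_sup_left hu', hu'O⟩
      have hOY' : OmE p F ≤ normalizer (Y : Set G) := by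
        intro w hw
        apply mem_normalizer_of_conj_le
        intro y hy
        rw [omE_comm F hw (hYF hy)]
        simpa using hy
      apply hYO
      intro y hy
      have hyE := hYQ hy
      have hyF := hYF hy
      set y₁ := f₀ * y * f₀⁻¹ * y⁻¹ with hy₁
      have h1 : y₁ ∈ OmE p E := hs y hyE
      have h2 : y₁ ∈ pCoreOf p F :=
        mul_mem (conj_mem_of_mem_normalizer (le_normalizer_pCoreOf F hfF) hyF) (inv_mem hyF)
      have h3 : y₁ ∈ OmE p F := by
        refine mem_omegaOneCenter.2 ⟨h2, ?_, (mem_omegaOneCenter.1 h1).2.2⟩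
        rw [mem_centralizer_iff]
        intro a ha
        have ha' := hD' ha
        rw [sup_comm] at ha'
        obtain ⟨v, hv, y', hy', rfl⟩ := mem_sup_of_le_normalizer hOY' ha'
        have c1 : v * y₁ = y₁ * v := omE_comm F hv h2
        have c2 : y₁ * y' = y' * y₁ := omE_comm E h1 (hYQ hy')
        calc (v * y') * y₁ = v * (y' * y₁) := by group
          _ = v * (y₁ * y') := by rw [c2]
          _ = (v * y₁) * y' := by group
          _ = (y₁ * v) * y' := by rw [c1]
          _ = y₁ * (v * y') := by group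
      have h4 : f₀ * y * f₀⁻¹ * y ∈ OmE p F :=
        sec_neg m.n₂ (le_normalizer_pCoreOf F) hfF hyF hf
      have h5 : y * y ∈ OmE p F := by
        have e : y * y = y₁⁻¹ * (f₀ * y * f₀⁻¹ * y) := by
          rw [hy₁]
          group
        rw [e]
        exact mul_mem (inv_mem h3) h4
      have h6 : m.n₂.ψ y + m.n₂.ψ y = 0 := by
        rw [← m.n₂.ψ_mul y hyF y hyF]
        exact (m.n₂.ψ_ker _ (mul_mem hyF hyF)).2 h5
      exact (m.n₂.ψ_ker y hyF).1 (two_zero h3₂ h6)

/-- **Two subnormal blocks commuting modulo `O_p(G)` are equal or commute.** -/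
theorem step_two : E = F ∨ ⁅E, F⁆ = ⊥ := by
  rcases X.dich with hW | ⟨h1, h2⟩
  · rcases block_types X.hF with hq | tF | ⟨F₂, i1, i2, ⟨qF⟩⟩
    · exact (X.not_quasi hW hq).elim
    · rcases block_types X.hE with hq | tE | ⟨F₁, i3, i4, ⟨qE⟩⟩
      · exact (X.symm.not_quasi hW.symm hq).elim
      · exact Or.inl (X.three_eq tE tF hW)
      · have h3 := qE.hp
        have h4 := tF.1
        omega
    · rcases block_types X.hE with hq | tE | ⟨F₁, i3, i4, ⟨qE⟩⟩
      · exact (X.symm.not_quasi hW.symm hq).elim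
      · have h3 := qF.hp
        have h4 := tE.1
        omega
      · exact (X.qb_false qE qF hW).elim
  · right
    rcases gen_or_ex X.hE with hq | ⟨F₁, i1, i2, ⟨n⟩⟩
    · exact X.of_gen hq h1
    · by_cases hY : ⁅pCoreOf p E, F⁆ ≤ OmE p E
      · exact X.of_ex_fix n h1 hY
      · exact (X.false_of_g3 n hY).elim

end Pr

end Cfsg.Agent.Lib.BPair.Comm
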