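/-
Blocks over the field with three elements with intersecting images: agreement on sections, and the
impossibility of an element acting with different signs on the two sections of an exceptional block.
-/
import Cfsg.Agent.Lib.BPair.Comm

set_option autoImplicit false
set_option linter.unusedSectionVars false
set_option linter.unusedVariables false

namespace Cfsg.Agent.Lib.BPair.Exo

open Subgroup Cfsg Matrix
open Cfsg.Agent.Lib.LocalEven.Util
open Cfsg.Agent.Lib.LocalEven.Baumann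
open Cfsg.Agent.Lib.LocalEven.BaumannBlock
open Cfsg.Agent.Lib.LocalEven.SecIrr
open Cfsg.Agent.Lib.LocalStruct.PCoreOf
open Cfsg.Agent.Lib.FG85.BB
open Cfsg.Agent.Lib.BPair.Basic
open Cfsg.Agent.Lib.BPair.Small
open Cfsg.Agent.Lib.BPair.Types
open Cfsg.Agent.Lib.BPair.Sec
open Cfsg.Agent.Lib.BPair.Inv
open Cfsg.Agent.Lib.BPair.Comm
open Cfsg.Agent.Lib.Components.Basic
open Cfsg.Agent.Lib.PReduced.RelNorm (mem_normalizer_inf mem_normalizer_sup mem_normalizer_centralizer)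
open scoped commutatorElement

universe u

variable {G : Type u} [Group G] [Finite G] {p : ℕ} [Fact p.Prime]

section Shape

variable {F₀ : Type} [Field F₀]

/-- The shape of the elements of a quaternion group in `GL₂(3)`. -/
abbrev Shape (M : Matrix (Fin 2) (Fin 2) F₀) : Prop := M = 1 ∨ M = -1 ∨ M * M = -1

theorem sq_neg_apply {N : Matrix (Fin 2) (Fin 2) F₀} (hN : N * N = -1) (v : Fin 2 → F₀) :
    N *ᵥ (N *ᵥ v) = -v := by
  rw [Matrix.mulVec_mulVec, hN, Matrix.neg_mulVec, Matrix.one_mulVec]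

theorem ne_neg_self (h3 : (3 : F₀) = 0) {v : Fin 2 → F₀} (hv : v ≠ 0) : v ≠ -v := by
  intro h
  apply hv
  apply two_zero h3
  nth_rw 1 [h]
  simp

theorem shape_main (h3 : (3 : F₀) = 0) (hsm : ∀ a : F₀, a = 0 ∨ a = 1 ∨ a = -1)
    {M M' : Matrix (Fin 2) (Fin 2) F₀} (hM : M * M = -1) (hM' : M' * M' = -1) {v : Fin 2 → F₀}
    (hv : v ≠ 0) (h : M *ᵥ v = M' *ᵥ v) : M = M' := by
  obtain ⟨u, hu⟩ : ∃ u, u = M *ᵥ v := ⟨_, rfl⟩
  rw [← hu] at h
  have hMu : M *ᵥ u = -v := by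
    rw [hu]
    exact sq_neg_apply hM v
  have hMu' : M' *ᵥ u = -v := by
    rw [h]
    exact sq_neg_apply hM' v
  have hne := ne_neg_self h3 hv
  have hnot : ∀ a : F₀, u ≠ a • v := by
    intro a ha
    rcases hsm a with rfl | rfl | rfl
    · rw [zero_smul] at ha
      rw [ha, Matrix.mulVec_zero] at hMu
      apply hv
      have : -v = 0 := hMu.symm
      simpa using this
    · rw [one_smul] at ha
      rw [ha, ← hu, ha] at hMu
      exact hne hMu
    · rw [neg_smul, one_smul] at ha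
      rw [ha, Matrix.mulVec_neg, ← hu, ha, neg_neg] at hMu
      exact hne hMu
  have hdt : v 0 * u 1 - v 1 * u 0 ≠ 0 := by
    intro h0
    by_cases hv0 : v 0 = 0
    · have hv1 : v 1 ≠ 0 := by
        intro hv1
        apply hv
        funext i
        fin_cases i
        · exact hv0
        · exact hv1
      apply hnot (u 1 / v 1)
      funext i
      fin_cases i
      · have : u 0 = 0 := by
          rw [hv0] at h0
          have h2 : v 1 * u 0 = 0 := by linear_combination -h0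
          exact (mul_eq_zero.1 h2).resolve_left hv1
        simp [this, hv0]
      · simp
        field_simp
    · apply hnot (u 0 / v 0)
      funext i
      fin_cases i
      · simp
        field_simp
      · simp
        field_simp
        linear_combination h0
  have hrow : ∀ i j, M i j = M' i j := by
    intro i
    have h1 := congrFun (hu.symm.trans h) i
    have h2 := congrFun (hMu.trans hMu'.symm) i
    simp only [Matrix.mulVec, dotProduct, Fin.sum_univ_two] at h1 h2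
    have e0 : (M i 0 - M' i 0) * (v 0 * u 1 - v 1 * u 0) = 0 := by
      linear_combination (u 1) * h1 - (v 1) * h2
    have e1 : (M i 1 - M' i 1) * (v 0 * u 1 - v 1 * u 0) = 0 := by
      linear_combination (v 0) * h2 - (u 0) * h1
    have e0' := sub_eq_zero.1 ((mul_eq_zero.1 e0).resolve_right hdt)
    have e1' := sub_eq_zero.1 ((mul_eq_zero.1 e1).resolve_right hdt)
    intro j
    fin_cases j
    · exact e0'
    · exact e1'
  ext i j
  exact hrow i j

theorem shape_unique (h3 : (3 : F₀) = 0) (hsm : ∀ a : F₀, a = 0 ∨ a = 1 ∨ a = -1)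
    {M M' : Matrix (Fin 2) (Fin 2) F₀} (hM : Shape M) (hM' : Shape M') {v : Fin 2 → F₀}
    (hv : v ≠ 0) (h : M *ᵥ v = M' *ᵥ v) : M = M' := by
  have hne := ne_neg_self h3 hv
  have key1 : ∀ {N : Matrix (Fin 2) (Fin 2) F₀}, N * N = -1 → N *ᵥ v ≠ v := by
    intro N hN h1
    have := sq_neg_apply hN v
    rw [h1, h1] at this
    exact hne this
  have key2 : ∀ {N : Matrix (Fin 2) (Fin 2) F₀}, N * N = -1 → N *ᵥ v ≠ -v := by
    intro N hN h1
    have := sq_neg_apply hN v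
    rw [h1, Matrix.mulVec_neg, h1, neg_neg] at this
    exact hne this
  rcases hM with rfl | rfl | hM <;> rcases hM' with rfl | rfl | hM'
  · rfl
  · simp only [Matrix.one_mulVec, Matrix.neg_mulVec] at h
    exact (hne h).elim
  · simp only [Matrix.one_mulVec] at h
    exact (key1 hM' h.symm).elim
  · simp only [Matrix.one_mulVec, Matrix.neg_mulVec] at h
    exact (hne h.symm).elim
  · rfl
  · simp only [Matrix.one_mulVec, Matrix.neg_mulVec] at h
    exact (key2 hM' h.symm).elim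
  · simp only [Matrix.one_mulVec] at h
    exact (key1 hM h).elim
  · simp only [Matrix.one_mulVec, Matrix.neg_mulVec] at h
    exact (key2 hM h).elim
  · exact shape_main h3 hsm hM hM' hv h

theorem eq_neg_of_mulVec {M : Matrix (Fin 2) (Fin 2) F₀} (h : ∀ x, M *ᵥ x = -x) : M = -1 := by
  have : -M = 1 := by
    apply matrix_eq_one_of_mulVec
    intro x
    rw [Matrix.neg_mulVec, h, neg_neg]
  rw [← this, neg_neg]

end Shape

/-- Two quaternion groups acting naturally on a section over the field with three elements have the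
same image. -/
theorem exists_same {F₁ F₂ : Type} [Field F₁] [Fintype F₁] [Field F₂] [Fintype F₂]
    (h₁ : Fintype.card F₁ = 3) (h₂ : Fintype.card F₂ = 3) {E F U U₀ : Subgroup G}
    (n : NatSec F₁ E U U₀) (m : NatSec F₂ F U U₀) (hEU : E ≤ normalizer (U : Set G))
    (hEU₀ : E ≤ normalizer (U₀ : Set G)) (hFU : F ≤ normalizer (U : Set G))
    (hFU₀ : F ≤ normalizer (U₀ : Set G)) (hU₀U : U₀ ≤ U) {d : G} (hd : d ∈ E) :
    ∃ f ∈ F, ∀ u ∈ U, (d * u * d⁻¹) * (f * u * f⁻¹)⁻¹ ∈ U₀ := by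
  classical
  let K : Subgroup G := normalizer (U : Set G) ⊓ normalizer (U₀ : Set G)
  let D : SecData K U U₀ (Fin 2 → F₂) := m.sec inf_le_left inf_le_right
  have hEK : ∀ {e : G}, e ∈ E → e ∈ K := fun he => mem_inf.2 ⟨hEU he, hEU₀ he⟩
  have hFK : ∀ {e : G}, e ∈ F → e ∈ K := fun he => mem_inf.2 ⟨hFU he, hFU₀ he⟩
  have h3₁ := char3 h₁
  have h3₂ := char3 h₂
  obtain ⟨M, hM⟩ := exists_matrix_of_small (small3 h₂) (D.hat d)
  have hneg : ∀ e ∈ E, (n.ρ e : Matrix (Fin 2) (Fin 2) F₁) = -1 → ∀ x, D.hat e x = -x := by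
    intro e he hρ x
    obtain ⟨u, hu, rfl⟩ := m.ψ_surj x
    have h1 := sec_neg n hEU he hu hρ
    have hmem : e * u * e⁻¹ ∈ U := conj_mem_of_mem_normalizer (hEU he) hu
    have h2 := (D.pr_ker _ (mul_mem hmem hu)).2 h1
    rw [D.pr_mul _ hmem _ hu, D.hat_spec e (hEK he) u hu] at h2
    exact eq_neg_of_add_eq_zero_left h2
  have hone : ∀ e ∈ E, (n.ρ e : Matrix (Fin 2) (Fin 2) F₁) = 1 → ∀ x, D.hat e x = x := by
    intro e he hρ x
    obtain ⟨u, hu, rfl⟩ := m.ψ_surj x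
    have hmem : e * u * e⁻¹ ∈ U := conj_mem_of_mem_normalizer (hEU he) hu
    have h0 : e * u * e⁻¹ * u⁻¹ ∈ U₀ := by
      refine (n.ψ_ker _ (mul_mem hmem (inv_mem hu))).1 ?_
      rw [n.ψ_mul _ hmem _ (inv_mem hu), n.ψ_eq e he u hu, hρ, Matrix.one_mulVec]
      have h1 := n.ψ_mul u hu u⁻¹ (inv_mem hu)
      rw [mul_inv_cancel, (n.ψ_ker 1 (one_mem _)).2 (one_mem _)] at h1
      exact h1.symm
    have h2 := (D.pr_eq_iff hmem hu).2 h0
    rw [D.hat_spec e (hEK he) u hu] at h2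
    exact h2
  have hMs : Shape M := by
    rcases shape_three h₁ (n.ρ_mem d hd) with h | h | h
    · left
      apply matrix_eq_one_of_mulVec
      intro x
      rw [← hM, hone d hd h x]
    · right; left
      apply eq_neg_of_mulVec
      intro x
      rw [← hM, hneg d hd h x]
    · right; right
      apply eq_neg_of_mulVec
      intro x
      have h1 : (n.ρ (d * d) : Matrix (Fin 2) (Fin 2) F₁) = -1 := by
        rw [n.ρ_mul d hd d hd, coe_mul', h]
      have h2 := hneg _ (mul_mem hd hd) h1 x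
      rw [D.hat_mul _ (hEK hd) _ (hEK hd)] at h2
      have h3 : (D.hat d * D.hat d) x = D.hat d (D.hat d x) := rfl
      rw [h3, hM, hM, Matrix.mulVec_mulVec] at h2
      exact h2
  -- transitivity
  let v₀ : Fin 2 → F₂ := ![1, 0]
  have hv₀ : v₀ ≠ 0 := by
    intro h
    have := congrFun h 0
    simp [v₀] at this
  have hv₁ : D.hat d v₀ ≠ 0 := by
    intro h
    apply hv₀
    have := D.hat_inv_apply (hEK hd) v₀
    rw [h, map_zero] at this
    exact this.symm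
  obtain ⟨f, hf, hfv⟩ := m.exists_transitive hv₀ hv₁
  have hfs : Shape (m.ρ f : Matrix (Fin 2) (Fin 2) F₂) := shape_three h₂ (m.ρ_mem f hf)
  rw [hM] at hfv
  have hMeq := shape_unique h3₂ (small3 h₂) hMs hfs hv₀ hfv.symm
  refine ⟨f, hf, fun u hu => ?_⟩
  have hu1 : d * u * d⁻¹ ∈ U := conj_mem_of_mem_normalizer (hEU hd) hu
  have hu2 : f * u * f⁻¹ ∈ U := conj_mem_of_mem_normalizer (hFU hf) hu
  apply (D.pr_eq_iff hu1 hu2).1
  rw [D.hat_spec d (hEK hd) u hu, hM, hMeq]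
  exact (m.ψ_eq f hf u hu).symm

/-- Three steps of the chain. -/
theorem chain_three (hG : centralizer (pCore p G : Set G) ≤ pCore p G) {R W Z : Subgroup G}
    (hR : IsPGroup p R) (hW : IsPGroup p W) (hZ : IsPGroup p Z) {r : ℕ} (hr : r.Coprime p) {c : G}
    (hc : ∃ k : ℕ, c ^ (r ^ k) ∈ pCore p G) (h1 : c ∈ secTriv (pCore p G) R) (h2 : c ∈ secTriv R W)
    (h3 : c ∈ secTriv W Z) (h4 : c ∈ centralizer (Z : Set G)) : c ∈ pCore p G := by
  obtain ⟨k, hk⟩ := hc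
  refine mem_core_of_chain hG (K := secTriv (pCore p G) R ⊓ (secTriv R W ⊓ (secTriv W Z ⊓
    centralizer (Z : Set G)))) ?_ (mem_inf.2 ⟨h1, mem_inf.2 ⟨h2, mem_inf.2 ⟨h3, h4⟩⟩⟩) hr hk
  intro y hy hco
  obtain ⟨h1', hy⟩ := mem_inf.1 hy
  obtain ⟨h2', hy⟩ := mem_inf.1 hy
  obtain ⟨h3', h4'⟩ := mem_inf.1 hy
  have s1 : ∀ z ∈ Z, y * z * y⁻¹ = z := by
    intro z hz
    have : z * y = y * z := mem_centralizer_iff.1 h4' z hz
    rw [← this]
    group
  exact fixes_of_secTriv hR hco h1' (fixes_of_secTriv hW hco h2' (fixes_of_secTriv hZ hco h3' s1))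

/-- No element of an `r`-extension of `O_p(G)` acts with sign `+` on `W / Z` and sign `-` on `Q / W`
of an exceptional block. -/
theorem no_delta (hG : centralizer (pCore p G : Set G) ≤ pCore p G) {T' : Sylow p G} {F : Subgroup G}
    {F₂ : Type} [Field F₂] [Fintype F₂] (hF : IsBaumannBlock p (T' : Subgroup G) F)
    (hFs : F.IsSubnormal) (m : ExD p F₂ (T' : Subgroup G) F) (hF₂ : Fintype.card F₂ = 3)
    (O : Subgroup G) [hOn : O.Normal] (hOr : ∀ x ∈ O, ∃ k : ℕ, x ^ (2 ^ k) ∈ pCore p G)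
    {δ : G} (hδO : δ ∈ O) (h1 : δ ∈ secTriv (pCore p G) (pCoreOf p F))
    (h2 : δ ∈ secTriv (OmE p F) (ZE p F)) (h3 : δ ∈ centralizer (ZE p F : Set G))
    (h4 : ∀ x ∈ pCoreOf p F, δ * x * δ⁻¹ * x ∈ OmE p F) : False := by
  classical
  have hp := m.hp
  subst hp
  have hRp : IsPGroup 3 (pCoreOf 3 F) := isPGroup_pCoreOf F
  have hWp : IsPGroup 3 (OmE 3 F) := isPGroup_omE F
  have hZp : IsPGroup 3 (ZE 3 F) := hWp.to_le (zE_le_omE F)
  have hPp : IsPGroup 3 (pCore 3 G) := Cfsg.Agent.Lib.Core.Basic.pCore_isPGroup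
  have hWR : OmE 3 F ≤ pCoreOf 3 F := omE_le_core F
  have hZW : ZE 3 F ≤ OmE 3 F := zE_le_omE F
  have hZR : ZE 3 F ≤ pCoreOf 3 F := hZW.trans hWR
  have hRF : pCoreOf 3 F ≤ F := pCoreOf_le F
  have hPF : pCore 3 G ≤ normalizer (F : Set G) := pCore_le_normalizer_block hF
  have hPR := hPF.trans (normalizer_le_normalizer_pCoreOf (p := 3) F)
  have hPW := hPF.trans (normalizer_le_omE (p := 3) F)
  have hPZ := hPF.trans (normalizer_le_zE (p := 3) F)
  have hcomm : ∀ x ∈ pCoreOf 3 F, ∀ y ∈ pCoreOf 3 F, x * y * x⁻¹ * y⁻¹ ∈ ZE 3 F := by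
    intro x hx y hy
    have h5 : x * y * x⁻¹ * y⁻¹ ∈ (⁅pCoreOf 3 F, pCoreOf 3 F⁆ : Subgroup G) :=
      commutator_mem_commutator hx hy
    rwa [m.hQQ] at h5
  have hRZ : pCoreOf 3 F ≤ normalizer (ZE 3 F : Set G) := hRF.trans (le_normalizer_zE F)
  have hRW : pCoreOf 3 F ≤ normalizer (OmE 3 F : Set G) := hRF.trans (le_normalizer_omE F)
  have hZne : ZE 3 F ≠ ⊥ := by
    intro h
    have h5 := m.hcardZ
    rw [h, Subgroup.card_bot, hF₂] at h5
    omega
  have hne : ¬ pCoreOf 3 F ≤ OmE 3 F := by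
    intro h
    apply hZne
    rw [eq_bot_iff, ← m.hQQ, commutator_le]
    intro a ha b hb
    rw [commutatorElement_def, omE_comm F (h ha) hb]
    have : b * a * a⁻¹ * b⁻¹ = 1 := by group
    rw [this]
    exact one_mem _
  -- `[R, P] ≤ W`
  have ha : ⁅pCoreOf 3 F, pCore 3 G⁆ ≤ OmE 3 F := by
    refine comm_le_of_secIrr m.hirr₂ hRp hPp hPR hPW hRW hWR ?_ hne
    exact le_normalizer_comm_sup (le_normalizer_pCoreOf F) (le_normalizer_omE F) hPR
      (fun e he a ha => comm_core hF ha he) (fun q hq u hu => hZW (hcomm q hq u hu))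
  -- `[W, P] ≤ Z`
  have hb : ∀ q ∈ pCore 3 G, ∀ w ∈ OmE 3 F, q * w * q⁻¹ * w⁻¹ ∈ ZE 3 F := by
    intro q hq w hw
    obtain ⟨v, hv, z, hz, rfl⟩ := exists_decomp hF hw
    have hc : v * q = q * v := vV₀_central (wE_le_vV₀ hG hF hv) hq
    have h5 : q * z * q⁻¹ * z⁻¹ ∈ ZE 3 F :=
      mul_mem (conj_mem_of_mem_normalizer (hPZ hq) hz) (inv_mem hz)
    have h6 := conj_mem_of_mem_normalizer (hRZ (hWR (wE_le_omE F hv))) h5
    have e : q * (v * z) * q⁻¹ * (v * z)⁻¹ = v * (q * z * q⁻¹ * z⁻¹) * v⁻¹ := by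
      calc q * (v * z) * q⁻¹ * (v * z)⁻¹ = (q * v) * z * q⁻¹ * z⁻¹ * v⁻¹ := by group
        _ = (v * q) * z * q⁻¹ * z⁻¹ * v⁻¹ := by rw [hc]
        _ = _ := by group
    rw [e]
    exact h6
  -- the section `R / Z`
  obtain ⟨A, iA, hfA, ⟨d⟩⟩ := exists_section (K := normalizer (pCoreOf 3 F : Set G) ⊓
    normalizer (ZE 3 F : Set G)) hZR hRZ hcomm inf_le_left inf_le_right
  have h3A : ∀ y : A, y + y + y = 0 := by
    intro y
    obtain ⟨x, hx, rfl⟩ := d.pr_surj y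
    have h5 := d.pr_pow hx 3
    have h6 : x ^ 3 ∈ ZE 3 F := by
      rw [← m.hfr]
      exact ⟨(⟨x, hx⟩ : pCoreOf 3 F) ^ 3,
        Cfsg.Agent.Lib.PGroups.Basic.pow_mem_frattini hRp _, by simp⟩
    rw [(d.pr_ker _ (pow_mem hx 3)).2 h6] at h5
    have e : (3 : ℕ) • d.pr x = d.pr x + d.pr x + d.pr x := by abel
    rw [← e, ← h5]
  have hRK : ∀ r ∈ pCoreOf 3 F, r ∈ normalizer (pCoreOf 3 F : Set G) ⊓
      normalizer (ZE 3 F : Set G) := fun r hr => mem_inf.2 ⟨le_normalizer hr, hRZ hr⟩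
  have hRhat : ∀ r ∈ pCoreOf 3 F, d.hat r = 1 := fun r hr =>
    (d.hat_eq_one_iff (hRK r hr) (le_normalizer hr)).2 (hcomm r hr)
  have hδK : δ ∈ normalizer (pCoreOf 3 F : Set G) ⊓ normalizer (ZE 3 F : Set G) :=
    mem_inf.2 ⟨h1.2.1, h2.2.1⟩
  have hτW : ∀ w ∈ OmE 3 F, d.hat δ (d.pr w) = d.pr w := by
    intro w hw
    have h5 := (d.pr_eq_iff (hWR (conj_mem_of_mem_normalizer h2.1 hw)) (hWR hw)).2 (h2.2.2 w hw)
    rwa [d.hat_spec δ hδK w (hWR hw)] at h5
  have hτR : ∀ x ∈ pCoreOf 3 F, d.hat δ (d.pr x) + d.pr x = d.pr (δ * x * δ⁻¹ * x) := by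
    intro x hx
    rw [d.pr_mul _ (conj_mem_of_mem_normalizer h1.2.1 hx) _ hx, d.hat_spec δ hδK x hx]
  have hPK : ∀ q ∈ pCore 3 G, q ∈ normalizer (pCoreOf 3 F : Set G) ⊓ normalizer (ZE 3 F : Set G) :=
    fun q hq => mem_inf.2 ⟨hPR hq, hPZ hq⟩
  -- `P` acts trivially on `R / Z`
  have hPhat : ∀ q ∈ pCore 3 G, d.hat q = 1 := by
    intro q hq
    have hqK := hPK q hq
    have hcm : d.hat q * d.hat δ = d.hat δ * d.hat q := by
      have h5 : δ * q * δ⁻¹ * q⁻¹ ∈ pCoreOf 3 F := h1.2.2 q hq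
      have e : δ * q = (δ * q * δ⁻¹ * q⁻¹) * (q * δ) := by group
      rw [← d.hat_mul _ hδK _ hqK, e, d.hat_mul _ (hRK _ h5) _ (mul_mem hqK hδK), hRhat _ h5, one_mul,
        d.hat_mul _ hqK _ hδK]
    apply AddMonoidHom.ext
    intro y
    obtain ⟨x, hx, rfl⟩ := d.pr_surj y
    show d.hat q (d.pr x) = d.pr x
    have hqx : q * x * q⁻¹ ∈ pCoreOf 3 F := conj_mem_of_mem_normalizer (hPR hq) hx
    have hw₀ : q * x * q⁻¹ * x⁻¹ ∈ OmE 3 F := by
      have h5 : ⁅x, q⁆ ∈ OmE 3 F := ha (commutator_mem_commutator hx hq)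
      have e : q * x * q⁻¹ * x⁻¹ = ⁅x, q⁆⁻¹ := by
        rw [commutatorElement_def]
        group
      rw [e]
      exact inv_mem h5
    have hT : d.hat q (d.pr x) - d.pr x = d.pr (q * x * q⁻¹ * x⁻¹) := by
      rw [d.pr_div hqx hx, d.hat_spec q hqK x hx]
    have hw₁ := h4 x hx
    have hTw : d.hat q (d.pr (δ * x * δ⁻¹ * x)) = d.pr (δ * x * δ⁻¹ * x) := by
      have h5 := (d.pr_eq_iff (hWR (conj_mem_of_mem_normalizer (hPW hq) hw₁)) (hWR hw₁)).2
        (hb q hq _ hw₁)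
      rwa [d.hat_spec q hqK _ (hWR hw₁)] at h5
    have hx1 := congrArg (fun f : AddMonoid.End A => f (d.pr x)) hcm
    have hx1' : d.hat q (d.hat δ (d.pr x)) = d.hat δ (d.hat q (d.pr x)) := hx1
    have hτx : d.hat δ (d.pr x) = d.pr (δ * x * δ⁻¹ * x) - d.pr x := by
      rw [← hτR x hx]
      abel
    set y := d.pr x with hy
    set w₁ := d.pr (δ * x * δ⁻¹ * x) with hw₁d
    set w₀ := d.pr (q * x * q⁻¹ * x⁻¹) with hw₀d
    have hqy : d.hat q y = w₀ + y := by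
      rw [← hT]
      abel
    have hτw₀ : d.hat δ w₀ = w₀ := hτW _ hw₀
    rw [hτx, map_sub, hTw, hqy, map_add, hτw₀, hτx] at hx1'
    have h5 : w₀ + w₀ = 0 := by
      have e : w₁ - (w₀ + y) = w₀ + (w₁ - y) := hx1'
      have e2 : w₀ + w₀ = (w₀ + (w₁ - y)) - (w₁ - (w₀ + y)) := by abel
      rw [e2, e, sub_self]
    have h6 := h3A w₀
    rw [h5, zero_add] at h6
    rw [hqy, h6, zero_add]
  -- the section `R / W`
  let K₂ : Subgroup G := normalizer (pCoreOf 3 F : Set G) ⊓ normalizer (OmE 3 F : Set G)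
  let d₂ : SecData K₂ (pCoreOf 3 F) (OmE 3 F) (Fin 2 → F₂) := m.n₂.sec inf_le_left inf_le_right
  have hδK₂ : δ ∈ K₂ := mem_inf.2 ⟨h1.2.1, h2.1⟩
  have hneg₂ : d₂.hat δ = -1 := by
    apply AddMonoidHom.ext
    intro y
    obtain ⟨x, hx, rfl⟩ := d₂.pr_surj y
    have h5 := (d₂.pr_ker _ (mul_mem (conj_mem_of_mem_normalizer h1.2.1 hx) hx)).2 (h4 x hx)
    rw [d₂.pr_mul _ (conj_mem_of_mem_normalizer h1.2.1 hx) _ hx, d₂.hat_spec δ hδK₂ x hx] at h5
    exact eq_neg_of_add_eq_zero_left h5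
  have hsec₂ : ∀ c ∈ K₂, d₂.hat c = 1 → c ∈ secTriv (pCoreOf 3 F) (OmE 3 F) := fun c hc hh =>
    ⟨(mem_inf.1 hc).1, (mem_inf.1 hc).2, (d₂.hat_eq_one_iff hc (mem_inf.1 hc).1).1 hh⟩
  have hr : Nat.Coprime 2 3 := by decide
  -- `δ² ∈ P`
  have hδ2 : δ * δ ∈ pCore 3 G := by
    apply chain_three hG hRp hWp hZp hr (hOr _ (mul_mem hδO hδO)) (mul_mem h1 h1) _
      (mul_mem h2 h2) (mul_mem h3 h3)
    apply hsec₂ _ (mul_mem hδK₂ hδK₂)
    rw [d₂.hat_mul _ hδK₂ _ hδK₂, hneg₂]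
    simp
  have hτ2 : d.hat δ * d.hat δ = 1 := by
    rw [← d.hat_mul _ hδK _ hδK, hPhat _ hδ2]
  -- an element of `B(T)`
  obtain ⟨b, hbB, hbn⟩ := block_hBnot hF
  have hbF := baumann_le_normalizer_block hF hbB
  have hbR := normalizer_le_normalizer_pCoreOf (p := 3) F hbF
  have hbW := normalizer_le_omE (p := 3) F hbF
  have hbZ := normalizer_le_zE (p := 3) F hbF
  have hbK : b ∈ normalizer (pCoreOf 3 F : Set G) ⊓ normalizer (ZE 3 F : Set G) :=
    mem_inf.2 ⟨hbR, hbZ⟩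
  have hbK₂ : b ∈ K₂ := mem_inf.2 ⟨hbR, hbW⟩
  have hbδ : b * δ * b⁻¹ ∈ O := hOn.conj_mem _ hδO b
  have hbδ1 := conj_mem_secTriv (mem_normalizer_pCore b) hbR h1
  have hbδ2 := conj_mem_secTriv hbW hbZ h2
  have hbδ3 : b * δ * b⁻¹ ∈ centralizer (ZE 3 F : Set G) :=
    conj_mem_of_mem_normalizer (normalizer_le_centralizer _ hbZ) h3
  have hu : δ⁻¹ * (b * δ * b⁻¹) ∈ pCore 3 G := by
    apply chain_three hG hRp hWp hZp hr (hOr _ (mul_mem (inv_mem hδO) hbδ))
      (mul_mem (inv_mem h1) hbδ1) _ (mul_mem (inv_mem h2) hbδ2) (mul_mem (inv_mem h3) hbδ3)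
    apply hsec₂ _ (mul_mem (inv_mem hδK₂) (mul_mem (mul_mem hbK₂ hδK₂) (inv_mem hbK₂)))
    have hbb := d₂.hat_mul_inv hbK₂
    have hδinv : d₂.hat δ⁻¹ = -1 := by
      have h5 := d₂.hat_inv_mul hδK₂
      rw [hneg₂, mul_neg, mul_one] at h5
      rw [← neg_neg (d₂.hat δ⁻¹), h5]
    rw [d₂.hat_mul _ (inv_mem hδK₂) _ (mul_mem (mul_mem hbK₂ hδK₂) (inv_mem hbK₂)),
      d₂.hat_mul _ (mul_mem hbK₂ hδK₂) _ (inv_mem hbK₂), d₂.hat_mul _ hbK₂ _ hδK₂, hneg₂, hδinv]
    have e : d₂.hat b * -1 * d₂.hat b⁻¹ = -1 := by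
      rw [mul_neg, mul_one, neg_mul, hbb]
    rw [e]
    simp
  have hτβ : d.hat δ * d.hat b = d.hat b * d.hat δ := by
    have huK := hPK _ hu
    have e : b * δ = δ * (δ⁻¹ * (b * δ * b⁻¹)) * b := by group
    rw [← d.hat_mul _ hbK _ hδK, e, d.hat_mul _ (mul_mem hδK huK) _ hbK,
      d.hat_mul _ hδK _ huK, hPhat _ hu, mul_one]
  -- quadratic action on the two sections
  have hpow : ∃ k : ℕ, b ^ (3 ^ k) = 1 := by
    obtain ⟨k, hk⟩ := (T'.isPGroup'.to_le (baumann_le (p := 3) (T' : Subgroup G))) ⟨b, hbB⟩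
    exact ⟨k, by simpa using congrArg Subtype.val hk⟩
  obtain ⟨k, hk⟩ := hpow
  have h3F := char3 hF₂
  have hsm := small3 hF₂
  have hq₁ := quad_of_sec m.n₁ (normalizer_le_omE F) (normalizer_le_zE F) hbF (by
    obtain ⟨M, hM⟩ := exists_matrix_of_small hsm ((m.n₁.sec (normalizer_le_omE F)
      (normalizer_le_zE F)).hat b)
    refine quad_of_matrix h3F _ M hM k ?_
    rw [← (m.n₁.sec (normalizer_le_omE F) (normalizer_le_zE F)).hat_pow hbF, hk,
      (m.n₁.sec (normalizer_le_omE F) (normalizer_le_zE F)).hat_one])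
  have hq₂ := quad_of_sec m.n₂ (normalizer_le_normalizer_pCoreOf F) (normalizer_le_omE F) hbF (by
    obtain ⟨M, hM⟩ := exists_matrix_of_small hsm ((m.n₂.sec (normalizer_le_normalizer_pCoreOf F)
      (normalizer_le_omE F)).hat b)
    refine quad_of_matrix h3F _ M hM k ?_
    rw [← (m.n₂.sec (normalizer_le_normalizer_pCoreOf F) (normalizer_le_omE F)).hat_pow hbF, hk,
      (m.n₂.sec (normalizer_le_normalizer_pCoreOf F) (normalizer_le_omE F)).hat_one])
  apply m.hnq b hbB hbn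
  apply quad_to_comm d hbK hbR
  have hβ1 : ∀ u ∈ pCoreOf 3 F, (d.hat b - 1) (d.pr u) = d.pr (b * u * b⁻¹ * u⁻¹) := by
    intro u hu
    rw [d.pr_div (conj_mem_of_mem_normalizer hbR hu) hu, d.hat_spec b hbK u hu]
    rfl
  have hQb : ∀ u ∈ pCoreOf 3 F, b * u * b⁻¹ * u⁻¹ ∈ pCoreOf 3 F := fun u hu =>
    mul_mem (conj_mem_of_mem_normalizer hbR hu) (inv_mem hu)
  apply quad_core h3A (d.hat δ) (d.hat b) hτ2 hτβ {y | ∃ w ∈ OmE 3 F, y = d.pr w}
  · rintro _ ⟨w, hw, rfl⟩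
    exact hτW w hw
  · intro x
    obtain ⟨a, ha', rfl⟩ := d.pr_surj x
    exact ⟨_, h4 a ha', hτR a ha'⟩
  · rintro _ ⟨w, hw, rfl⟩
    rw [hβ1 w (hWR hw), hβ1 _ (hQb w (hWR hw))]
    exact (d.pr_ker _ (mul_mem (conj_mem_of_mem_normalizer hbR (hQb w (hWR hw)))
      (inv_mem (hQb w (hWR hw))))).2 (hq₁ w hw)
  · intro x
    obtain ⟨a, ha', rfl⟩ := d.pr_surj x
    rw [hβ1 a ha', hβ1 _ (hQb a ha')]
    exact ⟨_, hq₂ a ha', rfl⟩

/-- An element outside the kernel with square in the kernel has matrix `-1`. -/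
theorem neg_of_sq {F₀ : Type} [Field F₀] [Fintype F₀] (hF₀ : Fintype.card F₀ = 3) {E U U₀ Q : Subgroup G}
    (n : NatSec F₀ E U U₀) (hker : ∀ e ∈ E, n.ρ e = 1 ↔ e ∈ Q) {z : G} (hz : z ∈ E) (hzQ : z ∉ Q)
    (hzz : z * z ∈ Q) : (n.ρ z : Matrix (Fin 2) (Fin 2) F₀) = -1 := by
  rcases shape_three hF₀ (n.ρ_mem z hz) with h | h | h
  · exact (hzQ ((hker z hz).1 (Subtype.ext h))).elim
  · exact h
  · exfalso
    have h1 := (hker _ (mul_mem hz hz)).2 hzz
    rw [n.ρ_mul z hz z hz] at h1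
    have h2 : ((n.ρ z * n.ρ z : Matrix.SpecialLinearGroup (Fin 2) F₀) : Matrix (Fin 2) (Fin 2) F₀) = 1 := by
      rw [h1]
      rfl
    rw [coe_mul', h] at h2
    exact neg_one_ne' (char3 hF₀) h2

theorem ker_core {F₁ : Type} [Field F₁] [Fintype F₁] {T E : Subgroup G}
    (n : ExD p F₁ T E) : ∀ e ∈ E, n.n₂.ρ e = 1 ↔ e ∈ pCoreOf p E :=
  n.n₂.ker_iff (pCoreOf_le E) (card_block n.hiso) (fun a ha u hu => by
    have h1 : a * u * a⁻¹ * u⁻¹ ∈ (⁅pCoreOf p E, pCoreOf p E⁆ : Subgroup G) :=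
      commutator_mem_commutator ha hu
    rw [n.hQQ] at h1
    exact zE_le_omE E h1) (omE_le_core E)

theorem ex_not_gen {F₁ : Type} [Field F₁] [Fintype F₁] {T E : Subgroup G}
    (n : ExD p F₁ T E) (hq : pCoreOf p E = OmE p E) : False := by
  have h1 : ZE p E = ⊥ := by
    rw [eq_bot_iff, ← n.hQQ, commutator_le]
    intro a ha b hb
    have ha' := ha
    rw [hq] at ha'
    rw [commutatorElement_def, omE_comm E ha' hb]
    have : b * a * a⁻¹ * b⁻¹ = 1 := by group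
    rw [this]
    exact one_mem _
  have h2 := n.hcardZ
  rw [h1, Subgroup.card_bot] at h2
  have := Fintype.one_lt_card (α := F₁)
  omega

/-- In a block whose core is abelian, the central part is trivial. -/
theorem zE_bot_of_gen {F₁ : Type} [Field F₁] [Fintype F₁] {T : Sylow p G} {E : Subgroup G}
    (hE : IsBaumannBlock p (T : Subgroup G) E) (q : QB p F₁ (T : Subgroup G) E)
    (hq : pCoreOf p E = OmE p E) : ZE p E = ⊥ := by
  obtain ⟨i, hi, j, hj, hz⟩ := exists_neg (char3 q.hF) q.n₁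
  have hzE : i * j * i⁻¹ * j⁻¹ ∈ E := mul_mem (mul_mem (mul_mem hi hj) (inv_mem hi)) (inv_mem hj)
  have hW : WE p E = pCoreOf p E := by
    show ⁅OmE p E, E⁆ = pCoreOf p E
    rw [← hq]
    exact hE.2.2.1
  rw [eq_bot_iff]
  intro z hz'
  have h1 : z ∈ WE p E := by
    rw [hW, hq]
    exact zE_le_omE E hz'
  exact wE_cen_of_neg q.hp q.n₁ (ker_om q.n₁ q.hiso) hzE hz h1 (mem_inf.1 hz').2

theorem core_le_of_neg {F₁ : Type} [Field F₁] [Fintype F₁] {T T' : Sylow p G} {E F : Subgroup G}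
    (hE : IsBaumannBlock p (T : Subgroup G) E) (hF : IsBaumannBlock p (T' : Subgroup G) F)
    (hEs : E.IsSubnormal) (qE : QB p F₁ (T : Subgroup G) E) {z : G} (hz : z ∈ E) (hzF : z ∈ F)
    (hρ : (qE.n₁.ρ z : Matrix (Fin 2) (Fin 2) F₁) = -1) (hzQ : z ∉ pCoreOf p E)
    (hzz : z * z ∈ pCoreOf p E) : pCoreOf p E ≤ pCoreOf p F := by
  have hp := qE.hp
  have hker := ker_om qE.n₁ qE.hiso
  have hWF : ∀ v ∈ WE p E, v ∈ pCoreOf p F := by
    intro v hv
    have hvQ : v ∈ pCoreOf p E := omE_le_core E (wE_le_omE E hv)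
    have h1 := comm_core hF (core_le hEs hvQ) hzF
    rw [inv_wE qE.n₁ hker hz hv hρ] at h1
    have h2 : v ^ 3 = 1 := by
      have := wE_pow hv
      rwa [hp] at this
    have e : v = v⁻¹ * v⁻¹ := by
      have h3 : v ^ 3 = v * v * v := by
        simp only [pow_succ, pow_zero, one_mul]
      rw [h3] at h2
      calc v = (v * v * v) * (v⁻¹ * v⁻¹) := by group
        _ = v⁻¹ * v⁻¹ := by rw [h2, one_mul]
    rw [e]
    exact h1
  rcases qE.hex with hq | ⟨⟨n⟩⟩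
  · have hW : WE p E = pCoreOf p E := by
      show ⁅OmE p E, E⁆ = pCoreOf p E
      rw [← hq]
      exact hE.2.2.1
    intro a ha
    rw [← hW] at ha
    exact hWF a ha
  · have hker₂ := ker_core n
    have hρ₂ := neg_of_sq qE.hF n.n₂ hker₂ hz hzQ hzz
    have h3F := char3 qE.hF
    have hzN : z ∈ normalizer (pCoreOf p E : Set G) := le_normalizer_pCoreOf E hz
    have hdec : ∀ a ∈ pCoreOf p E, ∃ v ∈ OmE p E, ∃ y ∈ pCoreOf p E ⊓ pCoreOf p F, v * y = a := by
      intro a ha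
      have hza : z * a * z⁻¹ ∈ pCoreOf p E := conj_mem_of_mem_normalizer hzN ha
      have hc1 : z * a * z⁻¹ * a⁻¹ ∈ pCoreOf p F := comm_core hF (core_le hEs ha) hzF
      have hc2 : z * a * z⁻¹ * a⁻¹ ∈ pCoreOf p E := mul_mem hza (inv_mem ha)
      have hω : z * a * z⁻¹ * a ∈ OmE p E := sec_neg n.n₂ (le_normalizer_pCoreOf E) hz ha hρ₂
      have ha3 : a * a * a ∈ OmE p E := by
        refine (n.n₂.ψ_ker _ (mul_mem (mul_mem ha ha) ha)).1 ?_
        rw [n.n₂.ψ_mul _ (mul_mem ha ha) _ ha, n.n₂.ψ_mul _ ha _ ha]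
        funext i
        simp only [Pi.add_apply, Pi.zero_apply]
        linear_combination (n.n₂.ψ a i) * h3F
      refine ⟨((z * a * z⁻¹ * a) * (a * a * a)⁻¹)⁻¹, inv_mem (mul_mem hω (inv_mem ha3)),
        z * a * z⁻¹ * a⁻¹, mem_inf.2 ⟨hc2, hc1⟩, ?_⟩
      group
    have hD : pCoreOf p E ⊓ pCoreOf p F ≤ pCoreOf p E := inf_le_left
    have hZD : ZE p E ≤ pCoreOf p E ⊓ pCoreOf p F := by
      rw [← n.hQQ, commutator_le]
      intro a ha b hb
      obtain ⟨v, hv, y, hy, rfl⟩ := hdec a ha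
      obtain ⟨v', hv', y', hy', rfl⟩ := hdec b hb
      rw [commutatorElement_def, comm_mul_central (omE_comm E hv (hD hy)) (omE_comm E hv (hD hy'))
        (omE_comm E hv (omE_le_core E hv')) (omE_comm E hv' (hD hy)) (omE_comm E hv' (hD hy'))]
      exact mul_mem (mul_mem (mul_mem hy hy') (inv_mem hy)) (inv_mem hy')
    have hOD : OmE p E ≤ pCoreOf p E ⊓ pCoreOf p F := by
      intro w hw
      obtain ⟨v, hv, z', hz', rfl⟩ := exists_decomp hE hw
      refine mul_mem (mem_inf.2 ⟨omE_le_core E (wE_le_omE E hv), hWF v hv⟩) (hZD hz')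
    intro a ha
    obtain ⟨v, hv, y, hy, rfl⟩ := hdec a ha
    exact (mem_inf.1 (mul_mem (hOD hv) hy)).2

theorem same_comm {U₀ : Subgroup G} {d f u : G} (hf : f ∈ normalizer (U₀ : Set G))
    (h : (d * u * d⁻¹) * (f * u * f⁻¹)⁻¹ ∈ U₀) : (f⁻¹ * d) * u * (f⁻¹ * d)⁻¹ * u⁻¹ ∈ U₀ := by
  have h1 := conj_mem_of_mem_normalizer (inv_mem hf) h
  have e : (f⁻¹ * d) * u * (f⁻¹ * d)⁻¹ * u⁻¹ =
      f⁻¹ * ((d * u * d⁻¹) * (f * u * f⁻¹)⁻¹) * f⁻¹⁻¹ := by group
  rw [e]
  exact h1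

/-- One half of the exotic case. -/
theorem exo_le_sup {F₁ F₂ : Type} [Field F₁] [Fintype F₁] [Field F₂] [Fintype F₂]
    (hG : centralizer (pCore p G : Set G) ≤ pCore p G) {T T' : Sylow p G} {E F : Subgroup G}
    (hE : IsBaumannBlock p (T : Subgroup G) E) (hF : IsBaumannBlock p (T' : Subgroup G) F)
    (hFs : F.IsSubnormal)
    (qE : QB p F₁ (T : Subgroup G) E) (qF : QB p F₂ (T' : Subgroup G) F)
    (hEF : E ≤ normalizer (F : Set G))
    (O : Subgroup G) [hOn : O.Normal] (hOr : ∀ x ∈ O, ∃ k : ℕ, x ^ (2 ^ k) ∈ pCore p G)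
    (hEO : E ≤ O) (hFO : F ≤ O) (hQ : pCoreOf p E = pCoreOf p F) (hZ : ZE p E = ZE p F) :
    E ≤ F ⊔ pCore p G := by
  classical
  have hp := qE.hp
  have hOm : OmE p E = OmE p F := by
    show omegaOneCenter p (pCoreOf p E) = omegaOneCenter p (pCoreOf p F)
    rw [hQ]
  have nE : NatSec F₁ E (OmE p F) (ZE p F) := by
    rw [← hOm, ← hZ]
    exact qE.n₁
  have hEO' : E ≤ normalizer (OmE p F : Set G) := hEF.trans (normalizer_le_omE F)
  have hEZ' : E ≤ normalizer (ZE p F : Set G) := hEF.trans (normalizer_le_zE F)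
  have hEQ' : E ≤ normalizer (pCoreOf p F : Set G) := hEF.trans (normalizer_le_normalizer_pCoreOf F)
  have hFO' : F ≤ normalizer (OmE p F : Set G) := le_normalizer_omE F
  have hFZ' : F ≤ normalizer (ZE p F : Set G) := le_normalizer_zE F
  have hFQ' : F ≤ normalizer (pCoreOf p F : Set G) := le_normalizer_pCoreOf F
  have hRp : IsPGroup p (pCoreOf p F) := isPGroup_pCoreOf F
  have hWp : IsPGroup p (OmE p F) := isPGroup_omE F
  have hZp : IsPGroup p (ZE p F) := hWp.to_le (zE_le_omE F)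
  have hr : Nat.Coprime 2 p := by
    rw [hp]
    decide
  have hEsec : E ≤ secTriv (pCore p G) (pCoreOf p F) := fun e he =>
    ⟨mem_normalizer_pCore e, hEQ' he, fun u hu => hQ ▸ comm_core hE hu he⟩
  have hFsec : F ≤ secTriv (pCore p G) (pCoreOf p F) := fun f hf =>
    ⟨mem_normalizer_pCore f, hFQ' hf, fun u hu => comm_core hF hu hf⟩
  have hEcen : E ≤ centralizer (ZE p F : Set G) := by
    intro e he
    rw [mem_centralizer_iff]
    intro z hz
    rw [← hZ] at hz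
    exact (zE_comm E hz he)
  have hFcen : F ≤ centralizer (ZE p F : Set G) := by
    intro e he
    rw [mem_centralizer_iff]
    intro z hz
    exact (zE_comm F hz he)
  intro d hd
  obtain ⟨f, hf, hfs⟩ := exists_same qE.hF qF.hF nE qF.n₁ hEO' hEZ' hFO' hFZ' (zE_le_omE F) hd
  have hcO : f⁻¹ * d ∈ O := mul_mem (inv_mem (hFO hf)) (hEO hd)
  have hc1 : f⁻¹ * d ∈ secTriv (pCore p G) (pCoreOf p F) := mul_mem (inv_mem (hFsec hf)) (hEsec hd)
  have hc3 : f⁻¹ * d ∈ secTriv (OmE p F) (ZE p F) :=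
    ⟨mul_mem (inv_mem (hFO' hf)) (hEO' hd), mul_mem (inv_mem (hFZ' hf)) (hEZ' hd),
      fun u hu => same_comm (hFZ' hf) (hfs u hu)⟩
  have hc4 : f⁻¹ * d ∈ centralizer (ZE p F : Set G) := mul_mem (inv_mem (hFcen hf)) (hEcen hd)
  have hcN : f⁻¹ * d ∈ normalizer (pCoreOf p F : Set G) := mul_mem (inv_mem (hFQ' hf)) (hEQ' hd)
  have key : f⁻¹ * d ∈ pCore p G := by
    rcases qF.hex with hq | ⟨⟨m⟩⟩
    · refine chain_three hG hRp hWp hZp hr (hOr _ hcO) hc1 ⟨hcN, hc3.1, fun x hx => ?_⟩ hc3 hc4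
      rw [← hq]
      exact mul_mem (conj_mem_of_mem_normalizer hcN hx) (inv_mem hx)
    · rcases qE.hex with hq' | ⟨⟨n⟩⟩
      · exfalso
        apply ex_not_gen m
        rw [← hOm, ← hQ]
        exact hq'
      · have nE₂ : NatSec F₁ E (pCoreOf p F) (OmE p F) := by
          rw [← hQ, ← hOm]
          exact n.n₂
        obtain ⟨f', hf', hfs'⟩ := exists_same qE.hF qF.hF nE₂ m.n₂ hEQ' hEO' hFQ' hFO'
          (omE_le_core F) hd
        set c := f⁻¹ * d with hc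
        set t := f⁻¹ * f' with ht
        have htF : t ∈ F := mul_mem (inv_mem hf) hf'
        let K₂ : Subgroup G := normalizer (pCoreOf p F : Set G) ⊓ normalizer (OmE p F : Set G)
        let d₂ : SecData K₂ (pCoreOf p F) (OmE p F) (Fin 2 → F₂) :=
          m.n₂.sec inf_le_left inf_le_right
        have hcK : c ∈ K₂ := mem_inf.2 ⟨hcN, hc3.1⟩
        have hcact : ∀ y, d₂.hat c y = (m.n₂.ρ t : Matrix (Fin 2) (Fin 2) F₂) *ᵥ y := by
          intro y
          obtain ⟨x, hx, rfl⟩ := d₂.pr_surj y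
          have hx1 : c * x * c⁻¹ ∈ pCoreOf p F := conj_mem_of_mem_normalizer hcN hx
          have hx2 : t * x * t⁻¹ ∈ pCoreOf p F :=
            conj_mem_of_mem_normalizer (hFQ' htF) hx
          have h1 : (c * x * c⁻¹) * (t * x * t⁻¹)⁻¹ ∈ OmE p F := by
            have h2 := conj_mem_of_mem_normalizer (inv_mem (hFO' hf)) (hfs' x hx)
            have e : (c * x * c⁻¹) * (t * x * t⁻¹)⁻¹ =
                f⁻¹ * ((d * x * d⁻¹) * (f' * x * f'⁻¹)⁻¹) * f⁻¹⁻¹ := by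
              rw [hc, ht]
              group
            rw [e]
            exact h2
          have h3 := (d₂.pr_eq_iff hx1 hx2).2 h1
          rw [d₂.hat_spec c hcK x hx] at h3
          rw [h3]
          exact m.n₂.ψ_eq t htF x hx
        rcases shape_three qF.hF (m.n₂.ρ_mem t htF) with hs | hs | hs
        · refine chain_three hG hRp hWp hZp hr (hOr _ hcO) hc1 ⟨hcN, hc3.1, ?_⟩ hc3 hc4
          apply (d₂.hat_eq_one_iff hcK hcN).1
          apply AddMonoidHom.ext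
          intro y
          show d₂.hat c y = y
          rw [hcact, hs, Matrix.one_mulVec]
        · exfalso
          refine no_delta hG hF hFs m qF.hF O hOr hcO hc1 hc3 hc4 (fun x hx => ?_)
          have h1 := hcact (d₂.pr x)
          rw [hs, Matrix.neg_mulVec, Matrix.one_mulVec, ← d₂.hat_spec c hcK x hx] at h1
          have hx1 : c * x * c⁻¹ ∈ pCoreOf p F := conj_mem_of_mem_normalizer hcN hx
          refine (d₂.pr_ker _ (mul_mem hx1 hx)).1 ?_
          rw [d₂.pr_mul _ hx1 _ hx, h1, neg_add_cancel]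
        · exfalso
          have hcc := mul_mem hcK hcK
          have hN2 : c * c ∈ normalizer (pCoreOf p F : Set G) := mul_mem hcN hcN
          refine no_delta hG hF hFs m qF.hF O hOr (mul_mem hcO hcO) (mul_mem hc1 hc1)
            (mul_mem hc3 hc3) (mul_mem hc4 hc4) (fun x hx => ?_)
          have hx1 : (c * c) * x * (c * c)⁻¹ ∈ pCoreOf p F := conj_mem_of_mem_normalizer hN2 hx
          refine (d₂.pr_ker _ (mul_mem hx1 hx)).1 ?_
          rw [d₂.pr_mul _ hx1 _ hx, d₂.hat_spec _ hcc x hx, d₂.hat_mul _ hcK _ hcK]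
          have h1 : (d₂.hat c * d₂.hat c) (d₂.pr x) = d₂.hat c (d₂.hat c (d₂.pr x)) := rfl
          rw [h1, hcact, hcact, Matrix.mulVec_mulVec, hs, Matrix.neg_mulVec, Matrix.one_mulVec,
            neg_add_cancel]
  have e : d = f * (f⁻¹ * d) := by group
  rw [e]
  exact mul_mem (mem_sup_left hf) (mem_sup_right key)

/-- Two quaternion blocks normalizing each other whose intersection is not in `O_p(G)` coincide. -/
theorem exotic {F₁ F₂ : Type} [Field F₁] [Fintype F₁] [Field F₂] [Fintype F₂]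
    (hG : centralizer (pCore p G : Set G) ≤ pCore p G) {T T' : Sylow p G} {E F : Subgroup G}
    (hE : IsBaumannBlock p (T : Subgroup G) E) (hF : IsBaumannBlock p (T' : Subgroup G) F)
    (hEs : E.IsSubnormal) (hFs : F.IsSubnormal)
    (qE : QB p F₁ (T : Subgroup G) E) (qF : QB p F₂ (T' : Subgroup G) F)
    (hFE : F ≤ normalizer (E : Set G)) (hEF : E ≤ normalizer (F : Set G))
    (O : Subgroup G) [hOn : O.Normal] (hOr : ∀ x ∈ O, ∃ k : ℕ, x ^ (2 ^ k) ∈ pCore p G)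
    (hEO : E ≤ O) (hFO : F ≤ O) {y : G} (hyE : y ∈ E) (hyF : y ∈ F) (hyP : y ∉ pCore p G) :
    E = F := by
  have hkerE := ker_om qE.n₁ qE.hiso
  have hkerF := ker_om qF.n₁ qF.hiso
  have h3₁ := char3 qE.hF
  -- an element with matrix `-1`
  obtain ⟨z, hzE, hzF, hzρ⟩ : ∃ z ∈ E, z ∈ F ∧ (qE.n₁.ρ z : Matrix (Fin 2) (Fin 2) F₁) = -1 := by
    rcases shape_three qE.hF (qE.n₁.ρ_mem y hyE) with h | h | h
    · exact (hyP (core_le hEs ((hkerE y hyE).1 (Subtype.ext h)))).elim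
    · exact ⟨y, hyE, hyF, h⟩
    · refine ⟨y * y, mul_mem hyE hyE, mul_mem hyF hyF, ?_⟩
      rw [qE.n₁.ρ_mul y hyE y hyE, coe_mul', h]
  have hzQE : z ∉ pCoreOf p E := by
    intro h
    have h1 := (hkerE z hzE).2 h
    rw [h1] at hzρ
    exact neg_one_ne' h3₁ hzρ.symm
  have hzzE : z * z ∈ pCoreOf p E := by
    refine (hkerE _ (mul_mem hzE hzE)).1 ?_
    apply Subtype.ext
    rw [qE.n₁.ρ_mul z hzE z hzE, coe_mul', hzρ]
    simp
  have hzP : z ∉ pCore p G := fun h => hzQE (mem_core_of hzE h)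
  have hzQF : z ∉ pCoreOf p F := fun h => hzP (core_le hFs h)
  have hzzF : z * z ∈ pCoreOf p F := mem_core_of (mul_mem hzF hzF) (core_le hEs hzzE)
  have hzρF := neg_of_sq qF.hF qF.n₁ hkerF hzF hzQF hzzF
  have hQ : pCoreOf p E = pCoreOf p F :=
    le_antisymm (core_le_of_neg hE hF hEs qE hzE hzF hzρ hzQE hzzE)
      (core_le_of_neg hF hE hFs qF hzF hzE hzρF hzQF hzzF)
  have hOm : OmE p E = OmE p F := by
    show omegaOneCenter p (pCoreOf p E) = omegaOneCenter p (pCoreOf p F)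
    rw [hQ]
  have hZ : ZE p E = ZE p F := by
    rcases qE.hex with hq | ⟨⟨n⟩⟩ <;> rcases qF.hex with hq' | ⟨⟨m⟩⟩
    · rw [zE_bot_of_gen hE qE hq, zE_bot_of_gen hF qF hq']
    · exfalso
      apply ex_not_gen m
      rw [← hOm, ← hQ]
      exact hq
    · exfalso
      apply ex_not_gen n
      rw [hOm, hQ]
      exact hq'
    · rw [← n.hQQ, ← m.hQQ, hQ]
  have h1 := exo_le_sup hG hE hF hFs qE qF hEF O hOr hEO hFO hQ hZ
  have h2 := exo_le_sup hG hF hE hEs qF qE hFE O hOr hFO hEO hQ.symm hZ.symm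
  have heq : E ⊔ pCore p G = F ⊔ pCore p G :=
    le_antisymm (sup_le h1 le_sup_right) (sup_le h2 le_sup_right)
  rw [← block_residual hE, ← block_residual hF, heq]

end Cfsg.Agent.Lib.BPair.Exo
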