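/-
Subnormal blocks with solvable quotient: the quotient by `O_p(G)`, and the commuting argument.
-/
import Cfsg.Agent.Lib.BPair.Exo

set_option autoImplicit false
set_option linter.unusedSectionVars false
set_option linter.unusedVariables false

namespace Cfsg.Agent.Lib.BPair.Solv

open Subgroup Cfsg Matrix
open Cfsg.Agent.Lib.LocalEven.Util
open Cfsg.Agent.Lib.LocalEven.Baumann
open Cfsg.Agent.Lib.LocalEven.BaumannBlock
open Cfsg.Agent.Lib.LocalEven.SecIrr
open Cfsg.Agent.Lib.LocalStruct.PCoreOf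
open Cfsg.Agent.Lib.FG85.BB
open Cfsg.Agent.Lib.BPair.Conj
open Cfsg.Agent.Lib.BPair.Basic
open Cfsg.Agent.Lib.BPair.Small
open Cfsg.Agent.Lib.BPair.Types
open Cfsg.Agent.Lib.BPair.Sec
open Cfsg.Agent.Lib.BPair.Inv
open Cfsg.Agent.Lib.BPair.Comm
open Cfsg.Agent.Lib.BPair.Exo
open Cfsg.Agent.Lib.Components.Basic
open Cfsg.Agent.Lib.PReduced.RelNorm (mem_normalizer_inf mem_normalizer_sup mem_normalizer_centralizer)
open scoped commutatorElement

universe u

variable {G : Type u} [Group G] [Finite G] {p : ℕ} [Fact p.Prime]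

/-- The image of a subnormal subgroup in `G / O_p(G)` is `E / O_p(E)`. -/
theorem map_iso {E : Subgroup G} (hEs : E.IsSubnormal) :
    Nonempty (↥E ⧸ pCore p ↥E ≃* ↥(E.map (QuotientGroup.mk' (pCore p G)))) := by
  let f : ↥E →* G ⧸ pCore p G := (QuotientGroup.mk' (pCore p G)).comp E.subtype
  have hker : f.ker = pCore p ↥E := by
    ext x
    rw [MonoidHom.mem_ker]
    constructor
    · intro h
      have h1 : (x : G) ∈ pCore p G := (QuotientGroup.eq_one_iff _).1 h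
      have h2 := mem_core_of x.2 h1
      obtain ⟨y, hy, e⟩ := h2
      have : y = x := Subtype.ext e
      rwa [← this]
    · intro h
      have h1 : (x : G) ∈ pCoreOf p E := ⟨x, h, rfl⟩
      exact (QuotientGroup.eq_one_iff _).2 (core_le hEs h1)
  have hr : f.range = E.map (QuotientGroup.mk' (pCore p G)) := by
    rw [MonoidHom.range_comp, Subgroup.range_subtype]
  rw [← hr]
  exact ⟨(QuotientGroup.quotientMulEquivOfEq hker.symm).trans (QuotientGroup.quotientKerEquivRange f)⟩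

theorem card_map {E : Subgroup G} (hEs : E.IsSubnormal) :
    Nat.card ↥(E.map (QuotientGroup.mk' (pCore p G))) = Nat.card (↥E ⧸ pCore p ↥E) := by
  obtain ⟨φ⟩ := map_iso (p := p) hEs
  exact (Nat.card_congr φ.toEquiv).symm

theorem sup_eq_of_map_eq {E F : Subgroup G}
    (h : E.map (QuotientGroup.mk' (pCore p G)) = F.map (QuotientGroup.mk' (pCore p G))) :
    E ⊔ pCore p G = F ⊔ pCore p G := by
  have := congrArg (Subgroup.comap (QuotientGroup.mk' (pCore p G))) h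
  rwa [comap_map_eq, comap_map_eq, QuotientGroup.ker_mk'] at this

theorem eq_of_map_eq {T T' : Sylow p G} {E F : Subgroup G}
    (hE : IsBaumannBlock p (T : Subgroup G) E) (hF : IsBaumannBlock p (T' : Subgroup G) F)
    (h : E.map (QuotientGroup.mk' (pCore p G)) = F.map (QuotientGroup.mk' (pCore p G))) : E = F := by
  rw [← block_residual hE, ← block_residual hF, sup_eq_of_map_eq h]

/-- Subnormal blocks, not quasisimple modulo the core. -/
def Fam (p : ℕ) [Fact p.Prime] (E : Subgroup G) : Prop :=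
  E.IsSubnormal ∧ (∃ T : Sylow p G, IsBaumannBlock p (T : Subgroup G) E) ∧ ¬ Quasi p E

theorem quasi_of_cj (g : G) {E : Subgroup G} (h : Quasi p (cj g E)) : Quasi p E := by
  obtain ⟨φ⟩ := iso_cj (p := p) g E (X := ↥E ⧸ pCore p ↥E) ⟨MulEquiv.refl _⟩
  obtain ⟨h1, r, hr1, hr2⟩ := h
  refine ⟨quasisimple_of_mulEquiv φ h1, φ r, ?_, ?_⟩
  · intro h2
    exact hr1 (φ.injective (by rw [h2, map_one]))
  · rw [← map_pow, hr2, map_one]

theorem Fam.cj (g : G) {E : Subgroup G} (h : Fam p E) : Fam p (cj g E) := by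
  obtain ⟨h1, ⟨T, hT⟩, h3⟩ := h
  exact ⟨cj_isSubnormal g h1, ⟨g • T, cj_sylow_block g hT⟩, fun h4 => h3 (quasi_of_cj g h4)⟩

/-- The two types of blocks. -/
theorem Fam.cases {E : Subgroup G} (h : ¬ Quasi p E) {T : Subgroup G}
    (hE : IsBaumannBlock p T E) :
    Three p E ∨ ∃ (F : Type) (_ : Field F) (_ : Fintype F), Nonempty (QB p F T E) := by
  rcases block_types hE with h1 | h1 | h1
  · exact (h h1).elim
  · exact Or.inl h1
  · exact Or.inr h1

theorem Fam.cen {T : Subgroup G} {E : Subgroup G} (h : ¬ Quasi p E) (hE : IsBaumannBlock p T E)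
    {a : G} (ha : a ∈ WE p E) (hc : a ∈ centralizer (E : Set G)) : a = 1 := by
  rcases Fam.cases h hE with t | ⟨F₁, i1, i2, ⟨q⟩⟩
  · exact three_cen hE t ha hc
  · obtain ⟨i, hi, j, hj, hz⟩ := exists_neg (char3 q.hF) q.n₁
    have hzE : i * j * i⁻¹ * j⁻¹ ∈ E :=
      mul_mem (mul_mem (mul_mem hi hj) (inv_mem hi)) (inv_mem hj)
    exact wE_cen_of_neg q.hp q.n₁ (ker_om q.n₁ q.hiso) hzE hz ha hc

theorem Fam.card {T : Subgroup G} {E : Subgroup G} (h : ¬ Quasi p E) (hE : IsBaumannBlock p T E) :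
    Nat.card (WE p E) = p ^ 2 := by
  rcases Fam.cases h hE with t | ⟨F₁, i1, i2, ⟨q⟩⟩
  · rw [three_wE hE t, three_card hE t, t.1]
    norm_num
  · rw [card_wE_of_nat hE (Finite.of_fintype F₁) q.n₁ (fun y hy hc => Fam.cen h hE hy hc), q.hp,
      Nat.card_eq_fintype_card, Fintype.card_fun, Fintype.card_fin, q.hF]

theorem Fam.card_quot {T T' : Subgroup G} {E F : Subgroup G} (h : ¬ Quasi p E) (hE : IsBaumannBlock p T E)
    (h' : ¬ Quasi p F) (hF : IsBaumannBlock p T' F) :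
    Nat.card (↥E ⧸ pCore p ↥E) = Nat.card (↥F ⧸ pCore p ↥F) := by
  rcases Fam.cases h hE with t | ⟨F₁, i1, i2, ⟨q⟩⟩ <;>
    rcases Fam.cases h' hF with t' | ⟨F₂, i3, i4, ⟨q'⟩⟩
  · rw [t.2.1, t'.2.1]
  · have h1 := t.1
    have h2 := q'.hp
    omega
  · have h1 := t'.1
    have h2 := q.hp
    omega
  · obtain ⟨φ⟩ := q.hiso
    obtain ⟨φ'⟩ := q'.hiso
    rw [Nat.card_congr φ.toEquiv, Nat.card_congr φ'.toEquiv]
    exact card_SS_three q.hF q'.hF

/-- Elements of the block are `r`-elements modulo the core. -/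
theorem Fam.rpow2 (hp : p = 2) {T : Subgroup G} {E : Subgroup G} (h : ¬ Quasi p E)
    (hE : IsBaumannBlock p T E) {e : G} (he : e ∈ E) : e ^ (3 ^ 1) ∈ pCoreOf p E := by
  rcases Fam.cases h hE with t | ⟨F₁, i1, i2, ⟨q⟩⟩
  · rw [pow_one]
    exact pow_three_core t he
  · have := q.hp
    omega

theorem Fam.rpow3 (hp : p = 3) {T : Subgroup G} {E : Subgroup G} (h : ¬ Quasi p E)
    (hE : IsBaumannBlock p T E) {e : G} (he : e ∈ E) : e ^ (2 ^ 2) ∈ pCoreOf p E := by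
  rcases Fam.cases h hE with t | ⟨F₁, i1, i2, ⟨q⟩⟩
  · have := t.1
    omega
  · have hker := ker_om q.n₁ q.hiso
    refine (hker _ (pow_mem he _)).1 ?_
    rw [q.n₁.ρ_pow he]
    apply Subtype.ext
    have e4 : ∀ r : SpecialLinearGroup (Fin 2) F₁, r ^ (2 ^ 2) = (r * r) * (r * r) := by
      intro r
      have e5 : (2 ^ 2 : ℕ) = 4 := by norm_num
      rw [e5]
      simp only [pow_succ, pow_zero, one_mul, mul_assoc]
    rw [e4, coe_mul', coe_mul']
    rcases shape_three q.hF (q.n₁.ρ_mem e he) with h1 | h1 | h1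
    · rw [h1]
      simp
    · rw [h1]
      simp
    · rw [h1]
      simp

/-- The preimage of `O_r(G / O_p(G))`. -/
theorem exists_O (r : ℕ) : ∃ O : Subgroup G, O.Normal ∧ pCore p G ≤ O ∧
    (∀ x ∈ O, ∃ k : ℕ, x ^ (r ^ k) ∈ pCore p G) ∧
    ∀ E : Subgroup G, E.IsSubnormal → (∀ e ∈ E, ∃ k : ℕ, e ^ (r ^ k) ∈ pCore p G) → E ≤ O := by
  refine ⟨(pCore r (G ⧸ pCore p G)).comap (QuotientGroup.mk' (pCore p G)), inferInstance, ?_, ?_, ?_⟩
  · intro x hx
    rw [mem_comap]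
    have : (QuotientGroup.mk' (pCore p G)) x = 1 := (QuotientGroup.eq_one_iff x).2 hx
    rw [this]
    exact one_mem _
  · intro x hx
    rw [mem_comap] at hx
    obtain ⟨k, hk⟩ := (Cfsg.Agent.Lib.Core.Basic.pCore_isPGroup (p := r) (G := G ⧸ pCore p G))
      ⟨_, hx⟩
    refine ⟨k, (QuotientGroup.eq_one_iff _).1 ?_⟩
    simpa using congrArg Subtype.val hk
  · intro E hEs hE
    have hmap : (E.map (QuotientGroup.mk' (pCore p G))).IsSubnormal :=
      hEs.map (QuotientGroup.mk'_surjective _)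
    have hpg : IsPGroup r (E.map (QuotientGroup.mk' (pCore p G))) := by
      rintro ⟨_, e, he, rfl⟩
      obtain ⟨k, hk⟩ := hE e he
      refine ⟨k, Subtype.ext ?_⟩
      show ((QuotientGroup.mk' (pCore p G)) e) ^ (r ^ k) = 1
      rw [← map_pow]
      exact (QuotientGroup.eq_one_iff _).2 hk
    have hle := Cfsg.Agent.Lib.Core.Basic.le_pCore_of_isSubnormal hmap hpg
    intro e he
    exact hle ⟨e, he, rfl⟩

/-- In an extension of a normal subgroup by an `r`-group, subgroups containing the normal subgroup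
lie in normal proper subgroups. -/
theorem exists_normal_between {r : ℕ} [Fact r.Prime] {P H Y : Subgroup G} (hPH : P ≤ H) (hHY : H ≤ Y)
    (hne : H ≠ Y) (hPY : Y ≤ normalizer (P : Set G)) (hr : ∀ y ∈ Y, ∃ k : ℕ, y ^ (r ^ k) ∈ P) :
    ∃ M : Subgroup G, H ≤ M ∧ M ≤ Y ∧ M ≠ Y ∧ Y ≤ normalizer (M : Set G) := by
  have hPY' : P ≤ Y := hPH.trans hHY
  haveI hN : (P.subgroupOf Y).Normal := (normal_subgroupOf_iff_le_normalizer hPY').2 hPY
  let Q := ↥Y ⧸ P.subgroupOf Y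
  have hQ : IsPGroup r Q := by
    intro x
    obtain ⟨y, rfl⟩ := QuotientGroup.mk_surjective x
    obtain ⟨k, hk⟩ := hr y y.2
    refine ⟨k, ?_⟩
    show ((y ^ (r ^ k) : ↥Y) : Q) = 1
    rw [QuotientGroup.eq_one_iff, mem_subgroupOf]
    exact hk
  haveI : Group.IsNilpotent Q := hQ.isNilpotent
  let H' : Subgroup Q := (H.subgroupOf Y).map (QuotientGroup.mk' (P.subgroupOf Y))
  have hH' : H' ≠ ⊤ := by
    intro h
    apply hne
    apply le_antisymm hHY
    intro y hy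
    have h1 : ((⟨y, hy⟩ : ↥Y) : Q) ∈ H' := by
      rw [h]
      trivial
    obtain ⟨h₀, hh₀, e⟩ := h1
    have e' : ((h₀ : ↥Y) : Q) = ((⟨y, hy⟩ : ↥Y) : Q) := e
    rw [QuotientGroup.eq, mem_subgroupOf] at e'
    have h2 := hPH e'
    have h3 : (h₀ : G) ∈ H := mem_subgroupOf.1 hh₀
    have e2 : y = (h₀ : G) * (((h₀ : ↥Y)⁻¹ * ⟨y, hy⟩ : ↥Y) : G) := by
      simp
    rw [e2]
    exact mul_mem h3 h2
  obtain ⟨C, hC, hHC⟩ := (eq_top_or_exists_le_coatom H').resolve_left hH'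
  have hCn : C.Normal := NormalizerCondition.normal_of_coatom C normalizerCondition_of_isNilpotent hC
  refine ⟨(C.comap (QuotientGroup.mk' (P.subgroupOf Y))).map Y.subtype, ?_, ?_, ?_, ?_⟩
  · intro h hh
    refine ⟨⟨h, hHY hh⟩, ?_, rfl⟩
    show QuotientGroup.mk' (P.subgroupOf Y) _ ∈ C
    exact hHC ⟨⟨h, hHY hh⟩, mem_subgroupOf.2 hh, rfl⟩
  · rintro _ ⟨y, -, rfl⟩
    exact y.2
  · intro h
    apply hC.1
    rw [eq_top_iff]
    intro x _
    obtain ⟨y, rfl⟩ := QuotientGroup.mk_surjective x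
    have h1 : (y : G) ∈ (C.comap (QuotientGroup.mk' (P.subgroupOf Y))).map Y.subtype := by
      rw [h]
      exact y.2
    obtain ⟨y', hy', e⟩ := h1
    have : y' = y := Subtype.ext e
    rw [this] at hy'
    exact hy'
  · intro y hy
    apply mem_normalizer_of_conj_le
    rintro _ ⟨x, hx, rfl⟩
    refine ⟨⟨y, hy⟩ * x * (⟨y, hy⟩ : ↥Y)⁻¹, ?_, ?_⟩
    · show QuotientGroup.mk' (P.subgroupOf Y) _ ∈ C
      rw [map_mul, map_mul, map_inv]
      exact hCn.conj_mem _ hx _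
    · simp

theorem Fam.rpow {r : ℕ} (hrc : (p = 2 ∧ r = 3) ∨ (p = 3 ∧ r = 2)) {T : Subgroup G} {E : Subgroup G}
    (h : ¬ Quasi p E) (hE : IsBaumannBlock p T E) {e : G} (he : e ∈ E) :
    ∃ k : ℕ, e ^ (r ^ k) ∈ pCoreOf p E := by
  rcases hrc with ⟨hp, rfl⟩ | ⟨hp, rfl⟩
  · exact ⟨1, Fam.rpow2 hp h hE he⟩
  · exact ⟨2, Fam.rpow3 hp h hE he⟩

theorem exists_r {T : Subgroup G} {E : Subgroup G} (h : ¬ Quasi p E) (hE : IsBaumannBlock p T E) :
    ∃ r : ℕ, r.Prime ∧ ((p = 2 ∧ r = 3) ∨ (p = 3 ∧ r = 2)) := by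
  rcases Fam.cases h hE with t | ⟨F₁, i1, i2, ⟨q⟩⟩
  · exact ⟨3, Nat.prime_three, Or.inl ⟨t.1, rfl⟩⟩
  · exact ⟨2, Nat.prime_two, Or.inr ⟨q.hp, rfl⟩⟩

theorem comm_of_bot {A B : Subgroup G} (h : ⁅A, B⁆ = ⊥) {a b : G} (ha : a ∈ A) (hb : b ∈ B) :
    a * b = b * a := by
  have := commutator_mem_commutator ha hb
  rw [h, mem_bot, commutatorElement_eq_one_iff_mul_comm] at this
  exact this

theorem cen_of_cj {E : Subgroup G} {g x : G} (h : ⁅E, cj g E⁆ = ⊥) (hx : x ∈ cj g E) :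
    x ∈ centralizer (E : Set G) := by
  rw [mem_centralizer_iff]
  intro e he
  exact comm_of_bot h he hx

theorem wE_le (E : Subgroup G) : WE p E ≤ E :=
  (wE_le_omE E).trans ((omE_le_core E).trans (pCoreOf_le E))

theorem diff_mem (hG : centralizer (pCore p G : Set G) ≤ pCore p G) {T T' : Sylow p G}
    {E F : Subgroup G} (hE : IsBaumannBlock p (T : Subgroup G) E)
    (hF : IsBaumannBlock p (T' : Subgroup G) F) (hFs : F.IsSubnormal) {a g : G} (ha : a ∈ WE p E)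
    (hg : g ∈ F) : a⁻¹ * (g * a * g⁻¹) ∈ WE p F := by
  have h1 : a⁻¹ ∈ VV₀ p G := inv_mem (wE_le_vV₀ hG hE ha)
  have h2 := comm_vV₀_le hF hFs (commutator_mem_commutator h1 hg)
  have e : ⁅a⁻¹, g⁆ = a⁻¹ * (g * a * g⁻¹) := by
    rw [commutatorElement_def]
    group
  rwa [e] at h2

theorem mem_of_cj_eq {E : Subgroup G} {t : G} (h : cj t E = E) : t ∈ normalizer (E : Set G) := by
  apply mem_normalizer_of_conj_le
  intro y hy
  have h1 : t * y * t⁻¹ ∈ cj t E := conj_mem_cj hy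
  rwa [h] at h1

/-- Three mutually commuting conjugates are impossible. -/
theorem sq_normal (hG : centralizer (pCore p G : Set G) ≤ pCore p G) {T T' : Sylow p G}
    {E F : Subgroup G} (hE : IsBaumannBlock p (T : Subgroup G) E)
    (hF : IsBaumannBlock p (T' : Subgroup G) F) (hFs : F.IsSubnormal) (hq : ¬ Quasi p E)
    (hcard : Nat.card (WE p E) = Nat.card (WE p F)) {t : G} (ht : t ∈ F)
    (h1 : ⁅E, cj t E⁆ = ⊥) (h2 : ⁅E, cj (t * t) E⁆ = ⊥) : False := by
  have hcen : ∀ a ∈ WE p E, a ∈ centralizer (E : Set G) → a = 1 := fun a ha hc =>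
    Fam.cen hq hE ha hc
  have hWE := wE_le (p := p) E
  let D₂ : ↥(WE p E) → ↥(WE p F) := fun b =>
    ⟨(b : G)⁻¹ * ((t * t) * b * (t * t)⁻¹), diff_mem hG hE hF hFs b.2 (mul_mem ht ht)⟩
  have hD₂ : Function.Injective D₂ := by
    rintro ⟨x, hx⟩ ⟨y, hy⟩ hxy
    have h3 : x⁻¹ * ((t * t) * x * (t * t)⁻¹) = y⁻¹ * ((t * t) * y * (t * t)⁻¹) :=
      congrArg Subtype.val hxy
    have e : (t * t) * (y * x⁻¹) * (t * t)⁻¹ = y * x⁻¹ := by
      have h4 : y * x⁻¹ * ((t * t) * x * (t * t)⁻¹) = (t * t) * y * (t * t)⁻¹ := by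
        rw [mul_assoc, h3]
        group
      calc (t * t) * (y * x⁻¹) * (t * t)⁻¹
          = ((t * t) * y * (t * t)⁻¹) * ((t * t) * x * (t * t)⁻¹)⁻¹ := by group
        _ = y * x⁻¹ := by
          rw [← h4]
          group
    have hu : y * x⁻¹ ∈ WE p E := mul_mem hy (inv_mem hx)
    have hu2 : y * x⁻¹ ∈ cj (t * t) E := by
      rw [← e]
      exact conj_mem_cj (hWE hu)
    have h5 := hcen _ hu (cen_of_cj h2 hu2)
    exact Subtype.ext (mul_inv_eq_one.1 h5).symm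
  have hsurj := (hD₂.bijective_of_nat_card_le hcard.ge).2
  obtain ⟨a, ha, ha1⟩ : ∃ a ∈ WE p E, a ≠ 1 := by
    by_contra hcon
    push Not at hcon
    exact wE_ne_bot hE (eq_bot_iff.2 fun x hx => mem_bot.2 (hcon x hx))
  obtain ⟨⟨b, hb⟩, hbe⟩ := hsurj ⟨a⁻¹ * (t * a * t⁻¹), diff_mem hG hE hF hFs ha ht⟩
  have h3 : b⁻¹ * ((t * t) * b * (t * t)⁻¹) = a⁻¹ * (t * a * t⁻¹) := congrArg Subtype.val hbe
  have e : a * b⁻¹ = (t * a * t⁻¹) * ((t * t) * b * (t * t)⁻¹)⁻¹ := by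
    have h4 : a * b⁻¹ * ((t * t) * b * (t * t)⁻¹) = t * a * t⁻¹ := by
      rw [mul_assoc, h3]
      group
    rw [← h4]
    group
  have hx1 : a * b⁻¹ ∈ WE p E := mul_mem ha (inv_mem hb)
  have hx2 : a * b⁻¹ ∈ centralizer (E : Set G) := by
    rw [e]
    exact mul_mem (cen_of_cj h1 (conj_mem_cj (hWE ha)))
      (inv_mem (cen_of_cj h2 (conj_mem_cj (hWE hb))))
  have hab : a = b := mul_inv_eq_one.1 (hcen _ hx1 hx2)
  rw [← hab] at h3
  have h6 := mul_left_cancel h3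
  have h7 : t * a * t⁻¹ = a := by
    have e1 : (t * t) * a * (t * t)⁻¹ = t * (t * a * t⁻¹) * t⁻¹ := by group
    rw [e1] at h6
    have h8 := congrArg (fun x => t⁻¹ * x * t) h6
    have e2 : t⁻¹ * (t * (t * a * t⁻¹) * t⁻¹) * t = t * a * t⁻¹ := by group
    have e3 : t⁻¹ * (t * a * t⁻¹) * t = a := by group
    rwa [e2, e3] at h8
  have h9 : a ∈ cj t E := by
    rw [← h7]
    exact conj_mem_cj (hWE ha)
  exact ha1 (hcen a ha (cen_of_cj h1 h9))

/-- An element of `F` inverting `W_F` and normalizing `E` gives a contradiction with `E` and `E^t`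
commuting. -/
theorem qb_normal (hG : centralizer (pCore p G : Set G) ≤ pCore p G) {T T' : Sylow p G}
    {E F : Subgroup G} (hE : IsBaumannBlock p (T : Subgroup G) E)
    (hF : IsBaumannBlock p (T' : Subgroup G) F) (hFs : F.IsSubnormal) (hq : ¬ Quasi p E)
    (hcard : Nat.card (WE p E) = Nat.card (WE p F)) {F₂ : Type} [Field F₂] [Fintype F₂]
    (qF : QB p F₂ (T' : Subgroup G) F) {z : G} (hzF : z ∈ F)
    (hzρ : (qF.n₁.ρ z : Matrix (Fin 2) (Fin 2) F₂) = -1) (hzN : z ∈ normalizer (E : Set G)) {t : G}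
    (ht : t ∈ F) (h1 : ⁅E, cj t E⁆ = ⊥) : False := by
  have hp := qF.hp
  have hcen : ∀ a ∈ WE p E, a ∈ centralizer (E : Set G) → a = 1 := fun a ha hc =>
    Fam.cen hq hE ha hc
  have hWE := wE_le (p := p) E
  have hkerF := ker_om qF.n₁ qF.hiso
  have hzW : z ∈ normalizer (WE p E : Set G) := normalizer_le_wE E hzN
  -- `z` normalizes `E^t`
  have hzN' : ∀ y ∈ cj t E, z * y * z⁻¹ ∈ cj t E := by
    intro y hy
    rw [mem_cj] at hy ⊢
    have hq₀ : t⁻¹ * z * t⁻¹⁻¹ * z⁻¹ ∈ pCoreOf p F := central_mod qF.n₁ hkerF hzF (inv_mem ht) hzρ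
    have hq₁ : t⁻¹ * z * t⁻¹⁻¹ * z⁻¹ ∈ normalizer (E : Set G) :=
      pCore_le_normalizer_block hE (core_le hFs hq₀)
    have hw : t⁻¹ * z * t ∈ normalizer (E : Set G) := by
      have e : t⁻¹ * z * t = (t⁻¹ * z * t⁻¹⁻¹ * z⁻¹) * z := by group
      rw [e]
      exact mul_mem hq₁ hzN
    have h2 := conj_mem_of_mem_normalizer hw hy
    have e : t⁻¹ * (z * y * z⁻¹) * t = (t⁻¹ * z * t) * (t⁻¹ * y * t) * (t⁻¹ * z * t)⁻¹ := by group
    rw [e]
    exact h2
  have hinv : ∀ a ∈ WE p E, z * a * z⁻¹ = a⁻¹ := by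
    intro a ha
    set A := t * a * t⁻¹ with hA
    have hAc : A ∈ cj t E := conj_mem_cj (hWE ha)
    set a' := z * a * z⁻¹ with ha'
    have ha'W : a' ∈ WE p E := conj_mem_of_mem_normalizer hzW ha
    set A' := z * A * z⁻¹ with hA'
    have hA'c : A' ∈ cj t E := hzN' A hAc
    have hx : a⁻¹ * A ∈ WE p F := diff_mem hG hE hF hFs ha ht
    have h2 := inv_wE qF.n₁ hkerF hzF hx hzρ
    have e1 : z * (a⁻¹ * A) * z⁻¹ = a'⁻¹ * A' := by
      rw [ha', hA']
      group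
    rw [e1] at h2
    have hcomm : a * A⁻¹ = A⁻¹ * a := comm_of_bot h1 (hWE ha) (inv_mem hAc)
    have h3 : a⁻¹ * a'⁻¹ = A⁻¹ * A'⁻¹ := by
      have h4 : (a⁻¹ * A)⁻¹ = a * A⁻¹ := by
        rw [_root_.mul_inv_rev, inv_inv, hcomm]
      rw [h4] at h2
      have h5 : a⁻¹ * (a'⁻¹ * A') = A⁻¹ := by
        rw [h2]
        group
      rw [← h5]
      group
    have hu : a⁻¹ * a'⁻¹ ∈ WE p E := mul_mem (inv_mem ha) (inv_mem ha'W)
    have hu2 : a⁻¹ * a'⁻¹ ∈ cj t E := by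
      rw [h3]
      exact mul_mem (inv_mem hAc) (inv_mem hA'c)
    have h6 := hcen _ hu (cen_of_cj h1 hu2)
    have h7 : (a⁻¹ * a'⁻¹)⁻¹ = a' * a := by
      rw [_root_.mul_inv_rev, inv_inv, inv_inv]
    rw [h6, inv_one] at h7
    exact eq_inv_of_mul_eq_one_left h7.symm
  have hle : WE p E ≤ WE p F := by
    intro a ha
    have h2 := diff_mem hG hE hF hFs ha hzF
    rw [hinv a ha] at h2
    have h3 : a ^ 3 = 1 := by
      have := wE_pow ha
      rwa [hp] at this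
    have e : a = a⁻¹ * a⁻¹ := by
      have h4 : a ^ 3 = a * a * a := by
        simp only [pow_succ, pow_zero, one_mul]
      rw [h4] at h3
      calc a = (a * a * a) * (a⁻¹ * a⁻¹) := by group
        _ = a⁻¹ * a⁻¹ := by rw [h3, one_mul]
    rw [e]
    exact h2
  have heq : WE p E = WE p F := Subgroup.eq_of_le_of_card_ge hle hcard.ge
  apply wE_ne_bot hE
  rw [eq_bot_iff]
  intro a ha
  have h2 : t * a * t⁻¹ ∈ WE p E := by
    rw [heq]
    exact conj_mem_of_mem_normalizer (le_normalizer_wE F ht) (heq ▸ ha)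
  have h3 := hcen _ h2 (cen_of_cj h1 (conj_mem_cj (hWE ha)))
  have h4 : a = 1 := by
    have e : a = t⁻¹ * (t * a * t⁻¹) * t := by group
    rw [e, h3]
    group
  exact mem_bot.2 h4

/-- One half of the main step: `F` normalizes `E`. -/
theorem half (hG : centralizer (pCore p G : Set G) ≤ pCore p G) {T T' : Sylow p G}
    {E F : Subgroup G} (hE : IsBaumannBlock p (T : Subgroup G) E)
    (hF : IsBaumannBlock p (T' : Subgroup G) F) (hEs : E.IsSubnormal) (hFs : F.IsSubnormal)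
    (hqE : ¬ Quasi p E) (hqF : ¬ Quasi p F) {r : ℕ} [Fact r.Prime]
    (hrc : (p = 2 ∧ r = 3) ∨ (p = 3 ∧ r = 2)) (O : Subgroup G) (hPO : pCore p G ≤ O)
    (hOr : ∀ x ∈ O, ∃ k : ℕ, x ^ (r ^ k) ∈ pCore p G) (hEO : E ≤ O) (hFO : F ≤ O) (hne : E ≠ F)
    (hIH : ∀ E' F' : Subgroup G, Fam p E' → Fam p F' →
      Nat.card ↥(E' ⊔ F' ⊔ pCore p G) < Nat.card ↥(E ⊔ F ⊔ pCore p G) → E' = F' ∨ ⁅E', F'⁆ = ⊥) :
    F ≤ normalizer (E : Set G) := by
  have hfam : Fam p E := ⟨hEs, ⟨T, hE⟩, hqE⟩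
  have hH : E ⊔ pCore p G ≠ E ⊔ F ⊔ pCore p G := by
    intro h
    apply hne
    have hF' : F ≤ E ⊔ pCore p G := by
      rw [h]
      exact le_sup_right.trans le_sup_left
    have hle : F.map (QuotientGroup.mk' (pCore p G)) ≤ E.map (QuotientGroup.mk' (pCore p G)) := by
      rintro _ ⟨f, hf, rfl⟩
      have hEP : E ≤ normalizer (pCore p G : Set G) := fun e _ => mem_normalizer_pCore e
      obtain ⟨e, he, q, hq, rfl⟩ := mem_sup_of_le_normalizer hEP (hF' hf)
      refine ⟨e, he, ?_⟩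
      have : (QuotientGroup.mk' (pCore p G)) q = 1 := (QuotientGroup.eq_one_iff q).2 hq
      rw [map_mul, this, mul_one]
    have heq := Subgroup.eq_of_le_of_card_ge hle (by
      rw [card_map hEs, card_map hFs, Fam.card_quot hqE hE hqF hF])
    exact (eq_of_map_eq hF hE heq).symm
  have hYO : E ⊔ F ⊔ pCore p G ≤ O := sup_le (sup_le hEO hFO) hPO
  obtain ⟨M, hHM, hMY, hMne, hYM⟩ := exists_normal_between (r := r) (P := pCore p G)
    (H := E ⊔ pCore p G) (Y := E ⊔ F ⊔ pCore p G) le_sup_right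
    (sup_le (le_sup_left.trans le_sup_left) le_sup_right) hH
    (fun y _ => mem_normalizer_pCore y) (fun y hy => hOr y (hYO hy))
  have hlt : Nat.card M < Nat.card ↥(E ⊔ F ⊔ pCore p G) := by
    by_contra hcon
    exact hMne (Subgroup.eq_of_le_of_card_ge hMY (not_lt.1 hcon))
  have hIHt : ∀ t ∈ F, cj t E = E ∨ ⁅E, cj t E⁆ = ⊥ := by
    intro t ht
    have hle : cj t E ≤ M := by
      rintro _ ⟨e, he, rfl⟩
      exact conj_mem_of_mem_normalizer (hYM (mem_sup_left (mem_sup_right ht)))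
        (hHM (mem_sup_left he))
    rcases hIH E (cj t E) hfam (hfam.cj t) (lt_of_le_of_lt (Subgroup.card_le_of_le (sup_le (sup_le
      (le_sup_left.trans hHM) hle) (le_sup_right.trans hHM))) hlt) with h | h
    · exact Or.inl h.symm
    · exact Or.inr h
  have hcard : Nat.card (WE p E) = Nat.card (WE p F) := by
    rw [Fam.card hqE hE, Fam.card hqF hF]
  have hsq : ∀ t ∈ F, t * t ∈ normalizer (E : Set G) := by
    intro t ht
    by_contra hn
    have h1 : ¬ cj t E = E := fun h => hn (mul_mem (mem_of_cj_eq h) (mem_of_cj_eq h))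
    have h2 : ¬ cj (t * t) E = E := fun h => hn (mem_of_cj_eq h)
    exact sq_normal hG hE hF hFs hqE hcard ht ((hIHt t ht).resolve_left h1)
      ((hIHt _ (mul_mem ht ht)).resolve_left h2)
  rcases Fam.cases hqF hF with tF | ⟨F₂, i1, i2, ⟨qF⟩⟩
  · intro t ht
    have h3 := pow_three_core tF ht
    have h4 : t ^ 3 ∈ normalizer (E : Set G) :=
      pCore_le_normalizer_block hE (core_le hFs h3)
    have e : t = (t * t) * (t * t) * (t ^ 3)⁻¹ := by
      simp only [pow_succ, pow_zero, one_mul]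
      group
    rw [e]
    exact mul_mem (mul_mem (hsq t ht) (hsq t ht)) (inv_mem h4)
  · obtain ⟨i, j, hi, hj, hii, -, -, -⟩ := exists_ij' (F := F₂) (char3 qF.hF)
    obtain ⟨i₀, hi₀, hi'⟩ := qF.n₁.ρ_surj i hi
    have hz : (qF.n₁.ρ (i₀ * i₀) : Matrix (Fin 2) (Fin 2) F₂) = -1 := by
      rw [qF.n₁.ρ_mul _ hi₀ _ hi₀, hi', coe_mul', hii]
    intro t ht
    by_contra hn
    have h1 : ¬ cj t E = E := fun h => hn (mem_of_cj_eq h)
    exact qb_normal hG hE hF hFs hqE hcard qF (mul_mem hi₀ hi₀) hz (hsq _ hi₀) ht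
      ((hIHt t ht).resolve_left h1)

/-- The commuting argument for subnormal blocks with solvable quotient. -/
theorem claim_A (hG : centralizer (pCore p G : Set G) ≤ pCore p G) {r : ℕ} [Fact r.Prime]
    (hrc : (p = 2 ∧ r = 3) ∨ (p = 3 ∧ r = 2)) (O : Subgroup G) [hOn : O.Normal]
    (hPO : pCore p G ≤ O) (hOr : ∀ x ∈ O, ∃ k : ℕ, x ^ (r ^ k) ∈ pCore p G)
    (hFam : ∀ E : Subgroup G, Fam p E → E ≤ O) :
    ∀ (n : ℕ) (E F : Subgroup G), Fam p E → Fam p F → Nat.card ↥(E ⊔ F ⊔ pCore p G) ≤ n →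
      E = F ∨ ⁅E, F⁆ = ⊥ := by
  intro n
  induction n using Nat.strong_induction_on with
  | _ n IH =>
    intro E F hEf hFf hcard
    by_cases hne : E = F
    · exact Or.inl hne
    have hEO := hFam E hEf
    have hFO := hFam F hFf
    obtain ⟨hEs, ⟨T, hE⟩, hqE⟩ := hEf
    obtain ⟨hFs, ⟨T', hF⟩, hqF⟩ := hFf
    have hIH : ∀ E' F' : Subgroup G, Fam p E' → Fam p F' →
        Nat.card ↥(E' ⊔ F' ⊔ pCore p G) < Nat.card ↥(E ⊔ F ⊔ pCore p G) →
        E' = F' ∨ ⁅E', F'⁆ = ⊥ := fun E' F' h1 h2 h3 =>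
      IH _ (lt_of_lt_of_le h3 hcard) E' F' h1 h2 le_rfl
    have hIH' : ∀ E' F' : Subgroup G, Fam p E' → Fam p F' →
        Nat.card ↥(E' ⊔ F' ⊔ pCore p G) < Nat.card ↥(F ⊔ E ⊔ pCore p G) →
        E' = F' ∨ ⁅E', F'⁆ = ⊥ := fun E' F' h1 h2 h3 => by
      rw [sup_comm F E] at h3
      exact hIH E' F' h1 h2 h3
    have hFE := half hG hE hF hEs hFs hqE hqF hrc O hPO hOr hEO hFO hne hIH
    have hEF := half hG hF hE hFs hEs hqF hqE hrc O hPO hOr hFO hEO (Ne.symm hne) hIH'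
    by_cases hIP : ∀ e ∈ E, ∀ f ∈ F, e * f * e⁻¹ * f⁻¹ ∈ pCore p G
    · have X : Pr p T T' E F := ⟨hG, hE, hF, hEs, hFs, hIP⟩
      exact X.step_two
    · push Not at hIP
      obtain ⟨e, he, f, hf, hn⟩ := hIP
      left
      have hyE : e * f * e⁻¹ * f⁻¹ ∈ E := by
        have h1 : f * e⁻¹ * f⁻¹ ∈ E := conj_mem_of_mem_normalizer (hFE hf) (inv_mem he)
        have e1 : e * f * e⁻¹ * f⁻¹ = e * (f * e⁻¹ * f⁻¹) := by group
        rw [e1]
        exact mul_mem he h1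
      have hyF : e * f * e⁻¹ * f⁻¹ ∈ F :=
        mul_mem (conj_mem_of_mem_normalizer (hEF he) hf) (inv_mem hf)
      rcases hrc with ⟨hp, rfl⟩ | ⟨hp, rfl⟩
      · have tE : Three p E := by
          rcases Fam.cases hqE hE with t | ⟨F₁, i1, i2, ⟨q⟩⟩
          · exact t
          · have := q.hp
            omega
        have tF : Three p F := by
          rcases Fam.cases hqF hF with t | ⟨F₁, i1, i2, ⟨q⟩⟩
          · exact t
          · have := q.hp
            omega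
        have hy1 : e * f * e⁻¹ * f⁻¹ ∉ pCoreOf p E := fun h => hn (core_le hEs h)
        have hy2 : e * f * e⁻¹ * f⁻¹ ∉ pCoreOf p F := fun h => hn (core_le hFs h)
        have hle1 : E ≤ F ⊔ pCore p G := by
          refine (three_le_sup tE hyE hy1).trans (sup_le ?_ ((core_le hEs).trans le_sup_right))
          rw [zpowers_le]
          exact mem_sup_left hyF
        have hle2 : F ≤ E ⊔ pCore p G := by
          refine (three_le_sup tF hyF hy2).trans (sup_le ?_ ((core_le hFs).trans le_sup_right))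
          rw [zpowers_le]
          exact mem_sup_left hyE
        have heq : E ⊔ pCore p G = F ⊔ pCore p G :=
          le_antisymm (sup_le hle1 le_sup_right) (sup_le hle2 le_sup_right)
        rw [← block_residual hE, ← block_residual hF, heq]
      · rcases Fam.cases hqE hE with t | ⟨F₁, i1, i2, ⟨qE⟩⟩
        · have := t.1
          omega
        rcases Fam.cases hqF hF with t | ⟨F₂, i3, i4, ⟨qF⟩⟩
        · have := t.1
          omega
        exact exotic hG hE hF hEs hFs qE qF hFE hEF O hOr hEO hFO hyE hyF hn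

end Cfsg.Agent.Lib.BPair.Solv
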