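/-
Two subnormal blocks relative to the Baumann subgroup are equal or commute.
-/
import Cfsg.Agent.Lib.BPair.Solv

set_option autoImplicit false
set_option linter.unusedSectionVars false
set_option linter.unusedVariables false

namespace Cfsg.Agent.Lib.BPair.Main

open Subgroup Cfsg
open Cfsg.Agent.Lib.LocalEven.Util
open Cfsg.Agent.Lib.LocalEven.Baumann
open Cfsg.Agent.Lib.LocalEven.BaumannBlock
open Cfsg.Agent.Lib.LocalStruct.PCoreOf
open Cfsg.Agent.Lib.BPair.Basic
open Cfsg.Agent.Lib.BPair.Types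
open Cfsg.Agent.Lib.BPair.Comm
open Cfsg.Agent.Lib.BPair.Solv
open Cfsg.Agent.Lib.Components.Basic
open scoped commutatorElement

universe u

variable {G : Type u} [Group G] [Finite G] {p : ℕ} [Fact p.Prime]

theorem comm_of_map_bot {E F : Subgroup G}
    (h : ⁅E.map (QuotientGroup.mk' (pCore p G)), F.map (QuotientGroup.mk' (pCore p G))⁆ = ⊥) :
    ∀ e ∈ E, ∀ f ∈ F, e * f * e⁻¹ * f⁻¹ ∈ pCore p G := by
  intro e he f hf
  have h1 := commutator_mem_commutator (mem_map_of_mem (QuotientGroup.mk' (pCore p G)) he)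
    (mem_map_of_mem (QuotientGroup.mk' (pCore p G)) hf)
  rw [h, mem_bot] at h1
  exact (QuotientGroup.eq_one_iff _).1 h1

theorem component_of_quasi {E : Subgroup G} (hEs : E.IsSubnormal) (hq : Quasi p E) :
    IsComponent (E.map (QuotientGroup.mk' (pCore p G))) := by
  obtain ⟨φ⟩ := map_iso (p := p) hEs
  exact ⟨hEs.map (QuotientGroup.mk'_surjective _), quasisimple_of_mulEquiv φ hq.1⟩

theorem quasi_solv (hG : centralizer (pCore p G : Set G) ≤ pCore p G) {T T' : Sylow p G}
    {E F : Subgroup G} (hE : IsBaumannBlock p (T : Subgroup G) E)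
    (hF : IsBaumannBlock p (T' : Subgroup G) F) (hEs : E.IsSubnormal) (hFs : F.IsSubnormal)
    (hq : Quasi p E) (hq' : ¬ Quasi p F) : E = F ∨ ⁅E, F⁆ = ⊥ := by
  obtain ⟨r, hrp, hrc⟩ := exists_r hq' hF
  haveI : Fact r.Prime := ⟨hrp⟩
  have cE := component_of_quasi hEs hq
  have hFm : (F.map (QuotientGroup.mk' (pCore p G))).IsSubnormal :=
    hFs.map (QuotientGroup.mk'_surjective _)
  rcases component_le_or_commutator_eq_bot cE hFm with h | h
  · exfalso
    have hpg : IsPGroup r (F.map (QuotientGroup.mk' (pCore p G))) := by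
      rintro ⟨_, e, he, rfl⟩
      obtain ⟨k, hk⟩ := Fam.rpow hrc hq' hF he
      refine ⟨k, Subtype.ext ?_⟩
      show ((QuotientGroup.mk' (pCore p G)) e) ^ (r ^ k) = 1
      rw [← map_pow]
      exact (QuotientGroup.eq_one_iff _).2 (core_le hFs hk)
    exact quasisimple_not_nilpotent cE.2 (hpg.to_le h).isNilpotent
  · have X : Pr p T T' E F := ⟨hG, hE, hF, hEs, hFs, comm_of_map_bot h⟩
    exact X.step_two

/-- **Two subnormal blocks are equal or commute.** -/
theorem main (hG : centralizer (pCore p G : Set G) ≤ pCore p G) (E F : Subgroup G)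
    (hE : ∃ T : Sylow p G, IsBaumannBlock p (T : Subgroup G) E)
    (hF : ∃ T : Sylow p G, IsBaumannBlock p (T : Subgroup G) F)
    (hEs : E.IsSubnormal) (hFs : F.IsSubnormal) : E = F ∨ ⁅E, F⁆ = ⊥ := by
  obtain ⟨T, hE⟩ := hE
  obtain ⟨T', hF⟩ := hF
  by_cases hqE : Quasi p E
  · by_cases hqF : Quasi p F
    · rcases component_eq_or_commutator_eq_bot (component_of_quasi hEs hqE)
        (component_of_quasi hFs hqF) with h | h
      · exact Or.inl (eq_of_map_eq hE hF h)
      · have X : Pr p T T' E F := ⟨hG, hE, hF, hEs, hFs, comm_of_map_bot h⟩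
        exact X.step_two
    · exact quasi_solv hG hE hF hEs hFs hqE hqF
  · by_cases hqF : Quasi p F
    · rcases quasi_solv hG hF hE hFs hEs hqF hqE with h | h
      · exact Or.inl h.symm
      · right
        rw [commutator_comm]
        exact h
    · obtain ⟨r, hrp, hrc⟩ := exists_r hqE hE
      haveI : Fact r.Prime := ⟨hrp⟩
      obtain ⟨O, hOn, hPO, hOr, hOE⟩ := exists_O (p := p) (G := G) r
      have hFam : ∀ E' : Subgroup G, Fam p E' → E' ≤ O := by
        rintro E' ⟨hs, ⟨S, hS⟩, hq⟩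
        apply hOE E' hs
        intro e he
        obtain ⟨k, hk⟩ := Fam.rpow hrc hq hS he
        exact ⟨k, core_le hs hk⟩
      exact claim_A hG hrc O hPO hOr hFam _ E F ⟨hEs, ⟨T, hE⟩, hqE⟩ ⟨hFs, ⟨T', hF⟩, hqF⟩ le_rfl

end Cfsg.Agent.Lib.BPair.Main
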